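import Cfsg.Agent.H4.SmallK
import Cfsg.Agent.H4.Dom
import Cfsg.Agent.H4.AbelCount

/-!
# Blocks with abelian defect group of order eight and one Brauer character (owner: helper4)
-/

set_option autoImplicit false
set_option linter.unusedSectionVars false
set_option linter.style.haveILetI false

namespace Cfsg.Agent.H4

open scoped ComplexConjugate
open Cfsg Cfsg.Agent.CharBase Cfsg.Agent.Blk Cfsg.Agent.BlkInd Cfsg.Agent.BlkC Cfsg.Agent.BlkF

universe u

section dom

variable {H : Type u} [Group H] [Fintype H] {M : Ideal AlgInt} [M.IsPrime] {p : ℕ}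
variable [hp : Fact p.Prime] {Q : Subgroup H} [Q.Normal] {b : Set (IrrCharacter H)}

/-- **the rank of a block equals the rank of its image modulo a central `p`-subgroup** -/
theorem rank_dom (hM : IsPModular p M) (hQ : IsPGroup p Q)
    (hQc : Q ≤ Subgroup.center H) (hb : IsPBlock M b) :
    blockRank p b = blockRank p (dom Q b) := by
  classical
  obtain ⟨V, hV⟩ : ∃ V, V = Submodule.span ℂ ((fun χ : IrrCharacter (H ⧸ Q) =>
      pRegularPart p (χ : H ⧸ Q → ℂ)) '' dom Q b) := ⟨_, rfl⟩
  obtain ⟨W, hW⟩ : ∃ W, W = Submodule.span ℂ ((fun χ : IrrCharacter H =>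
      pRegularPart p (χ : H → ℂ)) '' b) := ⟨_, rfl⟩
  have hVs : ∀ f ∈ V, ∀ y, p ∣ orderOf y → f y = 0 := by
    intro f hf y hy
    rw [hV] at hf
    induction hf using Submodule.span_induction with
    | mem f hf =>
      obtain ⟨χ, -, rfl⟩ := hf
      exact pRegularPart_apply_of_sing hy _
    | zero => rfl
    | add f g _ _ h1 h2 => rw [Pi.add_apply, h1, h2, add_zero]
    | smul a f _ h1 => rw [Pi.smul_apply, h1, smul_zero]
  have hmap : V.map (pullReg p Q) = W := by
    apply le_antisymm
    · rw [hV, Submodule.map_span, Submodule.span_le]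
      rintro _ ⟨_, ⟨χ, hχ, rfl⟩, rfl⟩
      rw [hW]
      simp only
      rw [pullReg_pRegularPart]
      exact Submodule.subset_span ⟨inflI χ, hχ, rfl⟩
    · rw [hW, Submodule.span_le]
      rintro _ ⟨η, hη, rfl⟩
      obtain ⟨n, hn⟩ := exists_int_expand hM hQ hQc hb hη
      refine ⟨∑ ψ ∈ Bfin (dom Q b), (n ψ : ℂ) • pRegularPart p (ψ : H ⧸ Q → ℂ), ?_, ?_⟩
      · refine Submodule.sum_mem _ fun ψ hψ => Submodule.smul_mem _ _ ?_
        rw [hV]
        exact Submodule.subset_span ⟨ψ, mem_Bfin.mp hψ, rfl⟩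
      · rw [map_sum]
        funext g
        rw [Finset.sum_apply]
        by_cases hg : p ∣ orderOf g
        · simp only
          rw [pRegularPart_apply_of_sing hg]
          refine Finset.sum_eq_zero fun ψ _ => ?_
          rw [map_smul, pullReg_pRegularPart, Pi.smul_apply, pRegularPart_apply_of_sing hg,
            smul_zero]
        · simp only
          rw [pRegularPart_apply_of_reg hg, hn g hg]
          refine Finset.sum_congr rfl fun ψ _ => ?_
          rw [map_smul, pullReg_pRegularPart, Pi.smul_apply, pRegularPart_apply_of_reg hg,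
            smul_eq_mul]
  unfold blockRank
  rw [← hV, ← hW, ← hmap]
  have hinj : Function.Injective ((pullReg p Q).domRestrict V) := by
    rw [← LinearMap.ker_eq_bot, LinearMap.ker_eq_bot']
    rintro ⟨f, hf⟩ h
    exact Subtype.ext (pullReg_injOn (hVs f hf) h)
  have h1 := LinearMap.finrank_range_of_inj hinj
  rw [LinearMap.range_domRestrict] at h1
  exact h1

end dom

section klein

variable {G : Type u} [Group G] [Fintype G] {M : Ideal AlgInt} {B : Set (IrrCharacter G)}
variable [∀ x : G, Fintype (Subgroup.centralizer ({x} : Set G))]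

/-- the rank of a block with Klein four defect group is odd -/
theorem klein_rank_odd (hM : IsPModular 2 M) (hB : IsPBlock M B) {D : Subgroup G}
    (hD : IsDefectGroup 2 M B D) (hV : IsKleinFour D) : Odd (blockRank 2 B) := by
  classical
  haveI := isPrime_of_isPModular hM
  haveI := charP_kM hM
  have hab : ∀ x ∈ D, ∀ y ∈ D, x * y = y * x := by
    have hexp : ∀ y ∈ D, y * y = 1 := fun y hy =>
      congrArg Subtype.val (IsKleinFour.mul_self (⟨y, hy⟩ : D))
    intro x hx y hy
    have h1 := hexp _ (D.mul_mem hx hy)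
    have h2 := hexp x hx
    have h3 := hexp y hy
    calc x * y = x * (x * y * (x * y)) * y := by rw [h1, mul_one]
      _ = (x * x) * (y * x) * (y * y) := by simp only [mul_assoc]
      _ = y * x := by rw [h2, h3, one_mul, mul_one]
  obtain ⟨c, hcB⟩ := exists_root hM hB hD
  obtain ⟨hpair, hmax, -⟩ := comm_setup hM hD hab hcB
  set T := stab (Subgroup.normalizer (D : Set G)) (EB M _ c) with hT
  have hTm : ∀ g : G, g ∈ T ↔ (g ∈ Subgroup.normalizer (D : Set G) ∧
      StabilizesBlock (Subgroup.centralizer (D : Set G)) c g) := by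
    intro g
    rw [hT, mem_stab]
    constructor
    · rintro ⟨h1, h2⟩
      exact ⟨h1, (stabilizesBlock_iff hcB.1 g).mpr
        ⟨normalizer_le_normalizer_centralizer D h1, h2⟩⟩
    · rintro ⟨h1, h2⟩
      exact ⟨h1, ((stabilizesBlock_iff hcB.1 g).mp h2).2⟩
  have h1 := klein_defect hM hB hD hV hcB hTm
  rw [h1.2.2]
  rcases h1.1 with h2 | h2 <;> rw [h2] <;> decide

end klein

theorem card_map_mk {H : Type*} [Group H] [Finite H] {Q D : Subgroup H} [Q.Normal] (hQD : Q ≤ D) :
    Nat.card (D.map (QuotientGroup.mk' Q)) * Nat.card Q = Nat.card D := by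
  have h1 := Subgroup.card_eq_card_quotient_mul_card_subgroup
    ((QuotientGroup.mk' Q).comp D.subtype).ker
  rw [Nat.card_congr (QuotientGroup.quotientKerEquivRange
    ((QuotientGroup.mk' Q).comp D.subtype)).toEquiv] at h1
  have h2 : ((QuotientGroup.mk' Q).comp D.subtype).range = D.map (QuotientGroup.mk' Q) := by
    rw [MonoidHom.range_comp, Subgroup.range_subtype]
  have h3 : ((QuotientGroup.mk' Q).comp D.subtype).ker = Q.subgroupOf D := by
    ext y
    rw [MonoidHom.mem_ker, Subgroup.mem_subgroupOf, MonoidHom.comp_apply]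
    exact QuotientGroup.eq_one_iff (y : H)
  rw [h2, h3, Nat.card_congr (Subgroup.subgroupOfEquivOfLe hQD).toEquiv] at h1
  exact h1.symm

/-- odd automorphisms of a non-elementary abelian group of order eight are trivial -/
theorem aut_trivial {P : Type*} [CommGroup P] [Finite P] (h8 : Nat.card P = 8) (w : P)
    (hw : w ^ 2 ≠ 1) (α : P →* P) (hα : Function.Injective α)
    (hodd : ∀ u, α (α u) = u → α u = u) : ∀ u, α u = u := by
  classical
  have hp8 : ∀ u : P, u ^ 8 = 1 := fun u => by rw [← h8]; exact pow_card_eq_one'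
  obtain ⟨K, hK⟩ : ∃ K, K = (powMonoidHom 2 : P →* P).ker := ⟨_, rfl⟩
  obtain ⟨S, hS⟩ : ∃ S, S = (powMonoidHom 2 : P →* P).range := ⟨_, rfl⟩
  have hKm : ∀ u, u ∈ K ↔ u ^ 2 = 1 := fun u => by rw [hK]; exact MonoidHom.mem_ker
  have hSm : ∀ u, u ∈ S ↔ ∃ v, v ^ 2 = u := fun u => by rw [hS]; exact MonoidHom.mem_range
  have hcard : Nat.card S * Nat.card K = 8 := by
    have h1 := Subgroup.card_eq_card_quotient_mul_card_subgroup K
    rw [h8] at h1
    rw [h1, hS]
    congr 1
    rw [hK]
    exact (Nat.card_congr (QuotientGroup.quotientKerEquivRange (powMonoidHom 2 : P →* P)).toEquiv).symm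
  obtain ⟨z, hzS, hz1, hz2⟩ : ∃ z ∈ S, z ≠ 1 ∧ z ^ 2 = 1 := by
    by_cases h4 : (w ^ 2) ^ 2 = 1
    · exact ⟨w ^ 2, (hSm _).mpr ⟨w, rfl⟩, hw, h4⟩
    · refine ⟨(w ^ 2) ^ 2, (hSm _).mpr ⟨w ^ 2, rfl⟩, h4, ?_⟩
      rw [← pow_mul, ← pow_mul]; exact hp8 w
  have hzK : z ∈ K := (hKm z).mpr hz2
  have hK1 : Nat.card K ≠ 1 := by
    intro h
    rw [Subgroup.card_eq_one] at h
    rw [h, Subgroup.mem_bot] at hzK
    exact hz1 hzK
  have hK8 : Nat.card K ≠ 8 := by
    intro h
    have : K = ⊤ := Subgroup.eq_top_of_card_eq K (by rw [h, h8])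
    exact hw ((hKm w).mp (this ▸ Subgroup.mem_top w))
  have two : ∀ {L : Subgroup P}, Nat.card L = 2 → ∀ a ∈ L, ∀ b ∈ L, a ≠ 1 → b ≠ 1 → a = b := by
    intro L hL a ha b hb ha1 hb1
    by_contra hab
    have h1 : ({1, a, b} : Set P) ⊆ (L : Set P) := by
      rintro y (rfl | rfl | rfl)
      · exact L.one_mem
      · exact ha
      · exact hb
    have h2 := Set.ncard_le_ncard h1 (Set.toFinite _)
    have h3 : (L : Set P).ncard = 2 := by rw [← hL]; rfl
    rw [h3, Set.ncard_eq_toFinset_card'] at h2
    have h4 : ({1, a, b} : Set P).toFinset = {1, a, b} := by simp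
    rw [h4, Finset.card_eq_three.mpr ⟨1, a, b, ha1.symm, hb1.symm, hab, rfl⟩] at h2
    omega
  have hαK : ∀ u ∈ K, α u ∈ K := fun u hu => by
    rw [hKm, ← map_pow, (hKm u).mp hu, map_one]
  have hne : ∀ u, u ≠ 1 → α u ≠ 1 := fun u hu h => hu (hα (by rw [h, map_one]))
  have h3 : ∀ u ∈ K, α u = u := by
    intro u hu
    by_cases hu1 : u = 1
    · rw [hu1, map_one]
    have hd : Nat.card K ∣ 2 ^ 3 := ⟨Nat.card S, by rw [mul_comm]; exact hcard.symm⟩
    obtain ⟨j, hj, hKj⟩ := (Nat.dvd_prime_pow Nat.prime_two).mp hd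
    have hj12 : j = 1 ∨ j = 2 := by
      have h0 : j ≠ 0 := by rintro rfl; exact hK1 hKj
      have h3 : j ≠ 3 := by rintro rfl; exact hK8 hKj
      omega
    rcases hj12 with rfl | rfl
    · exact two hKj _ (hαK u hu) _ hu (hne u hu1) hu1
    · have hS2 : Nat.card S = 2 := by
        rw [hKj] at hcard
        omega
      have hαz : α z = z := by
        obtain ⟨y, hy⟩ := (hSm z).mp hzS
        refine two hS2 _ ((hSm _).mpr ⟨α y, ?_⟩) _ hzS (hne z hz1) hz1
        rw [← map_pow, hy]
      by_cases huz : u = z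
      · rw [huz, hαz]
      have hsub : ({1, z, u, u * z} : Set P) ⊆ (K : Set P) := by
        rintro y (rfl | rfl | rfl | rfl)
        · exact K.one_mem
        · exact hzK
        · exact hu
        · exact K.mul_mem hu hzK
      have h4 : ({1, z, u, u * z} : Set P).ncard = 4 := by
        rw [Set.ncard_eq_toFinset_card']
        have h5 : ({1, z, u, u * z} : Set P).toFinset = {1, z, u, u * z} := by simp
        rw [h5]
        have e1 : u * z ≠ 1 := fun h => huz (by
          have : z * z = 1 := by rw [← pow_two]; exact hz2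
          exact mul_right_cancel (h.trans this.symm))
        have e2 : z ≠ u * z := fun h => hu1 (mul_right_cancel (b := z) (by rw [one_mul]; exact h.symm))
        have e3 : u ≠ u * z := fun h => hz1 (mul_left_cancel (a := u) (by rw [mul_one]; exact h.symm))
        rw [Finset.card_insert_of_notMem, Finset.card_insert_of_notMem,
          Finset.card_insert_of_notMem, Finset.card_singleton]
        · simpa using e3
        · simp only [Finset.mem_insert, Finset.mem_singleton, not_or]
          exact ⟨Ne.symm huz, e2⟩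
        · simp only [Finset.mem_insert, Finset.mem_singleton, not_or]
          exact ⟨Ne.symm hz1, Ne.symm hu1, Ne.symm e1⟩
      have h5 : (K : Set P).ncard = 4 := by
        have : (K : Set P).ncard = Nat.card K := rfl
        rw [this, hKj]; norm_num
      have h6 := Set.eq_of_subset_of_ncard_le hsub (by rw [h4, h5]) (Set.toFinite _)
      have h7 : α u ∈ ({1, z, u, u * z} : Set P) := by rw [h6]; exact hαK u hu
      rcases h7 with h7 | h7 | h7 | h7
      · exact absurd h7 (hne u hu1)
      · exact absurd (hα (h7.trans hαz.symm)) huz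
      · exact h7
      · refine hodd u ?_
        rw [h7, map_mul, h7, hαz, mul_assoc, ← pow_two, hz2, mul_one]
  have h4 : ∀ u, α (u ^ 2) = u ^ 2 → α u = u := by
    intro u hu
    refine hodd u ?_
    have h5 : α u * u⁻¹ ∈ K := by
      rw [hKm, mul_pow, ← map_pow, hu, inv_pow, mul_inv_cancel]
    have h6 := h3 _ h5
    rw [map_mul, map_inv] at h6
    have h7 : α (α u) = (α u * u⁻¹) * α u := by rw [← h6, inv_mul_cancel_right]
    rw [h7]
    have h8 : (α u * u⁻¹) * α u = (α u) ^ 2 * u⁻¹ := by rw [pow_two, mul_right_comm]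
    rw [h8, ← map_pow, hu, pow_two, mul_inv_cancel_right]
  intro u
  refine h4 u (h4 _ (h3 _ ?_))
  rw [hKm, ← pow_mul, ← pow_mul]; exact hp8 u

section eight

variable {G : Type u} [Group G] [Fintype G] {M : Ideal AlgInt} {B : Set (IrrCharacter G)}

/-- sections of blocks with elementary abelian defect group of order eight -/
theorem section_rank_odd (hM : IsPModular 2 M) (hB : IsPBlock M B) {P : Subgroup G}
    (hPD : IsDefectGroup 2 M B P) (h8 : Nat.card P = 8) (hexp : ∀ x ∈ P, x ^ 2 = 1)
    {x : G} (hx : ∃ k : ℕ, orderOf x = 2 ^ k) (hx1 : x ≠ 1)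
    {b : Set (IrrCharacter (Subgroup.centralizer ({x} : Set G)))}
    (hind : IsInducedBlock M (Subgroup.centralizer ({x} : Set G)) b B) :
    Odd (blockRank 2 b) := by
  classical
  haveI := isPrime_of_isPModular hM
  haveI := Fintype.ofFinite (Subgroup.centralizer ({x} : Set G))
  have hab : ∀ x ∈ P, ∀ y ∈ P, x * y = y * x := by
    intro x hx y hy
    have h1 := hexp _ (P.mul_mem hx hy)
    have h2 := hexp x hx
    have h3 := hexp y hy
    rw [pow_two] at h1 h2 h3
    calc x * y = x * (x * y * (x * y)) * y := by rw [h1, mul_one]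
      _ = (x * x) * (y * x) * (y * y) := by simp only [mul_assoc]
      _ = y * x := by rw [h2, h3, one_mul, mul_one]
  obtain ⟨D, hD⟩ := exists_defectGroup hM hind.1
  have hDB := sub_defect_comm hM hPD hab hx rfl hind hD
  have hexpD : ∀ y ∈ D, y ^ 2 = 1 := by
    intro y hy
    have := defect_prop hM hPD hB hDB hexp _ ⟨y, hy, rfl⟩
    exact Subtype.ext this
  have hcD : Nat.card D = 8 := by
    have h1 := card_defectGroup hM hB hDB
    rw [← card_defectGroup hM hB hPD, h8,
      ← Nat.card_congr (D.equivMapOfInjective (Subgroup.centralizer ({x} : Set G)).subtype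
        (Subgroup.centralizer ({x} : Set G)).subtype_injective).toEquiv] at h1
    exact h1
  have hxD := self_mem_defect hM hx rfl hind.1 hD
  obtain ⟨z, hz⟩ : ∃ z : Subgroup.centralizer ({x} : Set G), z = ⟨x, mem_self rfl⟩ := ⟨_, rfl⟩
  rw [← hz] at hxD
  have hz1 : z ≠ 1 := by
    rw [hz]; intro h; exact hx1 (congrArg Subtype.val h)
  have hz2 : orderOf z = 2 := orderOf_eq_prime (hexpD z hxD) hz1
  obtain ⟨Q, hQ⟩ : ∃ Q, Q = Subgroup.zpowers z := ⟨_, rfl⟩
  have hQc : Q ≤ Subgroup.center (Subgroup.centralizer ({x} : Set G)) := by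
    rw [hQ, Subgroup.zpowers_le, hz]
    exact mem_center_self rfl
  have hQcard : Nat.card Q = 2 := by rw [hQ, Nat.card_zpowers, hz2]
  have hQp : IsPGroup 2 Q := IsPGroup.of_card (n := 1) (by rw [hQcard, pow_one])
  haveI hQn : Q.Normal := ⟨fun q hq g => by
    have h1 := Subgroup.mem_center_iff.mp (hQc hq) g
    rw [h1, mul_inv_cancel_right]; exact hq⟩
  have hQD : Q ≤ D := by rw [hQ, Subgroup.zpowers_le]; exact hxD
  rw [rank_dom hM hQp hQc hind.1]
  haveI : ∀ y : (Subgroup.centralizer ({x} : Set G)) ⧸ Q,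
      Fintype (Subgroup.centralizer ({y} : Set _)) := fun y => Fintype.ofFinite _
  have hdef := defect_dom hM hQp hQc hind.1 hD
  refine klein_rank_odd hM (isPBlock_dom hM hQp hQc hind.1) hdef ?_
  have hcard : Nat.card (D.map (QuotientGroup.mk' Q)) = 4 := by
    have h1 := card_map_mk hQD
    rw [hQcard, hcD] at h1
    omega
  refine ⟨hcard, ?_⟩
  have h1 : ∀ y : D.map (QuotientGroup.mk' Q), y ^ 2 = 1 := by
    rintro ⟨y, d, hd, rfl⟩
    apply Subtype.ext
    show (QuotientGroup.mk' Q d) ^ 2 = 1
    rw [← map_pow, hexpD d hd, map_one]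
  have h2 : Monoid.exponent (D.map (QuotientGroup.mk' Q)) ∣ 2 :=
    Monoid.exponent_dvd_of_forall_pow_eq_one h1
  rcases (Nat.dvd_prime Nat.prime_two).mp h2 with h3 | h3
  · exfalso
    have h5 : Subsingleton (D.map (QuotientGroup.mk' Q)) := Monoid.exp_eq_one_iff.mp h3
    have h6 : Nat.card (D.map (QuotientGroup.mk' Q)) ≤ 1 :=
      Finite.card_le_one_iff_subsingleton.mpr h5
    omega
  · exact h3

/-- **a block with abelian defect group of order eight and one Brauer character does not have
exactly five ordinary characters** -/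
theorem abelian_eight_false (hM : IsPModular 2 M) (hB : IsPBlock M B) {P : Subgroup G}
    (hPD : IsDefectGroup 2 M B P) (h8 : Nat.card P = 8) (hab : ∀ x ∈ P, ∀ y ∈ P, x * y = y * x)
    (hl : blockRank 2 B = 1) (hk : Nat.card B = 5) : False := by
  classical
  haveI := isPrime_of_isPModular hM
  haveI := charP_kM hM
  haveI : ∀ x : G, Fintype (Subgroup.centralizer ({x} : Set G)) := fun x => Fintype.ofFinite _
  obtain ⟨c, hcB⟩ := exists_root hM hB hPD
  obtain ⟨hpair, hmax, -⟩ := comm_setup hM hPD hab hcB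
  obtain ⟨X, hX⟩ := exists_isNTRep G 2
  obtain ⟨Φ, hΦ1, hΦ2, hΦ3⟩ := exists_phi hM hB hmax hpair hab hX
  have hodd0 := not_dvd_inertial hM hmax hab
  obtain ⟨T, hT⟩ : ∃ T, T = stab (Subgroup.normalizer (P : Set G)) (EB M _ c) := ⟨_, rfl⟩
  rw [← hT] at hodd0 hΦ3
  have hTN : T ≤ Subgroup.normalizer (P : Set G) := by rw [hT]; exact fun g hg => hg.1
  -- the sum over the sections
  have hsum : ∑ s ∈ subs M X B, blockRank 2 s.2 = 4 := by
    have h1 := card_eq_add_sum hM hB hX
    rw [hk, hl, Finset.sum_sigma' X] at h1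
    have h2 : ∑ s ∈ subs M X B, blockRank 2 s.2 =
        ∑ s ∈ X.sigma fun x => indB M (Subgroup.centralizer ({x} : Set G)) B, blockRank 2 s.2 :=
      rfl
    omega
  -- the set of nontrivial elements
  have hα : Fintype.card {u : G // u ∈ P ∧ u ≠ 1} = 7 := by
    have h1 : Nat.card P = (P : Set G).ncard := rfl
    have h2 : ((P : Set G) \ {1}).ncard + 1 = (P : Set G).ncard :=
      Set.ncard_sdiff_singleton_add_one P.one_mem (Set.toFinite _)
    have h3 : Nat.card {u : G // u ∈ P ∧ u ≠ 1} = ((P : Set G) \ {1}).ncard := rfl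
    rw [← Nat.card_eq_fintype_card, h3]
    omega
  have hmod : Odd ((Subgroup.centralizer (P : Set G)).relIndex T) :=
    Nat.not_even_iff_odd.mp fun h => hodd0 h.two_dvd
  by_cases hexp : ∀ x ∈ P, x ^ 2 = 1
  · -- elementary abelian: the number of sections is odd
    have hfib : ∀ s ∈ subs M X B, Odd (Finset.univ.filter
        (fun u : {u : G // u ∈ P ∧ u ≠ 1} => Φ u = s)).card := by
      intro s hs
      obtain ⟨u0, rfl⟩ := hΦ2 s hs
      letI act : MulAction T G := MulAction.compHom G ((MulAut.conj : G →* MulAut G).comp T.subtype)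
      have hact : ∀ (t : T) (g : G), t • g = (t : G) * g * (t : G)⁻¹ := fun t g => rfl
      have h1 : (MulAction.stabilizer T (u0 : G)).index = (MulAction.orbit T (u0 : G)).ncard :=
        MulAction.index_stabilizer T (u0 : G)
      have h2 : (Subgroup.centralizer (P : Set G)).subgroupOf T ≤
          MulAction.stabilizer T (u0 : G) := by
        intro t ht
        rw [MulAction.mem_stabilizer_iff, hact]
        have h3 := Subgroup.mem_centralizer_iff.mp (Subgroup.mem_subgroupOf.mp ht) u0 u0.2.1
        rw [← h3, mul_inv_cancel_right]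
      have h3 : (MulAction.orbit T (u0 : G)).ncard ∣
          (Subgroup.centralizer (P : Set G)).relIndex T := by
        rw [← h1]
        exact Subgroup.index_dvd_of_le h2
      have h4 : MulAction.orbit T (u0 : G) = Subtype.val ''
          {u : {u : G // u ∈ P ∧ u ≠ 1} | Φ u = Φ u0} := by
        ext g
        constructor
        · rintro ⟨t, rfl⟩
          simp only [hact]
          have hn := hTN t.2
          have hmem : (t : G) * u0 * (t : G)⁻¹ ∈ P :=
            (Subgroup.mem_normalizer_iff.mp hn _).mp u0.2.1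
          have hne : (t : G) * u0 * (t : G)⁻¹ ≠ 1 := fun h => u0.2.2 (by
            calc (u0 : G) = (t : G)⁻¹ * ((t : G) * u0 * (t : G)⁻¹) * t := by group
              _ = 1 := by rw [h]; group)
          refine ⟨⟨_, hmem, hne⟩, ?_, rfl⟩
          exact ((hΦ3 u0 _).mpr ⟨t, t.2, rfl⟩).symm
        · rintro ⟨v, hv, rfl⟩
          obtain ⟨t, ht, htv⟩ := (hΦ3 u0 v).mp (Eq.symm hv)
          exact ⟨⟨t, ht⟩, htv⟩
      rw [h4, Set.ncard_image_of_injective _ Subtype.val_injective, Set.ncard_eq_toFinset_card'] at h3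
      have h5 : {u : {u : G // u ∈ P ∧ u ≠ 1} | Φ u = Φ u0}.toFinset =
          Finset.univ.filter (fun u : {u : G // u ∈ P ∧ u ≠ 1} => Φ u = Φ u0) := by
        ext u; simp
      rw [h5] at h3
      exact Odd.of_dvd_nat hmod h3
    have hcount := Finset.card_eq_sum_card_fiberwise (f := Φ)
      (s := (Finset.univ : Finset {u : G // u ∈ P ∧ u ≠ 1})) (t := subs M X B)
      (fun u _ => hΦ1 u)
    rw [Finset.card_univ, hα] at hcount
    have ho1 : Odd (subs M X B).card := by
      have h1 : Odd (∑ s ∈ subs M X B, (Finset.univ.filter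
        (fun u : {u : G // u ∈ P ∧ u ≠ 1} => Φ u = s)).card) := by
        rw [← hcount]; decide
      rw [Finset.odd_sum_iff_odd_card_odd, Finset.filter_true_of_mem hfib] at h1
      exact h1
    have hr : ∀ s ∈ subs M X B, Odd (blockRank 2 s.2) := by
      intro s hs
      obtain ⟨hs1, hs2⟩ := Finset.mem_sigma.mp hs
      rw [mem_indB] at hs2
      exact section_rank_odd hM hB hPD h8 hexp (hX.pel _ hs1) (hX.ne_one _ hs1) hs2
    have h1 : Odd (∑ s ∈ subs M X B, blockRank 2 s.2) := by
      rw [Finset.odd_sum_iff_odd_card_odd, Finset.filter_true_of_mem hr]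
      exact ho1
    rw [hsum] at h1
    exact absurd h1 (by decide)
  · push Not at hexp
    obtain ⟨w, hwP, hw⟩ := hexp
    -- `T` centralizes `P`
    have hcen : ∀ t ∈ T, ∀ u ∈ P, t * u * t⁻¹ = u := by
      intro t ht
      letI : CommGroup P := { (inferInstance : Group P) with
        mul_comm := fun a b => Subtype.ext (hab a a.2 b b.2) }
      have hn := hTN ht
      let α : P →* P :=
        { toFun := fun u => ⟨t * u * t⁻¹, (Subgroup.mem_normalizer_iff.mp hn _).mp u.2⟩
          map_one' := Subtype.ext (by simp)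
          map_mul' := fun a b => Subtype.ext (by simp) }
      have hα : ∀ u, ((α u : P) : G) = t * u * t⁻¹ := fun u => rfl
      obtain ⟨m, hm⟩ := hmod
      haveI : ((Subgroup.centralizer (P : Set G)).subgroupOf T).Normal := by
        refine ⟨fun c hc g => ?_⟩
        rw [Subgroup.mem_subgroupOf, Subgroup.mem_centralizer_iff] at hc ⊢
        intro y hy
        have hy' : (g : G)⁻¹ * y * g ∈ P := by
          have := (Subgroup.mem_normalizer_iff''.mp (hTN g.2) y).mp hy
          exact this
        have h1 := hc _ hy'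
        push_cast
        calc y * (g * c * (g : G)⁻¹) = g * (((g : G)⁻¹ * y * g) * c) * (g : G)⁻¹ := by group
          _ = g * (c * ((g : G)⁻¹ * y * g)) * (g : G)⁻¹ := by rw [h1]
          _ = (g * c * (g : G)⁻¹) * y := by group
      have hpow : t ^ (2 * m + 1) ∈ Subgroup.centralizer (P : Set G) := by
        have h1 := Subgroup.pow_index_mem ((Subgroup.centralizer (P : Set G)).subgroupOf T)
          (⟨t, ht⟩ : T)
        have h2 : ((Subgroup.centralizer (P : Set G)).subgroupOf T).index = 2 * m + 1 := hm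
        rw [h2, Subgroup.mem_subgroupOf] at h1
        exact h1
      have hfix : ∀ u : P, α (α u) = u → α u = u := by
        intro u hu
        have h1 : t * (t * u * t⁻¹) * t⁻¹ = u := congrArg Subtype.val hu
        have h2 : ∀ j : ℕ, (t ^ 2) ^ j * (u : G) = u * (t ^ 2) ^ j := by
          intro j
          have h3 : Commute (t ^ 2) (u : G) := by
            show t ^ 2 * (u : G) = u * t ^ 2
            calc t ^ 2 * (u : G) = (t * (t * u * t⁻¹) * t⁻¹) * t ^ 2 := by
                  rw [pow_two]; simp only [mul_assoc, inv_mul_cancel_left, inv_mul_cancel, mul_one]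
              _ = u * t ^ 2 := by rw [h1]
          exact (h3.pow_left j)
        have h3 := Subgroup.mem_centralizer_iff.mp hpow u u.2
        have h4 := h2 m
        rw [← pow_mul] at h4
        apply Subtype.ext
        rw [hα]
        have h5 : t * u * t ^ (2 * m) = u * t * t ^ (2 * m) := by
          calc t * u * t ^ (2 * m) = t * (t ^ (2 * m) * u) := by rw [h4, mul_assoc]
            _ = t ^ (2 * m + 1) * u := by rw [pow_succ']; group
            _ = u * t ^ (2 * m + 1) := h3.symm
            _ = u * t * t ^ (2 * m) := by rw [pow_succ', mul_assoc]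
        have h6 := mul_right_cancel h5
        rw [h6, mul_inv_cancel_right]
      have hinj : Function.Injective α := by
        intro a b h
        have h1 : t * (a : G) * t⁻¹ = t * b * t⁻¹ := congrArg Subtype.val h
        exact Subtype.ext (mul_left_cancel (mul_right_cancel h1))
      have hw' : (⟨w, hwP⟩ : P) ^ 2 ≠ 1 := fun h => hw (congrArg Subtype.val h)
      have key := aut_trivial h8 (⟨w, hwP⟩ : P) hw' α hinj hfix
      intro u hu
      exact congrArg Subtype.val (key ⟨u, hu⟩)
    have hinj : Function.Injective Φ := by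
      intro u v huv
      obtain ⟨t, ht, htu⟩ := (hΦ3 u v).mp huv
      rw [hcen t ht u u.2.1] at htu
      exact Subtype.ext htu
    have h1 : 7 ≤ (subs M X B).card := by
      rw [← hα, ← Finset.card_univ, ← Finset.card_image_of_injective _ hinj]
      refine Finset.card_le_card ?_
      intro s hs
      obtain ⟨u, -, rfl⟩ := Finset.mem_image.mp hs
      exact hΦ1 u
    have h2 : (subs M X B).card ≤ ∑ s ∈ subs M X B, blockRank 2 s.2 := by
      rw [Finset.card_eq_sum_ones]
      refine Finset.sum_le_sum fun s hs => ?_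
      obtain ⟨hs1, hs2⟩ := Finset.mem_sigma.mp hs
      rw [mem_indB] at hs2
      exact blockRank_pos hM hs2.1
    omega

end eight

end Cfsg.Agent.H4
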