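import Cfsg.Agent.H74.FSForm

/-!
# A real irreducible character containing the trivial character of a subgroup an odd number of
times has Frobenius–Schur indicator one (owner: helper4)
-/

set_option autoImplicit false

namespace Cfsg.Agent.H4.FSFix

open Cfsg Cfsg.Agent.CharBase Cfsg.Agent.S0158
open scoped ComplexConjugate Matrix

/-- A non-degenerate skew form restricted to the image of a self-adjoint idempotent: the rank of
the idempotent is even. -/
theorem even_finrank_of_skew {V : Type*} [AddCommGroup V] [Module ℂ V] [FiniteDimensional ℂ V]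
    (β : V →ₗ[ℂ] V →ₗ[ℂ] ℂ) (hskew : ∀ v w, β w v = - β v w)
    (hnd : ∀ w, (∀ v, β v w = 0) → w = 0) (E : V →ₗ[ℂ] V) (W : Submodule ℂ V)
    (hE : ∀ v, E v ∈ W) (hadj : ∀ v, ∀ w ∈ W, β (E v) w = β v w) :
    Even (Module.finrank ℂ W) := by
  classical
  set r := Module.finrank ℂ W with hr
  let b := Module.finBasis ℂ W
  let S : Matrix (Fin r) (Fin r) ℂ := fun i j => β (b i : V) (b j : V)
  have hSt : Sᵀ = -S := by
    ext i j
    change β (b j : V) (b i : V) = - β (b i : V) (b j : V)
    exact hskew _ _
  have hdet : S.det ≠ 0 := by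
    intro h0
    obtain ⟨x, hx0, hx⟩ := Matrix.exists_mulVec_eq_zero_iff.2 h0
    set w : W := ∑ j, x j • b j with hw
    have h1 : ∀ i, β (b i : V) (w : V) = 0 := by
      intro i
      have h2 := congrFun hx i
      rw [hw]
      push_cast
      rw [map_sum]
      simp only [map_smul, smul_eq_mul]
      have h3 : (S *ᵥ x) i = ∑ j, S i j * x j := rfl
      rw [h3] at h2
      rw [← show ∑ j, S i j * x j = 0 from h2]
      refine Finset.sum_congr rfl fun j _ => ?_
      rw [mul_comm]
    have h4 : ∀ u : W, β (u : V) (w : V) = 0 := by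
      intro u
      rw [← b.sum_repr u]
      push_cast
      rw [map_sum, LinearMap.sum_apply]
      refine Finset.sum_eq_zero fun i _ => ?_
      rw [map_smul, LinearMap.smul_apply, h1 i, smul_zero]
    have h5 : (w : V) = 0 := by
      apply hnd
      intro v
      rw [← hadj v w w.2]
      exact h4 ⟨E v, hE v⟩
    have h6 : w = 0 := Subtype.ext h5
    apply hx0
    have h7 := b.linearIndependent
    rw [Fintype.linearIndependent_iff] at h7
    funext j
    exact h7 x (by rw [← hw]; exact h6) j
  by_contra hodd
  rw [Nat.not_even_iff_odd] at hodd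
  have h8 := congrArg Matrix.det hSt
  rw [Matrix.det_transpose, Matrix.det_neg, Fintype.card_fin, hodd.neg_one_pow] at h8
  apply hdet
  have : (2 : ℂ) * S.det = 0 := by linear_combination h8
  simpa using this

/-- **A real-valued irreducible character containing `1_P` an odd number of times has
indicator `1`.** -/
theorem indicator_eq_one {G : Type*} [Group G] [Fintype G] {χ : G → ℂ}
    (hχ : IsIrrCharacter G χ) (hreal : ∀ g, (χ g).im = 0) (P : Subgroup G) [Fintype P] (k : ℕ) (hk : Odd k)
    (hfix : (Nat.card P : ℂ)⁻¹ * ∑ x : P, χ x = k) :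
    (Nat.card G : ℂ)⁻¹ * ∑ s : G, χ (s * s) = 1 := by
  classical
  obtain ⟨m, ρ, hρ, hχρ⟩ := hχ
  haveI := hρ
  subst hχρ
  let b := Module.finBasis ℂ (Fin m → ℂ)
  obtain ⟨htr, hirr, hker⟩ := matrix_facts ρ b
  set R : G →* Matrix (Fin (Module.finrank ℂ (Fin m → ℂ))) (Fin (Module.finrank ℂ (Fin m → ℂ))) ℂ :=
      (LinearMap.toMatrixAlgEquiv b).toAlgHom.toMonoidHom.comp ρ with hRdef
  have hG : (Nat.card G : ℂ) ≠ 0 := by exact_mod_cast Nat.card_pos.ne'
  have h1 : (Nat.card G : ℂ)⁻¹ * ∑ s : G, (R s).trace * (R s).trace ≠ 0 := by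
    have h2 : (Nat.card G : ℂ)⁻¹ * ∑ s : G, (R s).trace * (R s).trace =
        classInner ρ.character ρ.character := by
      unfold classInner
      congr 1
      refine Finset.sum_congr rfl fun s _ => ?_
      rw [htr, Complex.conj_eq_iff_im.2 (hreal s)]
    have h3 := classInner_irr (G := G) ⟨ρ.character, ⟨m, ρ, hρ, rfl⟩⟩ ⟨ρ.character, ⟨m, ρ, hρ, rfl⟩⟩
    rw [if_pos rfl] at h3
    rw [h2, h3]
    exact one_ne_zero
  obtain ⟨B, hB0, hB⟩ := Cfsg.Agent.H74.exists_invForm R h1
  have h3 := Cfsg.Agent.H74.transpose_eq_fs R hirr hker B hB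
  have h4 : ∑ s : G, (R (s * s)).trace = ∑ s : G, ρ.character (s * s) :=
    Finset.sum_congr rfl fun s _ => htr _
  rw [h4] at h3
  have hu : IsUnit B := hker B hB hB0
  rcases (S0158.result ρ).1 with h | h | h
  · exfalso
    rw [h, zero_smul] at h3
    apply hB0
    rw [← Matrix.transpose_transpose B, h3, Matrix.transpose_zero]
  · exact h
  · exfalso
    rw [h] at h3
    have hBt : Bᵀ = -B := by rw [h3]; simp
    -- the form
    let β : (Fin m → ℂ) →ₗ[ℂ] (Fin m → ℂ) →ₗ[ℂ] ℂ := Matrix.toLinearMap₂ b b B
    have hβ : ∀ v w, β v w = (b.equivFun v) ⬝ᵥ (B *ᵥ (b.equivFun w)) := by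
      intro v w
      rw [Matrix.toLinearMap₂_apply]
      simp only [dotProduct, Matrix.mulVec, Finset.mul_sum]
      refine Finset.sum_congr rfl fun i _ => Finset.sum_congr rfl fun j _ => ?_
      simp only [Module.Basis.equivFun_apply, smul_eq_mul]
      ring
    have hRv : ∀ g v, b.equivFun (ρ g v) = R g *ᵥ b.equivFun v := by
      intro g v
      exact (LinearMap.toMatrix_mulVec_repr b b (ρ g) v).symm
    have hinv : ∀ g v w, β (ρ g v) (ρ g w) = β v w := by
      intro g v w
      rw [hβ, hβ, hRv, hRv, Matrix.mulVec_mulVec, Matrix.dotProduct_mulVec, Matrix.vecMul_mulVec,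
        ← Matrix.dotProduct_mulVec, ← Matrix.mul_assoc, hB g]
    have hskew : ∀ v w, β w v = - β v w := by
      intro v w
      rw [hβ, hβ, Matrix.dotProduct_mulVec, ← Matrix.mulVec_transpose, hBt, Matrix.neg_mulVec,
        neg_dotProduct, dotProduct_comm]
    have hnd : ∀ w, (∀ v, β v w = 0) → w = 0 := by
      intro w hw
      have h5 : B *ᵥ b.equivFun w = 0 := by
        funext i
        have h6 := hw (b.equivFun.symm (Pi.single i 1))
        rw [hβ, LinearEquiv.apply_symm_apply, single_one_dotProduct] at h6
        exact h6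
      have h7 : b.equivFun w = 0 := by
        obtain ⟨u, hu⟩ := hu
        have h8 := congrArg (fun x => u.inv *ᵥ x) h5
        simp only [Matrix.mulVec_mulVec, Matrix.mulVec_zero] at h8
        rw [← hu, u.inv_val, Matrix.one_mulVec] at h8
        exact h8
      simpa using h7
    -- the projection to the fixed points
    let ρP : Representation ℂ P (Fin m → ℂ) := ρ.comp P.subtype
    have hcardP : (Fintype.card P : ℂ) ≠ 0 := by exact_mod_cast Fintype.card_ne_zero
    have : Invertible (Fintype.card P : ℂ) := invertibleOfNonzero hcardP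
    have hproj := Representation.isProj_averageMap ρP
    have hpartial : ∀ v, ∀ w ∈ ρP.invariants, β (ρP.averageMap v) w = β v w := by
      intro v w hw
      rw [Representation.mem_invariants] at hw
      have h9 : ρP.averageMap v = (⅟(Fintype.card P : ℂ)) • ∑ x : P, ρP x v := by
        simp [Representation.averageMap, GroupAlgebra.average, Representation.asAlgebraHom, map_sum]
      rw [h9, map_smul, map_sum, LinearMap.smul_apply, LinearMap.sum_apply]
      have h10 : ∀ x : P, β (ρP x v) w = β v w := by
        intro x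
        conv_lhs => rw [← hw x]
        exact hinv x v w
      rw [Finset.sum_congr rfl fun x _ => h10 x, Finset.sum_const, Finset.card_univ, nsmul_eq_mul,
        smul_eq_mul, invOf_mul_cancel_left]
    have heven := even_finrank_of_skew β hskew hnd ρP.averageMap ρP.invariants
      (fun v => hproj.map_mem v) hpartial
    have htrace : ((Module.finrank ℂ ρP.invariants : ℕ) : ℂ) = k := by
      rw [← hfix, ← hproj.trace]
      have h9 : ρP.averageMap = (⅟(Fintype.card P : ℂ)) • ∑ x : P, ρP x := by
        ext v
        simp [Representation.averageMap, GroupAlgebra.average, Representation.asAlgebraHom, map_sum]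
      rw [h9, map_smul, map_sum, smul_eq_mul, Nat.card_eq_fintype_card, invOf_eq_inv]
      rfl
    have h11 : Module.finrank ℂ ρP.invariants = k := by exact_mod_cast htrace
    rw [h11] at heven
    exact (Nat.not_even_iff_odd.2 hk) heven

end Cfsg.Agent.H4.FSFix
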