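import Cfsg.Agent.H4.LocH

/-!
# Symmetric local algebras with five-dimensional centre have dimension at most eight (owner: helper4)
-/

set_option autoImplicit false
set_option linter.unusedSectionVars false

namespace Cfsg.Agent.H4

open Submodule

variable {k : Type*} [Field k] {R : Type*} [Ring R] [Algebra k R]
variable {c : R} {A J : Submodule k R} {f : R →ₗ[k] k}

theorem exists_three_gen [Module.Finite k R] {W V : Submodule k R} (hWV : W ≤ V)
    (hf : Module.finrank k V ≤ Module.finrank k W + 3) :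
    (∃ x ∈ V, V ≤ span k {x} ⊔ W) ∨ (∃ x ∈ V, ∃ y ∈ V, V ≤ span k {x, y} ⊔ W ∧
      Module.finrank k V = Module.finrank k W + 2) ∨
    (∃ X : (Fin 3 → k) →ₗ[k] R, (∀ a, X a ∈ V) ∧ V ≤ LinearMap.range X ⊔ W ∧
      (∀ a, X a ∈ W → a = 0) ∧ Module.finrank k V = Module.finrank k W + 3) := by
  by_cases h2 : Module.finrank k V ≤ Module.finrank k W + 2
  · rcases exists_two_gen hWV h2 with h | h
    · exact Or.inl h
    · exact Or.inr (Or.inl h)
  have h3 : Module.finrank k V = Module.finrank k W + 3 := by omega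
  right; right
  -- a complement
  obtain ⟨C, hC⟩ := Submodule.exists_isCompl W
  obtain ⟨U, hU⟩ : ∃ U, U = V ⊓ C := ⟨_, rfl⟩
  have hUW : U ⊓ W = ⊥ := by
    rw [hU, inf_assoc, inf_comm C W, hC.inf_eq_bot, inf_bot_eq]
  have hsup : U ⊔ W = V := by
    rw [hU, inf_sup_assoc_of_le _ hWV, hC.symm.sup_eq_top, inf_top_eq]
  have hd := Submodule.finrank_sup_add_finrank_inf_eq U W
  rw [hUW, hsup, finrank_bot] at hd
  have hU3 : Module.finrank k U = 3 := by omega
  let B := Module.finBasisOfFinrankEq k U hU3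
  refine ⟨U.subtype.comp (B.equivFun.symm : (Fin 3 → k) →ₗ[k] U), ?_, ?_, ?_, h3⟩
  · intro a
    have : ((B.equivFun.symm a : U) : R) ∈ U := (B.equivFun.symm a).2
    rw [← hsup]
    exact Submodule.mem_sup_left this
  · rw [← hsup]
    refine sup_le_sup ?_ le_rfl
    intro u hu
    exact ⟨B.equivFun ⟨u, hu⟩, by simp⟩
  · intro a ha
    have h4 : ((B.equivFun.symm a : U) : R) ∈ U ⊓ W := ⟨(B.equivFun.symm a).2, ha⟩
    rw [hUW, Submodule.mem_bot] at h4
    have h5 : B.equivFun.symm a = 0 := Subtype.ext h4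
    exact B.equivFun.symm.map_eq_zero_iff.mp h5

/-- **a non-commutative symmetric local algebra with centre of dimension five has dimension at most
eight** -/
theorem SL.five [IsAlgClosed k] [Module.Finite k R] (h : SL c A J f) (hT : Twist k)
    (hf : Module.finrank k A ≤ Module.finrank k (cmt A) + 5) (hK : cmt A ≠ ⊥) :
    Module.finrank k (cmt A) ≤ 3 := by
  classical
  have hJ3 := h.J3_ne_bot hK
  have hJ3A : J ^ 3 ≤ A := (h.pow_le 2).trans h.le
  obtain ⟨hS3, hS0⟩ := h.soc_le hJ3A hJ3 (h.J_mul_pow 2)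
  have hJ32 : J ^ 3 ≤ J ^ 2 := by
    rw [show (J ^ 3 : Submodule k R) = J * J ^ 2 from pow_succ' _ _]
    exact h.J_mul_pow 1
  have hJ2 : J ^ 2 ≤ J := h.pow_le 1
  have h1 : Module.finrank k J < Module.finrank k A :=
    Submodule.finrank_lt_finrank_of_lt (lt_of_le_of_ne h.le fun h0 => h.notMem (by
      rw [h0]; exact h.one_mem))
  have hle : cmt A ⊔ socl A J ≤ J ^ 2 := sup_le h.cmt_le (hS3.trans hJ32)
  have h2 := Submodule.finrank_sup_add_finrank_inf_eq (cmt A) (socl A J)
  rw [h.soc_inf, finrank_bot, add_zero] at h2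
  have h3 : 0 < Module.finrank k (socl A J) :=
    Nat.pos_of_ne_zero fun h0 => hS0 (Submodule.finrank_eq_zero.mp h0)
  have h4 := Submodule.finrank_mono hle
  rcases exists_three_gen hJ2 (by omega) with ⟨x, hx, hJ⟩ | ⟨x, hx, y, hy, hJ, hfr⟩ |
      ⟨X, hX, hgen, hind, hfr⟩
  · exact absurd (h.cmt_bot_of_one hx hJ) hK
  · exact h.two_final hK hx hy hJ (by omega)
  · have h5 : cmt A ⊔ socl A J = J ^ 2 := Submodule.eq_of_le_of_finrank_le hle (by omega)
    by_cases h6 : J ^ 4 = ⊥
    · exact h.three_J4 hX hgen h6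
    · exfalso
      have hN := Nat.find_spec h.nil
      obtain ⟨N, hNe⟩ : ∃ N, N = Nat.find h.nil := ⟨_, rfl⟩
      rw [← hNe] at hN
      have hN4 : 4 ≤ N := by
        by_contra hlt
        apply h6
        rw [eq_bot_iff, ← hN]
        exact h.pow_anti (by omega) (by omega)
      obtain ⟨m, rfl⟩ : ∃ m, N = m + 1 := ⟨N - 1, by omega⟩
      have hm : J ^ (m + 1) ≠ ⊥ := Nat.find_min h.nil (by omega)
      have t : T3 c A J f X m := ⟨h, hX, hgen, hind, h5.ge, by omega, hm, hN⟩
      exact t.impossible hT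

end Cfsg.Agent.H4
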