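import Cfsg.Agent.H4.EightAb
import Cfsg.Agent.H4.LocI
import Cfsg.Agent.H10.Twist

/-!
# Blocks with `l(B) = 1` and `k(B) = 5` (owner: helper4)
-/

set_option autoImplicit false
set_option linter.unusedSectionVars false
set_option linter.style.haveILetI false

namespace Cfsg.Agent.H4

open scoped ComplexConjugate
open Cfsg Cfsg.Agent.CharBase Cfsg.Agent.Blk Cfsg.Agent.BlkInd Cfsg.Agent.BlkC Cfsg.Agent.BlkF
  Cfsg.Agent.Star

universe u

theorem twist_holds (k : Type*) [Field k] [IsAlgClosed k] : Twist k := by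
  intro b t x ht h1 h2 h3 C1 C2
  exact Cfsg.Agent.H10.Twist.twist (Module.finrank_fin_fun k) b t x ht h1 h2 h3 C1 C2

variable {G : Type u} [Group G] [Fintype G] {p : ℕ} [hp : Fact p.Prime] {M : Ideal AlgInt}
  [hMp : M.IsPrime] {B : Set (IrrCharacter G)}

/-- **the order of the defect group of a block with `l(B) = 1` and `k(B) = 5`** -/
theorem pow_of_rank_one_five (hM : IsPModular p M) (hB : IsPBlock M B)
    (hl : blockRank p B = 1) (hk : Nat.card B = 5) :
    p ^ blockDefect p B = 5 ∨ p ^ blockDefect p B = 8 := by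
  classical
  haveI : Fintype (IrrCharacter G) := Fintype.ofFinite _
  obtain ⟨i, hi⟩ := exists_inB hM hB hl
  obtain ⟨n, a, b, hF⟩ := exists_full hM hB hl hi
  have hMmax : M.IsMaximal := hM.2.1
  haveI : IsAlgClosed (kM M) := isAlgClosed_kM hMmax
  have h1 := finrank_crn hMmax (prim_pj i).idem
  rw [sum_tz_sq hM hB hl hi] at h1
  have h2 : Module.finrank (kM M) (crn (kM M) (pj i)) = p ^ blockDefect p B := by
    exact_mod_cast h1
  -- the symmetrizing form
  set f : MonoidAlgebra (kM M) G →ₗ[kM M] kM M :=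
    (LinearMap.proj (1 : G)).comp (toF (kM M) G).toLinearMap with hf
  have hfa : ∀ x : MonoidAlgebra (kM M) G, f x = x.coeff 1 := fun x => rfl
  have htr : ∀ x y : MonoidAlgebra (kM M) G, f (x * y) = f (y * x) := by
    intro x y
    rw [hfa, hfa, Blk.mul_coeff, Blk.mul_coeff]
    refine Fintype.sum_equiv (Equiv.inv G) _ _ fun g => ?_
    rw [Equiv.inv_apply, inv_inv, mul_one, mul_one, mul_comm]
  have hnd : ∀ x : MonoidAlgebra (kM M) G, (∀ y, f (x * y) = 0) → x = 0 := by
    intro x hx
    apply Blk.ga_ext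
    intro g
    have h3 := hx (MonoidAlgebra.single g⁻¹ 1)
    rw [htr, hfa, single_mul_coeff] at h3
    simpa using h3
  have hSL := sl_crn (prim_pj i) htr hnd
  have hle := Submodule.finrank_mono (cmt_le_crn (k := kM M) (c := pj i))
  obtain ⟨m, hm⟩ := Nat.exists_eq_add_of_le hle
  have h3 := quot_le_card hM hB hF hm
  have h5 := card_le_pow_of_rank_one hM hB hl
  by_cases hK : cmt (crn (kM M) (pj i)) = ⊥
  · left
    rw [hK, finrank_bot, zero_add] at hm
    omega
  · have h6 := hSL.five (twist_holds (kM M)) (by omega) hK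
    obtain ⟨φ, d, -, hd, hs⟩ := rank_one_structure hM hB hl
    have hd1 : ∀ χ ∈ Bfin B, 1 ≤ d χ := by
      intro χ hχ
      refine Nat.one_le_iff_ne_zero.mpr fun h0 => ?_
      have h3 := hd χ (mem_Bfin.mp hχ) 1 reg_one
      rw [h0, Nat.cast_zero, zero_mul] at h3
      exact irr_one_ne_zero χ.2 h3
    have hcard : (Bfin B).card = 5 := by rw [← natCard_eq_Bfin, hk]
    -- the sum of the squares
    by_cases hall : ∀ χ ∈ Bfin B, d χ = 1
    · left
      rw [← hs, Finset.sum_congr rfl fun χ hχ => by rw [hall χ hχ], ← hcard]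
      simp
    · right
      push Not at hall
      obtain ⟨χ, hχ, hne⟩ := hall
      have h7 := Finset.sum_erase_add (Bfin B) (fun χ => (d χ) ^ 2) hχ
      have h8 : 2 ≤ d χ := by have := hd1 χ hχ; omega
      have h9 : 4 ≤ ∑ χ ∈ (Bfin B).erase χ, (d χ) ^ 2 := by
        have h10 : ((Bfin B).erase χ).card = 4 := by rw [Finset.card_erase_of_mem hχ, hcard]
        rw [← h10, Finset.card_eq_sum_ones]
        refine Finset.sum_le_sum fun χ' hχ' => ?_
        exact Nat.one_le_pow _ _ (hd1 χ' (Finset.mem_of_mem_erase hχ'))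
      have h11 : 2 ^ 2 ≤ (d χ) ^ 2 := Nat.pow_le_pow_left h8 2
      omega

theorem five_final (hM : IsPModular p M) (hB : IsPBlock M B) {D : Subgroup G}
    (hD : IsDefectGroup p M B D) (hl : blockRank p B = 1) (hk : Nat.card B = 5) :
    Nat.card D = 5 ∨ (Nat.card D = 8 ∧ ¬ IsMulCommutative D) := by
  have hcard := card_defectGroup hM hB hD
  rcases pow_of_rank_one_five hM hB hl hk with h | h
  · left; rw [hcard, h]
  · right
    have h8 : Nat.card D = 8 := by rw [hcard, h]
    refine ⟨h8, fun hcomm => ?_⟩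
    have hp2 : p = 2 := by
      have h0 : blockDefect p B ≠ 0 := by
        intro h0
        rw [h0, pow_zero] at h
        omega
      have h1 : p ∣ 2 ^ 3 := by
        have : (2 : ℕ) ^ 3 = p ^ blockDefect p B := by rw [h]; norm_num
        rw [this]; exact dvd_pow_self p h0
      exact (Nat.prime_dvd_prime_iff_eq hp.out Nat.prime_two).mp (hp.out.dvd_of_dvd_pow h1)
    subst hp2
    refine abelian_eight_false hM hB hD h8 ?_ hl hk
    intro x hx y hy
    have := hcomm.is_comm.comm (⟨x, hx⟩ : D) ⟨y, hy⟩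
    exact congrArg Subtype.val this

end Cfsg.Agent.H4
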