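import Mathlib

/-!
# The Heisenberg-type wreath extension

Given a finite group `X₀`, the group `WG p X₀` of all `(f; x, y, z)` with `f : ZMod p → X₀` and
`x, y, z : ZMod p`: the element `x` shifts `f`, and `(x, y, z)` form a Heisenberg group.
-/

set_option autoImplicit false

universe u

namespace Cfsg.Agent.H4

namespace Gag

@[ext] structure WG (p : ℕ) (X : Type u) : Type u where
  f : ZMod p → X
  x : ZMod p
  y : ZMod p
  z : ZMod p

namespace WG

variable {p : ℕ} {X : Type u} [Group X]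

instance : Group (WG p X) where
  mul a b := ⟨fun i => a.f i * b.f (i - a.x), a.x + b.x, a.y + b.y, a.z + b.z + a.x * b.y⟩
  one := ⟨fun _ => 1, 0, 0, 0⟩
  inv a := ⟨fun i => (a.f (i + a.x))⁻¹, -a.x, -a.y, -a.z + a.x * a.y⟩
  mul_assoc a b c := by
    apply WG.ext
    · funext i
      show (a.f i * b.f (i - a.x)) * c.f (i - (a.x + b.x))
        = a.f i * (b.f (i - a.x) * c.f (i - a.x - b.x))
      rw [mul_assoc, sub_sub]
    · show a.x + b.x + c.x = a.x + (b.x + c.x)
      ring
    · show a.y + b.y + c.y = a.y + (b.y + c.y)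
      ring
    · show (a.z + b.z + a.x * b.y) + c.z + (a.x + b.x) * c.y
        = a.z + (b.z + c.z + b.x * c.y) + a.x * (b.y + c.y)
      ring
  one_mul a := by
    apply WG.ext
    · funext i
      show 1 * a.f (i - 0) = a.f i
      rw [one_mul, sub_zero]
    · show 0 + a.x = a.x
      ring
    · show 0 + a.y = a.y
      ring
    · show 0 + a.z + 0 * a.y = a.z
      ring
  mul_one a := by
    apply WG.ext
    · funext i
      show a.f i * 1 = a.f i
      rw [mul_one]
    · show a.x + 0 = a.x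
      ring
    · show a.y + 0 = a.y
      ring
    · show a.z + 0 + a.x * 0 = a.z
      ring
  inv_mul_cancel a := by
    apply WG.ext
    · funext i
      show (a.f (i + a.x))⁻¹ * a.f (i - (-a.x)) = 1
      rw [sub_neg_eq_add, inv_mul_cancel]
    · show -a.x + a.x = 0
      ring
    · show -a.y + a.y = 0
      ring
    · show -a.z + a.x * a.y + a.z + (-a.x) * a.y = 0
      ring

@[simp] theorem mul_f (a b : WG p X) (i : ZMod p) : (a * b).f i = a.f i * b.f (i - a.x) := rfl
@[simp] theorem mul_x (a b : WG p X) : (a * b).x = a.x + b.x := rfl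
@[simp] theorem mul_y (a b : WG p X) : (a * b).y = a.y + b.y := rfl
@[simp] theorem mul_z (a b : WG p X) : (a * b).z = a.z + b.z + a.x * b.y := rfl
@[simp] theorem one_f (i : ZMod p) : (1 : WG p X).f i = 1 := rfl
@[simp] theorem one_x : (1 : WG p X).x = 0 := rfl
@[simp] theorem one_y : (1 : WG p X).y = 0 := rfl
@[simp] theorem one_z : (1 : WG p X).z = 0 := rfl
@[simp] theorem inv_f (a : WG p X) (i : ZMod p) : (a⁻¹).f i = (a.f (i + a.x))⁻¹ := rfl
@[simp] theorem inv_x (a : WG p X) : (a⁻¹).x = -a.x := rfl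
@[simp] theorem inv_y (a : WG p X) : (a⁻¹).y = -a.y := rfl
@[simp] theorem inv_z (a : WG p X) : (a⁻¹).z = -a.z + a.x * a.y := rfl

/-- the underlying product type -/
def eqv (p : ℕ) (X : Type u) : WG p X ≃ (ZMod p → X) × ZMod p × ZMod p × ZMod p where
  toFun a := (a.f, a.x, a.y, a.z)
  invFun t := ⟨t.1, t.2.1, t.2.2.1, t.2.2.2⟩
  left_inv _ := rfl
  right_inv _ := rfl

instance [NeZero p] [Finite X] : Finite (WG p X) := Finite.of_equiv _ (eqv p X).symm

theorem card_eq (p : ℕ) [NeZero p] (X : Type u) [Finite X] :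
    Nat.card (WG p X) = Nat.card X ^ p * (p * (p * p)) := by
  rw [Nat.card_congr (eqv p X), Nat.card_prod, Nat.card_prod, Nat.card_prod, Nat.card_fun,
    Nat.card_zmod]

end WG

/-- a primitive additive character as a map to the units -/
theorem exists_e (p : ℕ) [NeZero p] : ∃ e : ZMod p → ℂˣ, (∀ a b, e (a + b) = e a * e b) ∧
    Function.Injective e ∧ (∀ z : ℂˣ, z ^ p = 1 ↔ ∃ a, e a = z) := by
  have h1 : IsPrimitiveRoot (Units.mk0 (Complex.exp (2 * Real.pi * Complex.I / p))
      (Complex.exp_ne_zero _)) p := by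
    have := Complex.isPrimitiveRoot_exp p (NeZero.ne p)
    rw [← IsPrimitiveRoot.coe_units_iff]
    exact this
  set ζ := Units.mk0 (Complex.exp (2 * Real.pi * Complex.I / p)) (Complex.exp_ne_zero _) with hζ
  refine ⟨fun a => (((h1.zmodEquivZPowers a).toMul : Subgroup.zpowers ζ) : ℂˣ), ?_, ?_, ?_⟩
  · intro a b
    show (((h1.zmodEquivZPowers (a + b)).toMul : Subgroup.zpowers ζ) : ℂˣ) = _
    rw [map_add, toMul_add, Subgroup.coe_mul]
  · intro a b hab
    have h2 : (h1.zmodEquivZPowers a).toMul = (h1.zmodEquivZPowers b).toMul := Subtype.ext hab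
    exact h1.zmodEquivZPowers.injective (Additive.toMul.injective h2)
  · intro z
    rw [← mem_rootsOfUnity, ← h1.zpowers_eq]
    constructor
    · intro h
      refine ⟨h1.zmodEquivZPowers.symm (Additive.ofMul ⟨z, h⟩), ?_⟩
      show (((h1.zmodEquivZPowers (h1.zmodEquivZPowers.symm (Additive.ofMul ⟨z, h⟩))).toMul :
        Subgroup.zpowers ζ) : ℂˣ) = z
      rw [AddEquiv.apply_symm_apply]
      rfl
    · rintro ⟨a, rfl⟩
      exact ((h1.zmodEquivZPowers a).toMul).2

/-- Central-type data for an embedding of `G`. -/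
structure FD (G : Type u) [Group G] : Type (u + 1) where
  X : Type u
  [grp : Group X]
  [fin : Finite X]
  A : Subgroup X
  nA : A.Normal
  L : X → ℂˣ
  L_mul : ∀ a ∈ A, ∀ b ∈ A, L (a * b) = L a * L b
  L_conj : ∀ a ∈ A, ∀ x, L (x * a * x⁻¹) = L a
  ram : ∀ x, x ∉ A → ∃ y, x * y * x⁻¹ * y⁻¹ ∈ A ∧ L (x * y * x⁻¹ * y⁻¹) ≠ 1
  io : G →* X ⧸ A
  inj : Function.Injective io
  prm : ∀ q : ℕ, q.Prime → q ∣ Nat.card X → q ∣ Nat.card G
  r : ℕ
  rng : ∀ z : ℂˣ, z ^ r = 1 ↔ ∃ a ∈ A, L a = z
  sq : Squarefree r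
  rp : ∀ q : ℕ, q.Prime → (q ∣ r ↔ q ∣ Nat.card G)

attribute [instance] FD.grp FD.fin

namespace FD

variable {G : Type u} [Group G] (D : FD G)

instance : D.A.Normal := D.nA

theorem L_one : D.L 1 = 1 := by
  have h := D.L_mul 1 D.A.one_mem 1 D.A.one_mem
  rw [mul_one] at h
  exact (mul_eq_left.mp h.symm)

theorem L_inv {a : D.X} (ha : a ∈ D.A) : D.L a⁻¹ = (D.L a)⁻¹ := by
  have h := D.L_mul a ha a⁻¹ (D.A.inv_mem ha)
  rw [mul_inv_cancel, D.L_one] at h
  exact (eq_inv_of_mul_eq_one_right h.symm)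

end FD

/-- the trivial group -/
noncomputable def FD.base {G : Type u} [Group G] [Subsingleton G] : FD G where
  X := PUnit
  A := ⊤
  nA := inferInstance
  L := fun _ => 1
  L_mul := fun _ _ _ _ => (mul_one _).symm
  L_conj := fun _ _ _ => rfl
  ram := fun x hx => absurd (Subgroup.mem_top x) hx
  io := 1
  inj := fun a b _ => Subsingleton.elim a b
  prm := by
    intro q hq h
    exfalso
    have h1 : Nat.card (PUnit : Type u) = 1 := Nat.card_unique
    rw [h1] at h
    exact hq.one_lt.ne' (Nat.dvd_one.mp h)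
  r := 1
  rng := by
    intro z
    rw [pow_one]
    exact ⟨fun h => ⟨1, Subgroup.mem_top _, h.symm⟩, fun ⟨_, _, h⟩ => h.symm⟩
  sq := squarefree_one
  rp := by
    intro q hq
    have h1 : Nat.card G = 1 := by
      haveI : Unique G := ⟨⟨1⟩, fun a => Subsingleton.elim a 1⟩
      exact Nat.card_unique
    rw [h1]

end Gag

end Cfsg.Agent.H4
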