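import Mathlib
import Cfsg.Agent.H4.GagW

/-!
# The induction step: from a normal subgroup of prime index to the whole group
-/

set_option autoImplicit false

universe u

namespace Cfsg.Agent.H4

namespace Gag

open scoped Classical

variable {G : Type u} [Group G] [Finite G] {N : Subgroup G} (D : FD N) (p : ℕ) [hp : Fact p.Prime]

/-- the base subgroup `A` of the extension -/
def bA : Subgroup (WG p D.X) where
  carrier := {a | a.x = 0 ∧ a.y = 0 ∧ ∀ i, a.f i ∈ D.A}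
  one_mem' := ⟨rfl, rfl, fun _ => D.A.one_mem⟩
  mul_mem' := by
    rintro a b ⟨ha1, ha2, ha3⟩ ⟨hb1, hb2, hb3⟩
    refine ⟨?_, ?_, fun i => ?_⟩
    · rw [WG.mul_x, ha1, hb1, add_zero]
    · rw [WG.mul_y, ha2, hb2, add_zero]
    · rw [WG.mul_f]
      exact D.A.mul_mem (ha3 _) (hb3 _)
  inv_mem' := by
    rintro a ⟨ha1, ha2, ha3⟩
    refine ⟨?_, ?_, fun i => ?_⟩
    · rw [WG.inv_x, ha1, neg_zero]
    · rw [WG.inv_y, ha2, neg_zero]
    · rw [WG.inv_f]
      exact D.A.inv_mem (ha3 _)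

omit [Finite G] in
theorem mem_bA {a : WG p D.X} : a ∈ bA D p ↔ a.x = 0 ∧ a.y = 0 ∧ ∀ i, a.f i ∈ D.A := Iff.rfl

omit [Finite G] in
theorem conj_f {a : WG p D.X} (ha : a ∈ bA D p) (x : WG p D.X) (i : ZMod p) :
    (x * a * x⁻¹).f i = x.f i * a.f (i - x.x) * (x.f i)⁻¹ := by
  obtain ⟨h1, h2, h3⟩ := ha
  rw [WG.mul_f, WG.mul_f, WG.inv_f, WG.mul_x, h1, add_zero, sub_add_cancel]

omit [Finite G] in
theorem conj_z {a : WG p D.X} (ha : a ∈ bA D p) (x : WG p D.X) :
    (x * a * x⁻¹).z = a.z := by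
  obtain ⟨h1, h2, h3⟩ := ha
  rw [WG.mul_z, WG.mul_z, WG.inv_z, WG.mul_x, WG.inv_y, h1, h2]
  ring

omit [Finite G] in
theorem bA_normal : (bA D p).Normal := by
  constructor
  intro a ha x
  refine ⟨?_, ?_, fun i => ?_⟩
  · rw [WG.mul_x, WG.mul_x, WG.inv_x, ha.1]; ring
  · rw [WG.mul_y, WG.mul_y, WG.inv_y, ha.2.1]; ring
  · rw [conj_f D p ha]
    exact D.nA.conj_mem _ (ha.2.2 _) _

/-- the new linear character -/
noncomputable def bL (e : ZMod p → ℂˣ) (a : WG p D.X) : ℂˣ := (∏ i, D.L (a.f i)) * e a.z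

omit [Finite G] in
theorem bL_mul {e : ZMod p → ℂˣ} (he : ∀ a b, e (a + b) = e a * e b) {a b : WG p D.X}
    (ha : a ∈ bA D p) (hb : b ∈ bA D p) : bL D p e (a * b) = bL D p e a * bL D p e b := by
  unfold bL
  have h1 : (a * b).z = a.z + b.z := by
    rw [WG.mul_z, ha.1, zero_mul, add_zero]
  have h2 : ∀ i, D.L ((a * b).f i) = D.L (a.f i) * D.L (b.f i) := by
    intro i
    rw [WG.mul_f, ha.1, sub_zero]
    exact D.L_mul _ (ha.2.2 i) _ (hb.2.2 i)
  rw [h1, he, Finset.prod_congr rfl (fun i _ => h2 i), Finset.prod_mul_distrib]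
  exact mul_mul_mul_comm _ _ _ _

omit [Finite G] in
theorem bL_conj (e : ZMod p → ℂˣ) {a : WG p D.X}
    (ha : a ∈ bA D p) (x : WG p D.X) : bL D p e (x * a * x⁻¹) = bL D p e a := by
  unfold bL
  rw [conj_z D p ha]
  congr 1
  have h2 : ∀ i, D.L ((x * a * x⁻¹).f i) = D.L (a.f (i - x.x)) := by
    intro i
    rw [conj_f D p ha]
    exact D.L_conj _ (ha.2.2 _) _
  rw [Finset.prod_congr rfl (fun i _ => h2 i)]
  exact Equiv.prod_comp (Equiv.subRight x.x) (fun i => D.L (a.f i))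

omit [Finite G] in
theorem e_zero {e : ZMod p → ℂˣ} (he : ∀ a b, e (a + b) = e a * e b) : e 0 = 1 := by
  have h := he 0 0
  rw [add_zero] at h
  exact mul_eq_left.mp h.symm

omit [Finite G] in
theorem b_ram {e : ZMod p → ℂˣ} (he : ∀ a b, e (a + b) = e a * e b)
    (hinj : Function.Injective e) (g : WG p D.X) (hg : g ∉ bA D p) :
    ∃ y, g * y * g⁻¹ * y⁻¹ ∈ bA D p ∧ bL D p e (g * y * g⁻¹ * y⁻¹) ≠ 1 := by
  have he0 := e_zero p he
  have key : ∀ y c : WG p D.X, c * (y * g) = g * y → g * y * g⁻¹ * y⁻¹ = c := by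
    intro y c h
    rw [← h]
    group
  by_cases hx : g.x = 0
  · by_cases hf : ∀ i, g.f i ∈ D.A
    · -- g.y ≠ 0
      have hy : g.y ≠ 0 := fun h => hg ⟨hx, h, hf⟩
      refine ⟨⟨fun _ => 1, 1, 0, 0⟩, ?_⟩
      rw [key ⟨fun _ => 1, 1, 0, 0⟩ ⟨fun i => g.f i * (g.f (i - 1))⁻¹, 0, 0, -g.y⟩ ?_]
      · refine ⟨⟨rfl, rfl, fun i => D.A.mul_mem (hf i) (D.A.inv_mem (hf _))⟩, ?_⟩
        unfold bL
        have h1 : ∀ i : ZMod p, D.L (g.f i * (g.f (i - 1))⁻¹)
            = D.L (g.f i) * (D.L (g.f (i - 1)))⁻¹ := by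
          intro i
          rw [D.L_mul _ (hf i) _ (D.A.inv_mem (hf _)), D.L_inv (hf _)]
        show (∏ i, D.L (g.f i * (g.f (i - 1))⁻¹)) * e (-g.y) ≠ 1
        rw [Finset.prod_congr rfl (fun i _ => h1 i), Finset.prod_mul_distrib,
          Finset.prod_inv_distrib]
        have h2 : ∏ i : ZMod p, D.L (g.f (i - 1)) = ∏ i, D.L (g.f i) :=
          Equiv.prod_comp (Equiv.subRight (1 : ZMod p)) (fun i => D.L (g.f i))
        rw [h2, mul_inv_cancel, one_mul]
        intro h3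
        apply hy
        have := hinj (h3.trans he0.symm)
        exact neg_eq_zero.mp this
      · apply WG.ext
        · funext i
          show g.f i * (g.f (i - 1))⁻¹ * (1 * g.f (i - 0 - 1)) = g.f i * 1
          rw [one_mul, sub_zero, inv_mul_cancel_right, mul_one]
        · show 0 + (1 + g.x) = g.x + 1
          ring
        · show 0 + (0 + g.y) = g.y + 0
          ring
        · show -g.y + (0 + g.z + 1 * g.y) + 0 * (0 + g.y) = g.z + 0 + g.x * 0
          ring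
    · push Not at hf
      obtain ⟨l, hl⟩ := hf
      obtain ⟨y, hy1, hy2⟩ := D.ram _ hl
      refine ⟨⟨Pi.mulSingle l y, 0, 0, 0⟩, ?_⟩
      have hz : ∀ i, i ≠ l → g.f i * (Pi.mulSingle l y : ZMod p → D.X) i * (g.f i)⁻¹
          * ((Pi.mulSingle l y : ZMod p → D.X) i)⁻¹ = 1 := by
        intro i hi
        rw [Pi.mulSingle_eq_of_ne hi]
        simp
      have hs : g.f l * (Pi.mulSingle l y : ZMod p → D.X) l * (g.f l)⁻¹
          * ((Pi.mulSingle l y : ZMod p → D.X) l)⁻¹ = g.f l * y * (g.f l)⁻¹ * y⁻¹ := by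
        rw [Pi.mulSingle_eq_same]
      rw [key ⟨Pi.mulSingle l y, 0, 0, 0⟩ ⟨fun i => g.f i * (Pi.mulSingle l y : ZMod p → D.X) i
        * (g.f i)⁻¹ * ((Pi.mulSingle l y : ZMod p → D.X) i)⁻¹, 0, 0, 0⟩ ?_]
      · refine ⟨⟨rfl, rfl, fun i => ?_⟩, ?_⟩
        · show g.f i * (Pi.mulSingle l y : ZMod p → D.X) i
            * (g.f i)⁻¹ * ((Pi.mulSingle l y : ZMod p → D.X) i)⁻¹ ∈ D.A
          by_cases hi : i = l
          · rw [hi, hs]; exact hy1
          · rw [hz i hi]; exact D.A.one_mem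
        · unfold bL
          show (∏ i, D.L (g.f i * (Pi.mulSingle l y : ZMod p → D.X) i
            * (g.f i)⁻¹ * ((Pi.mulSingle l y : ZMod p → D.X) i)⁻¹)) * e 0 ≠ 1
          rw [he0, mul_one, Finset.prod_eq_single l, hs]
          · exact hy2
          · intro i _ hi
            rw [hz i hi, D.L_one]
          · intro h; exact absurd (Finset.mem_univ l) h
      · apply WG.ext
        · funext i
          show g.f i * (Pi.mulSingle l y : ZMod p → D.X) i * (g.f i)⁻¹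
            * ((Pi.mulSingle l y : ZMod p → D.X) i)⁻¹ *
            ((Pi.mulSingle l y : ZMod p → D.X) (i - 0) * g.f (i - 0 - 0))
            = g.f i * (Pi.mulSingle l y : ZMod p → D.X) (i - g.x)
          rw [sub_zero, sub_zero, hx, sub_zero]
          group
        · show 0 + (0 + g.x) = g.x + 0
          ring
        · show 0 + (0 + g.y) = g.y + 0
          ring
        · show 0 + (0 + g.z + 0 * g.y) + 0 * (0 + g.y) = g.z + 0 + g.x * 0
          ring
  · refine ⟨⟨fun _ => 1, 0, 1, 0⟩, ?_⟩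
    rw [key ⟨fun _ => 1, 0, 1, 0⟩ ⟨fun _ => 1, 0, 0, g.x⟩ ?_]
    · refine ⟨⟨rfl, rfl, fun i => D.A.one_mem⟩, ?_⟩
      unfold bL
      show (∏ i : ZMod p, D.L 1) * e g.x ≠ 1
      rw [D.L_one, Finset.prod_const_one, one_mul]
      intro h
      exact hx (hinj (h.trans he0.symm))
    · apply WG.ext
      · funext i
        show 1 * (1 * g.f (i - 0 - 0)) = g.f i * 1
        rw [one_mul, one_mul, sub_zero, sub_zero, mul_one]
      · show 0 + (0 + g.x) = g.x + 0
        ring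
      · show 0 + (1 + g.y) = g.y + 1
        ring
      · show g.x + (0 + g.z + 0 * g.y) + 0 * (1 + g.y) = g.z + 0 + g.x * 1
        ring

/-! ### The range -/

/-- the new exponent -/
def bR : ℕ := if p ∣ D.r then D.r else D.r * p

omit [Finite G] in
theorem bR_sq : Squarefree (bR D p) := by
  unfold bR
  split_ifs with h
  · exact D.sq
  · rw [Nat.squarefree_mul]
    · exact ⟨D.sq, hp.out.squarefree⟩
    · exact ((Nat.Prime.coprime_iff_not_dvd hp.out).mpr h).symm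

omit [Finite G] in
theorem bR_dvd (q : ℕ) (hq : q.Prime) : q ∣ bR D p ↔ q ∣ D.r ∨ q = p := by
  unfold bR
  split_ifs with h
  · refine ⟨fun h1 => Or.inl h1, ?_⟩
    rintro (h1 | h1)
    · exact h1
    · rw [h1]; exact h
  · rw [hq.dvd_mul, Nat.prime_dvd_prime_iff_eq hq hp.out]

omit [Finite G] in
theorem b_rng {e : ZMod p → ℂˣ} (he : ∀ a b, e (a + b) = e a * e b)
    (hrng : ∀ z : ℂˣ, z ^ p = 1 ↔ ∃ a, e a = z) (z : ℂˣ) :
    z ^ (bR D p) = 1 ↔ ∃ a ∈ bA D p, bL D p e a = z := by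
  have he0 := e_zero p he
  -- elements realising `z₁ * e i` for `z₁ ^ r = 1`
  have hreal : ∀ z₁ : ℂˣ, z₁ ^ D.r = 1 → ∀ i : ZMod p, ∃ a ∈ bA D p, bL D p e a = z₁ * e i := by
    intro z₁ h1 i
    obtain ⟨a, ha, haz⟩ := (D.rng z₁).mp h1
    refine ⟨⟨Pi.mulSingle 0 a, 0, 0, i⟩, ⟨rfl, rfl, fun j => ?_⟩, ?_⟩
    · show (Pi.mulSingle 0 a : ZMod p → D.X) j ∈ D.A
      by_cases hj : j = 0
      · rw [hj, Pi.mulSingle_eq_same]; exact ha
      · rw [Pi.mulSingle_eq_of_ne hj]; exact D.A.one_mem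
    · unfold bL
      show (∏ j, D.L ((Pi.mulSingle 0 a : ZMod p → D.X) j)) * e i = _
      rw [Finset.prod_eq_single 0, Pi.mulSingle_eq_same, haz]
      · intro j _ hj
        rw [Pi.mulSingle_eq_of_ne hj, D.L_one]
      · intro h; exact absurd (Finset.mem_univ _) h
  constructor
  · intro hz
    by_cases hpr : p ∣ D.r
    · unfold bR at hz
      rw [if_pos hpr] at hz
      obtain ⟨a, ha, haz⟩ := hreal z hz 0
      refine ⟨a, ha, ?_⟩
      rw [haz, he0, mul_one]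
    · unfold bR at hz
      rw [if_neg hpr] at hz
      have hco : IsCoprime (D.r : ℤ) (p : ℤ) :=
        Nat.isCoprime_iff_coprime.mpr ((Nat.Prime.coprime_iff_not_dvd hp.out).mpr hpr).symm
      obtain ⟨u, v, huv⟩ := hco
      -- z = z ^ (u r) * z ^ (v p)
      have h1 : z = z ^ (v * (p : ℤ)) * z ^ (u * (D.r : ℤ)) := by
        rw [← zpow_add, add_comm, huv, zpow_one]
      have h2 : (z ^ (v * (p : ℤ))) ^ D.r = 1 := by
        rw [← zpow_natCast, ← zpow_mul]
        have : v * (p : ℤ) * (D.r : ℤ) = ((D.r * p : ℕ) : ℤ) * v := by push_cast; ring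
        rw [this, zpow_mul, zpow_natCast, hz, one_zpow]
      have h3 : (z ^ (u * (D.r : ℤ))) ^ p = 1 := by
        rw [← zpow_natCast, ← zpow_mul]
        have : u * (D.r : ℤ) * (p : ℤ) = ((D.r * p : ℕ) : ℤ) * u := by push_cast; ring
        rw [this, zpow_mul, zpow_natCast, hz, one_zpow]
      obtain ⟨i, hi⟩ := (hrng _).mp h3
      obtain ⟨a, ha, haz⟩ := hreal _ h2 i
      refine ⟨a, ha, ?_⟩
      rw [haz, hi, ← h1]
  · rintro ⟨a, ha, rfl⟩
    have h1 : ∀ i, (D.L (a.f i)) ^ D.r = 1 := fun i => (D.rng _).mpr ⟨_, ha.2.2 i, rfl⟩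
    have h2 : (e a.z) ^ p = 1 := (hrng _).mpr ⟨_, rfl⟩
    unfold bL bR
    split_ifs with hpr
    · rw [mul_pow, ← Finset.prod_pow, Finset.prod_congr rfl (fun i _ => h1 i),
        Finset.prod_const_one, one_mul]
      obtain ⟨k, hk⟩ := hpr
      rw [hk, pow_mul, h2, one_pow]
    · rw [mul_pow, ← Finset.prod_pow]
      have h3 : ∀ i, (D.L (a.f i)) ^ (D.r * p) = 1 := fun i => by
        rw [pow_mul, h1, one_pow]
      rw [Finset.prod_congr rfl (fun i _ => h3 i), Finset.prod_const_one, one_mul, mul_comm D.r,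
        pow_mul, h2, one_pow]

/-! ### The embedding -/

omit [Finite G] in
theorem mk_eq_iff (a b : WG p D.X) :
    haveI := bA_normal D p
    (QuotientGroup.mk a : WG p D.X ⧸ bA D p) = QuotientGroup.mk b ↔
      a.x = b.x ∧ a.y = b.y ∧ ∀ i, (QuotientGroup.mk (a.f i) : D.X ⧸ D.A) = QuotientGroup.mk (b.f i) := by
  rw [QuotientGroup.eq]
  constructor
  · rintro ⟨h1, h2, h3⟩
    rw [WG.mul_x, WG.inv_x] at h1
    rw [WG.mul_y, WG.inv_y] at h2
    refine ⟨(neg_add_eq_zero.mp h1), (neg_add_eq_zero.mp h2), fun i => ?_⟩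
    rw [QuotientGroup.eq]
    have := h3 (i - a.x)
    rw [WG.mul_f, WG.inv_f, WG.inv_x, sub_add_cancel, sub_neg_eq_add, sub_add_cancel] at this
    exact this
  · rintro ⟨h1, h2, h3⟩
    refine ⟨?_, ?_, fun i => ?_⟩
    · rw [WG.mul_x, WG.inv_x, h1]; ring
    · rw [WG.mul_y, WG.inv_y, h2]; ring
    · rw [WG.mul_f, WG.inv_f, WG.inv_x, sub_neg_eq_add]
      exact QuotientGroup.eq.mp (h3 _)

end Gag

end Cfsg.Agent.H4
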