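import Mathlib
import Cfsg.Agent.H4.GagStep

/-!
# Every finite solvable group has central-type data
-/

set_option autoImplicit false

universe u

namespace Cfsg.Agent.H4

namespace Gag

open scoped Classical commutatorElement

section emb

variable {G : Type u} [Group G] [Finite G] {N : Subgroup G} (D : FD N) (p : ℕ) [hp : Fact p.Prime]
  (κ : G →* Multiplicative (ZMod p)) (hN : ∀ g, g ∈ N ↔ κ g = 1)
  (t : ZMod p → G) (ht : ∀ i, κ (t i) = Multiplicative.ofAdd i)

omit [Finite G] in
include hN ht in
theorem ff_mem (g : G) (i : ZMod p) : (t i)⁻¹ * g * t (i - (κ g).toAdd) ∈ N := by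
  rw [hN, map_mul, map_mul, map_inv, ht, ht]
  apply Multiplicative.toAdd.injective
  rw [toAdd_mul, toAdd_mul, toAdd_inv, toAdd_ofAdd, toAdd_ofAdd, toAdd_one]
  ring

/-- the Kaloujnine–Krasner function -/
def ff (g : G) (i : ZMod p) : N := ⟨(t i)⁻¹ * g * t (i - (κ g).toAdd), ff_mem p κ hN t ht g i⟩

omit [Finite G] in
theorem ff_mul (g h : G) (i : ZMod p) :
    ff p κ hN t ht (g * h) i = ff p κ hN t ht g i * ff p κ hN t ht h (i - (κ g).toAdd) := by
  apply Subtype.ext
  show (t i)⁻¹ * (g * h) * t (i - (κ (g * h)).toAdd)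
    = ((t i)⁻¹ * g * t (i - (κ g).toAdd)) *
      ((t (i - (κ g).toAdd))⁻¹ * h * t (i - (κ g).toAdd - (κ h).toAdd))
  rw [map_mul, toAdd_mul, sub_sub]
  group

/-- the lift to the wreath extension -/
noncomputable def sg (g : G) : WG p D.X :=
  ⟨fun i => (D.io (ff p κ hN t ht g i)).out, (κ g).toAdd, 0, 0⟩

noncomputable instance : (bA D p).Normal := bA_normal D p

omit [Finite G] in
theorem sg_mul (g h : G) : (QuotientGroup.mk (sg D p κ hN t ht (g * h)) : WG p D.X ⧸ bA D p)
    = QuotientGroup.mk (sg D p κ hN t ht g * sg D p κ hN t ht h) := by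
  rw [mk_eq_iff]
  refine ⟨?_, ?_, fun i => ?_⟩
  · rw [WG.mul_x]
    show (κ (g * h)).toAdd = (κ g).toAdd + (κ h).toAdd
    rw [map_mul, toAdd_mul]
  · rw [WG.mul_y]
    show (0 : ZMod p) = 0 + 0
    rw [add_zero]
  · rw [WG.mul_f, QuotientGroup.mk_mul]
    show (QuotientGroup.mk (D.io (ff p κ hN t ht (g * h) i)).out : D.X ⧸ D.A) =
      QuotientGroup.mk (D.io (ff p κ hN t ht g i)).out *
        QuotientGroup.mk (D.io (ff p κ hN t ht h (i - (κ g).toAdd))).out
    rw [QuotientGroup.out_eq', QuotientGroup.out_eq', QuotientGroup.out_eq', ff_mul, map_mul]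

/-- the embedding -/
noncomputable def bI : G →* WG p D.X ⧸ bA D p :=
  MonoidHom.mk' (fun g => QuotientGroup.mk (sg D p κ hN t ht g)) (fun g h => by
    rw [sg_mul, QuotientGroup.mk_mul])

omit [Finite G] in
theorem bI_inj : Function.Injective (bI D p κ hN t ht) := by
  rw [injective_iff_map_eq_one]
  intro g hg
  have h1 : (QuotientGroup.mk (sg D p κ hN t ht g) : WG p D.X ⧸ bA D p)
    = QuotientGroup.mk 1 := hg
  rw [mk_eq_iff] at h1
  obtain ⟨h2, -, h3⟩ := h1
  have h4 := h3 0
  have h5 : D.io (ff p κ hN t ht g 0) = 1 := by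
    have : (QuotientGroup.mk (D.io (ff p κ hN t ht g 0)).out : D.X ⧸ D.A) = QuotientGroup.mk 1 := h4
    rw [QuotientGroup.out_eq'] at this
    exact this
  have h6 : ff p κ hN t ht g 0 = 1 := D.inj (h5.trans (map_one _).symm)
  have h7 : (t 0)⁻¹ * g * t (0 - (κ g).toAdd) = 1 := congrArg Subtype.val h6
  have h8 : (κ g).toAdd = 0 := h2
  rw [h8, sub_zero] at h7
  have h9 : g = t 0 * ((t 0)⁻¹ * g * t 0) * (t 0)⁻¹ := by group
  rw [h9, h7, mul_one, mul_inv_cancel]

/-- the induction step -/
noncomputable def FD.step (hcard : Nat.card G = p * Nat.card N) : FD G :=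
  let E := exists_e p
  { X := WG p D.X
    A := bA D p
    nA := bA_normal D p
    L := bL D p E.choose
    L_mul := fun _ ha _ hb => bL_mul D p E.choose_spec.1 ha hb
    L_conj := fun _ ha x => bL_conj D p _ ha x
    ram := fun x hx => b_ram D p E.choose_spec.1 E.choose_spec.2.1 x hx
    io := bI D p κ hN t ht
    inj := bI_inj D p κ hN t ht
    prm := by
      intro q hq h
      rw [WG.card_eq, hq.dvd_mul] at h
      rw [hcard]
      rcases h with h | h
      · exact Dvd.dvd.mul_left (D.prm q hq (hq.dvd_of_dvd_pow h)) _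
      · have h1 : q ∣ p := by
          rcases hq.dvd_mul.mp h with h | h
          · exact h
          · rcases hq.dvd_mul.mp h with h | h
            · exact h
            · exact h
        exact Dvd.dvd.mul_right h1 _
    r := bR D p
    rng := fun z => b_rng D p E.choose_spec.1 E.choose_spec.2.2 z
    sq := bR_sq D p
    rp := by
      intro q hq
      rw [bR_dvd D p q hq, hcard, hq.dvd_mul, D.rp q hq, Nat.prime_dvd_prime_iff_eq hq hp.out]
      tauto }

end emb

/-- a normal subgroup of prime index is the kernel of a surjection to `ZMod p` -/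
theorem exists_kappa {G : Type u} [Group G] [Finite G] (N : Subgroup G) [N.Normal] (p : ℕ)
    [hp : Fact p.Prime] (hidx : N.index = p) :
    ∃ κ : G →* Multiplicative (ZMod p), Function.Surjective κ ∧ ∀ g, g ∈ N ↔ κ g = 1 := by
  have hcard : Nat.card (G ⧸ N) = p := by rw [← hidx]; rfl
  haveI : IsCyclic (G ⧸ N) := isCyclic_of_prime_card hcard
  have e : G ⧸ N ≃* Multiplicative (ZMod p) := by
    refine mulEquivOfCyclicCardEq ?_
    rw [hcard]
    exact (Nat.card_zmod p).symm
  refine ⟨e.toMonoidHom.comp (QuotientGroup.mk' N), ?_, ?_⟩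
  · exact e.surjective.comp (QuotientGroup.mk'_surjective N)
  · intro g
    rw [MonoidHom.comp_apply]
    constructor
    · intro h
      rw [QuotientGroup.mk'_apply, (QuotientGroup.eq_one_iff g).mpr h, map_one]
    · intro h
      have : (QuotientGroup.mk' N g) = 1 := by
        apply e.injective
        rw [map_one]
        exact h
      exact (QuotientGroup.eq_one_iff g).mp this

/-- A finite group that is not perfect has a normal subgroup of prime index. -/
theorem exists_nprime_index {G : Type u} [Group G] [Finite G] (h : commutator G ≠ ⊤) :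
    ∃ M : Subgroup G, M.Normal ∧ commutator G ≤ M ∧ M.index.Prime := by
  obtain ⟨M, hM, hle⟩ := (eq_top_or_exists_le_coatom (commutator G)).resolve_left h
  have hn : M.Normal := Subgroup.Normal.of_commutator_le G hle
  have hcomm : ∀ a b : G ⧸ M, a * b = b * a := by
    intro a b
    induction a using QuotientGroup.induction_on with
    | H x =>
    induction b using QuotientGroup.induction_on with
    | H y =>
    rw [← QuotientGroup.mk_mul, ← QuotientGroup.mk_mul, QuotientGroup.eq]
    apply hle
    have : (x * y)⁻¹ * (y * x) = ⁅y⁻¹, x⁻¹⁆ := by rw [commutatorElement_def]; group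
    rw [this]
    exact Subgroup.commutator_mem_commutator (Subgroup.mem_top _) (Subgroup.mem_top _)
  letI : CommGroup (G ⧸ M) := { (inferInstance : Group (G ⧸ M)) with mul_comm := hcomm }
  have hnt : Nontrivial (G ⧸ M) := by
    rw [QuotientGroup.nontrivial_iff]
    exact hM.1
  have hs : IsSimpleGroup (G ⧸ M) := by
    refine ⟨fun H _ => ?_⟩
    have h1 : M ≤ H.comap (QuotientGroup.mk' M) := by
      intro x hx
      rw [Subgroup.mem_comap]
      have : QuotientGroup.mk' M x = 1 := (QuotientGroup.eq_one_iff x).mpr hx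
      rw [this]; exact H.one_mem
    rcases h1.lt_or_eq with h2 | h2
    · right
      have h3 := hM.2 _ h2
      rw [← Subgroup.map_comap_eq_self_of_surjective (QuotientGroup.mk'_surjective M) H, h3]
      exact Subgroup.map_top_of_surjective _ (QuotientGroup.mk'_surjective M)
    · left
      rw [← Subgroup.map_comap_eq_self_of_surjective (QuotientGroup.mk'_surjective M) H, ← h2]
      rw [Subgroup.map_eq_bot_iff, QuotientGroup.ker_mk']
  refine ⟨M, hn, hle, ?_⟩
  have := IsSimpleGroup.prime_card (α := G ⧸ M)
  rwa [Subgroup.index_eq_card]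


theorem exists_FD (n : ℕ) : ∀ (G : Type u) [Group G] [Finite G], Group.IsSolvable G →
    Nat.card G = n → Nonempty (FD G) := by
  induction n using Nat.strong_induction_on with
  | _ n ih =>
    intro G _ _ hs hn
    rcases subsingleton_or_nontrivial G with h1 | h1
    · exact ⟨FD.base⟩
    · have hc : commutator G ≠ ⊤ := by
        intro h
        haveI : Group.IsSolvable G := hs
        exact (Group.IsSolvable.commutator_lt_top_of_nontrivial G).ne h
      obtain ⟨N, hNn, -, hNp⟩ := exists_nprime_index hc
      haveI : Fact (N.index).Prime := ⟨hNp⟩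
      obtain ⟨κ, hκ, hN⟩ := exists_kappa N N.index rfl
      have hcard : Nat.card G = N.index * Nat.card N := by rw [mul_comm, N.card_mul_index]
      have hlt : Nat.card N < n := by
        rw [← hn, hcard]
        have h2 := hNp.two_le
        have h3 : 0 < Nat.card N := Nat.card_pos
        nlinarith
      obtain ⟨D⟩ := ih _ hlt N (by
        haveI : Group.IsSolvable G := hs
        exact (inferInstance : Group.IsSolvable N)) rfl
      choose t ht using fun i : ZMod N.index => hκ (Multiplicative.ofAdd i)
      exact ⟨FD.step D N.index κ hN t ht hcard⟩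

end Gag

end Cfsg.Agent.H4
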