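import Mathlib
import Cfsg.Prelude.Def_Characters
import Cfsg.Agent.Char.Clifford
import Cfsg.Agent.Char.Linear
import Cfsg.Agent.H79.ProdChar
import Cfsg.Agent.H4.GagEmb

/-!
# Groups of central type
-/

set_option autoImplicit false

universe u

namespace Cfsg.Agent.H4

namespace Gag

open scoped Classical ComplexConjugate
open Cfsg

/-- A group with a faithful, "fully ramified" linear character of its centre is of central type. -/
theorem central_type {H : Type u} [Group H] [Finite H] (lam : Subgroup.center H →* ℂˣ)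
    (hinj : Function.Injective lam)
    (hram : ∀ x, x ∉ Subgroup.center H → ∃ y, x * y * x⁻¹ * y⁻¹ ∈ Subgroup.center H ∧
      x * y * x⁻¹ * y⁻¹ ≠ 1) :
    ∃ χ : IrrCharacter H, (∀ h : H, (χ : H → ℂ) h = (χ : H → ℂ) 1 → h = 1) ∧
      (charDegree (χ : H → ℂ)) ^ 2 = (Subgroup.center H).index := by
  letI : Fintype H := Fintype.ofFinite H
  letI : Fintype (Subgroup.center H) := Fintype.ofFinite _
  let th : (Subgroup.center H) →* ℂ := (Units.coeHom ℂ).comp lam
  have hth : IsIrrCharacter (Subgroup.center H) (th : (Subgroup.center H) → ℂ) := Char.isIrrCharacter_of_hom th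
  obtain ⟨χ₀, hχ₀, hne⟩ := Char.exists_over (Subgroup.center H) hth
  let χ : IrrCharacter H := ⟨χ₀, hχ₀⟩
  have hχ : (χ : H → ℂ) = χ₀ := rfl
  have h10 : (χ : H → ℂ) 1 ≠ 0 := H79.irr_one_ne_zero χ
  -- the norm of `th`
  have hnorm : ∀ z : (Subgroup.center H), th z * conj (th z) = 1 := by
    intro z
    have h1 : (lam z) ^ Nat.card (Subgroup.center H) = 1 := by
      rw [← map_pow, pow_card_eq_one', map_one]
    have h2 : ‖(th z)‖ = 1 := by
      apply Complex.norm_eq_one_of_pow_eq_one (n := Nat.card (Subgroup.center H)) _ Nat.card_pos.ne'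
      have := congrArg (Units.val) h1
      rw [Units.val_pow_eq_pow_val, Units.val_one] at this
      exact this
    rw [Complex.mul_conj, Complex.normSq_eq_norm_sq, h2]
    norm_num
  have hmul : ∀ z : (Subgroup.center H), ∀ g : H, (χ : H → ℂ) ((z : H) * g) = th z * (χ : H → ℂ) g := by
    intro z
    obtain ⟨w, -, -, hw⟩ := H79.irr_central_mul χ z.2
    have h1 : classInner (fun n : (Subgroup.center H) => χ₀ n) (th : (Subgroup.center H) → ℂ) =
        (w * conj (th z)) * classInner (fun n : (Subgroup.center H) => χ₀ n) (th : (Subgroup.center H) → ℂ) := by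
      unfold classInner
      rw [← mul_assoc, mul_comm (w * conj (th z)), mul_assoc]
      congr 1
      rw [Finset.mul_sum, ← Equiv.sum_comp (Equiv.mulLeft z)]
      refine Finset.sum_congr rfl (fun g _ => ?_)
      show χ₀ ((z : H) * g) * conj (th (z * g)) = _
      rw [map_mul, map_mul, ← hχ, hw]
      ring
    have h2 : w * conj (th z) = 1 := by
      have h3 : (w * conj (th z) - 1) * classInner (fun n : (Subgroup.center H) => χ₀ n) (th : (Subgroup.center H) → ℂ) = 0 := by
        linear_combination -h1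
      rcases mul_eq_zero.mp h3 with h4 | h4
      · exact sub_eq_zero.mp h4
      · exact absurd h4 hne
    have h3 : w = th z := by
      have h4 : conj (th z) ≠ 0 := right_ne_zero_of_mul (a := w) (by rw [h2]; exact one_ne_zero)
      apply mul_right_cancel₀ h4
      rw [h2, hnorm]
    intro g
    rw [hw, h3]
  have hcl : ∀ g x : H, (χ : H → ℂ) (g * x * g⁻¹) = (χ : H → ℂ) x := by
    intro g x
    exact Cfsg.Agent.CharBase.isClassFunction_of_isCharacter (CharBase.isCharacter_of_isIrr hχ₀) x g
  have hvan : ∀ x : H, x ∉ (Subgroup.center H) → (χ : H → ℂ) x = 0 := by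
    intro x hx
    obtain ⟨y, hy1, hy2⟩ := hram x hx
    -- y x y⁻¹ = c⁻¹ x
    set c : (Subgroup.center H) := ⟨x * y * x⁻¹ * y⁻¹, hy1⟩ with hc
    have h1 : y * x * y⁻¹ = ((c⁻¹ : (Subgroup.center H)) : H) * x := by
      have h2 : ((c⁻¹ : (Subgroup.center H)) : H) = (x * y * x⁻¹ * y⁻¹)⁻¹ := rfl
      rw [h2]
      group
    have h2 := hcl y x
    rw [h1, hmul] at h2
    have h3 : th c⁻¹ ≠ 1 := by
      intro h4
      have h5 : lam c⁻¹ = 1 := Units.ext h4
      have h6 : c⁻¹ = 1 := hinj (h5.trans (map_one _).symm)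
      have h7 : c = 1 := inv_eq_one.mp h6
      exact hy2 (congrArg Subtype.val h7)
    have h4 : (th c⁻¹ - 1) * (χ : H → ℂ) x = 0 := by linear_combination h2
    rcases mul_eq_zero.mp h4 with h5 | h5
    · exact absurd (sub_eq_zero.mp h5) h3
    · exact h5
  refine ⟨χ, ?_, ?_⟩
  · intro h hh
    by_cases hz : h ∈ (Subgroup.center H)
    · have h1 := hmul ⟨h, hz⟩ 1
      rw [mul_one] at h1
      have h1' : (χ : H → ℂ) h = th ⟨h, hz⟩ * (χ : H → ℂ) 1 := h1
      rw [hh] at h1'
      have h2 : th ⟨h, hz⟩ = 1 := by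
        have h3 : (th ⟨h, hz⟩ - 1) * (χ : H → ℂ) 1 = 0 := by linear_combination -h1'
        rcases mul_eq_zero.mp h3 with h4 | h4
        · exact sub_eq_zero.mp h4
        · exact absurd h4 h10
      have h3 : lam ⟨h, hz⟩ = 1 := Units.ext h2
      have h4 : (⟨h, hz⟩ : (Subgroup.center H)) = 1 := hinj (h3.trans (map_one _).symm)
      exact congrArg Subtype.val h4
    · rw [hvan h hz] at hh
      exact absurd hh.symm h10
  · have h1 := H79.sum_norm_sq χ
    have h2 : ∑ g : H, ‖(χ : H → ℂ) g‖ ^ 2 = ∑ z : (Subgroup.center H), ‖(χ : H → ℂ) z‖ ^ 2 := by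
      rw [← Finset.sum_subset (Finset.subset_univ (Finset.univ.filter (fun g => g ∈ (Subgroup.center H))))]
      · exact (Finset.sum_subtype (Finset.univ.filter (fun g => g ∈ (Subgroup.center H))) (by simp)
          (fun g => ‖(χ : H → ℂ) g‖ ^ 2))
      · intro g _ hg
        have : g ∉ (Subgroup.center H) := fun h => hg (Finset.mem_filter.mpr ⟨Finset.mem_univ _, h⟩)
        rw [hvan g this]
        simp
    rw [h2, Finset.sum_congr rfl (fun z _ => by rw [H79.irr_central_norm χ z.2])] at h1
    rw [Finset.sum_const, Finset.card_univ, nsmul_eq_mul, ← Nat.card_eq_fintype_card] at h1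
    have h3 : Nat.card (Subgroup.center H) * (charDegree (χ : H → ℂ)) ^ 2 = Nat.card (Subgroup.center H) * (Subgroup.center H).index := by
      rw [Subgroup.card_mul_index]
      exact_mod_cast h1
    exact Nat.eq_of_mul_eq_mul_left Nat.card_pos h3

end Gag

end Cfsg.Agent.H4
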