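import Mathlib
import Cfsg.Agent.H4.GagChar

/-!
# The group `X / ker Λ`
-/

set_option autoImplicit false

universe u

namespace Cfsg.Agent.H4

namespace Gag

open scoped Classical
open Cfsg

variable {G : Type u} [Group G] (D : FD G)

/-- the kernel of the linear character -/
def FD.K : Subgroup D.X where
  carrier := {a | a ∈ D.A ∧ D.L a = 1}
  one_mem' := ⟨D.A.one_mem, D.L_one⟩
  mul_mem' := by
    rintro a b ⟨ha, ha'⟩ ⟨hb, hb'⟩
    exact ⟨D.A.mul_mem ha hb, by rw [D.L_mul a ha b hb, ha', hb', mul_one]⟩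
  inv_mem' := by
    rintro a ⟨ha, ha'⟩
    exact ⟨D.A.inv_mem ha, by rw [D.L_inv ha, ha', inv_one]⟩

theorem FD.K_normal : D.K.Normal := by
  constructor
  rintro a ⟨ha, ha'⟩ x
  exact ⟨D.nA.conj_mem a ha x, by rw [D.L_conj a ha, ha']⟩

instance : D.K.Normal := D.K_normal

theorem FD.mk_mem_center_iff (x : D.X) :
    (QuotientGroup.mk x : D.X ⧸ D.K) ∈ Subgroup.center (D.X ⧸ D.K) ↔ x ∈ D.A := by
  constructor
  · intro h
    by_contra hx
    obtain ⟨y, hy1, hy2⟩ := D.ram x hx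
    rw [Subgroup.mem_center_iff] at h
    have h1 := h (QuotientGroup.mk y)
    rw [← QuotientGroup.mk_mul, ← QuotientGroup.mk_mul, eq_comm, QuotientGroup.eq] at h1
    -- (x y)⁻¹ (y x) ∈ K
    have h2 : x * y * ((x * y)⁻¹ * (y * x)) * (x * y)⁻¹ ∈ D.K := D.K_normal.conj_mem _ h1 _
    have h3 : x * y * ((x * y)⁻¹ * (y * x)) * (x * y)⁻¹ = (x * y * x⁻¹ * y⁻¹)⁻¹ := by group
    rw [h3] at h2
    have h4 := D.K.inv_mem h2
    rw [inv_inv] at h4
    exact hy2 h4.2
  · intro hx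
    rw [Subgroup.mem_center_iff]
    intro g
    induction g using QuotientGroup.induction_on with
    | H g =>
      rw [← QuotientGroup.mk_mul, ← QuotientGroup.mk_mul, eq_comm, QuotientGroup.eq]
      -- (x g)⁻¹ (g x) = g⁻¹ x⁻¹ g x
      have h1 : (x * g)⁻¹ * (g * x) = (g⁻¹ * x⁻¹ * g⁻¹⁻¹) * x := by group
      rw [h1]
      have h2 : g⁻¹ * x⁻¹ * g⁻¹⁻¹ ∈ D.A := D.nA.conj_mem _ (D.A.inv_mem hx) _
      refine ⟨D.A.mul_mem h2 hx, ?_⟩
      rw [D.L_mul _ h2 _ hx, D.L_conj _ (D.A.inv_mem hx), D.L_inv hx, inv_mul_cancel]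

theorem FD.out_mem (z : Subgroup.center (D.X ⧸ D.K)) : (z : D.X ⧸ D.K).out ∈ D.A := by
  rw [← D.mk_mem_center_iff, QuotientGroup.out_eq']
  exact z.2

theorem FD.L_congr {a b : D.X} (ha : a ∈ D.A) (hb : b ∈ D.A)
    (h : (QuotientGroup.mk a : D.X ⧸ D.K) = QuotientGroup.mk b) : D.L a = D.L b := by
  rw [QuotientGroup.eq] at h
  have h1 : b = a * (a⁻¹ * b) := by group
  rw [h1, D.L_mul a ha _ h.1, h.2, mul_one]

/-- the faithful linear character of the centre -/
noncomputable def FD.lam : Subgroup.center (D.X ⧸ D.K) →* ℂˣ :=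
  MonoidHom.mk' (fun z => D.L (z : D.X ⧸ D.K).out) (fun z w => by
    rw [← D.L_mul _ (D.out_mem z) _ (D.out_mem w)]
    apply D.L_congr (D.out_mem _) (D.A.mul_mem (D.out_mem z) (D.out_mem w))
    rw [QuotientGroup.mk_mul, QuotientGroup.out_eq', QuotientGroup.out_eq', QuotientGroup.out_eq',
      Subgroup.coe_mul])

theorem FD.lam_apply (z : Subgroup.center (D.X ⧸ D.K)) : D.lam z = D.L (z : D.X ⧸ D.K).out := rfl

theorem FD.lam_inj : Function.Injective D.lam := by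
  rw [injective_iff_map_eq_one]
  intro z hz
  rw [D.lam_apply] at hz
  apply Subtype.ext
  rw [← QuotientGroup.out_eq' (z : D.X ⧸ D.K), Subgroup.coe_one, QuotientGroup.eq_one_iff]
  exact ⟨D.out_mem z, hz⟩

theorem FD.lam_mk {a : D.X} (ha : a ∈ D.A) :
    D.lam ⟨QuotientGroup.mk a, (D.mk_mem_center_iff a).mpr ha⟩ = D.L a := by
  rw [D.lam_apply]
  apply D.L_congr (D.out_mem _) ha
  rw [QuotientGroup.out_eq']

theorem FD.lam_range : D.lam.range = rootsOfUnity D.r ℂ := by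
  ext z
  rw [mem_rootsOfUnity, D.rng z, MonoidHom.mem_range]
  constructor
  · rintro ⟨w, rfl⟩
    exact ⟨_, D.out_mem w, rfl⟩
  · rintro ⟨a, ha, rfl⟩
    exact ⟨_, D.lam_mk ha⟩

theorem FD.card_center : Nat.card (Subgroup.center (D.X ⧸ D.K)) = D.r := by
  have hr : D.r ≠ 0 := D.sq.ne_zero
  haveI : NeZero D.r := ⟨hr⟩
  have h1 : Nat.card (Subgroup.center (D.X ⧸ D.K)) = Nat.card D.lam.range :=
    Nat.card_congr (MonoidHom.ofInjective D.lam_inj).toEquiv
  rw [h1, D.lam_range, Complex.card_rootsOfUnity]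

theorem FD.ker_eq : ((QuotientGroup.mk' (Subgroup.center (D.X ⧸ D.K))).comp
    (QuotientGroup.mk' D.K)).ker = D.A := by
  ext x
  rw [MonoidHom.mem_ker, MonoidHom.comp_apply, QuotientGroup.mk'_apply, QuotientGroup.eq_one_iff,
    QuotientGroup.mk'_apply, D.mk_mem_center_iff]

/-- the embedding into `H / Z(H)` -/
noncomputable def FD.emb : G →* (D.X ⧸ D.K) ⧸ Subgroup.center (D.X ⧸ D.K) :=
  (QuotientGroup.lift D.A ((QuotientGroup.mk' (Subgroup.center (D.X ⧸ D.K))).comp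
    (QuotientGroup.mk' D.K)) (by rw [← D.ker_eq])).comp D.io

theorem FD.emb_inj : Function.Injective D.emb := by
  have h1 : Function.Injective (QuotientGroup.lift D.A
      ((QuotientGroup.mk' (Subgroup.center (D.X ⧸ D.K))).comp
      (QuotientGroup.mk' D.K)) (by rw [← D.ker_eq])) := by
    rw [injective_iff_map_eq_one]
    intro a
    induction a using QuotientGroup.induction_on with
    | H x =>
      intro h
      rw [QuotientGroup.lift_mk, ← MonoidHom.mem_ker, D.ker_eq] at h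
      rw [QuotientGroup.eq_one_iff]
      exact h
  intro a b hab
  exact D.inj (h1 hab)

theorem FD.ram' (x : D.X ⧸ D.K) (hx : x ∉ Subgroup.center (D.X ⧸ D.K)) :
    ∃ y, x * y * x⁻¹ * y⁻¹ ∈ Subgroup.center (D.X ⧸ D.K) ∧ x * y * x⁻¹ * y⁻¹ ≠ 1 := by
  induction x using QuotientGroup.induction_on with
  | H x =>
    rw [D.mk_mem_center_iff] at hx
    obtain ⟨y, hy1, hy2⟩ := D.ram x hx
    refine ⟨QuotientGroup.mk y, ?_, ?_⟩
    · rw [← QuotientGroup.mk_mul, ← QuotientGroup.mk_inv, ← QuotientGroup.mk_mul,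
        ← QuotientGroup.mk_inv, ← QuotientGroup.mk_mul, D.mk_mem_center_iff]
      exact hy1
    · rw [← QuotientGroup.mk_mul, ← QuotientGroup.mk_inv, ← QuotientGroup.mk_mul,
        ← QuotientGroup.mk_inv, ← QuotientGroup.mk_mul]
      intro h
      exact hy2 ((QuotientGroup.eq_one_iff _).mp h).2

include D in
theorem FD.final : ∃ (H : Type u) (_ : Group H) (_ : Finite H) (χ : Cfsg.IrrCharacter H),
    (∀ h : H, (χ : H → ℂ) h = (χ : H → ℂ) 1 → h = 1) ∧
    (Cfsg.charDegree (χ : H → ℂ)) ^ 2 = (Subgroup.center H).index ∧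
    (∃ f : G →* H ⧸ Subgroup.center H, Function.Injective f) ∧
    (∀ p : ℕ, p.Prime → ((p ∣ Nat.card H ↔ p ∣ Nat.card G) ∧
      (p ∣ Nat.card (Subgroup.center H) ↔ p ∣ Nat.card G))) ∧
    Squarefree (Nat.card (Subgroup.center H)) := by
  obtain ⟨χ, h1, h2⟩ := central_type D.lam D.lam_inj D.ram'
  refine ⟨D.X ⧸ D.K, inferInstance, inferInstance, χ, h1, h2, ⟨D.emb, D.emb_inj⟩, ?_, ?_⟩
  · intro p hp
    have h3 : p ∣ Nat.card (Subgroup.center (D.X ⧸ D.K)) ↔ p ∣ Nat.card G := by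
      rw [D.card_center]
      exact D.rp p hp
    refine ⟨⟨fun h => ?_, fun h => ?_⟩, h3⟩
    · exact D.prm p hp (h.trans (Subgroup.card_quotient_dvd_card _))
    · exact (h3.mpr h).trans (Subgroup.card_subgroup_dvd_card _)
  · rw [D.card_center]
    exact D.sq

end Gag

end Cfsg.Agent.H4
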