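import Cfsg.Agent.H4.SymLoc

/-!
# Symmetric local algebras with five-dimensional centre: tools (owner: helper4)
-/

set_option autoImplicit false
set_option linter.unusedSectionVars false

namespace Cfsg.Agent.H4

open Submodule

variable {k : Type*} [Field k] {R : Type*} [Ring R] [Algebra k R]
variable {c : R} {A J : Submodule k R} {f : R →ₗ[k] k}

theorem pm {i j : ℕ} {u v : R} (hu : u ∈ J ^ i) (hv : v ∈ J ^ j) : u * v ∈ J ^ (i + j) := by
  rw [pow_add]; exact Submodule.mul_mem_mul hu hv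

theorem pm1 {u : R} (hu : u ∈ J) : u ∈ J ^ 1 := by rw [pow_one]; exact hu

theorem pm2 {u v : R} (hu : u ∈ J) (hv : v ∈ J) : u * v ∈ J ^ 2 := by
  rw [pow_two]; exact Submodule.mul_mem_mul hu hv

theorem pml {n : ℕ} {u v : R} (hu : u ∈ J) (hv : v ∈ J ^ n) : u * v ∈ J ^ (n + 1) := by
  rw [pow_succ']; exact Submodule.mul_mem_mul hu hv

theorem pmr {n : ℕ} {u v : R} (hu : u ∈ J ^ n) (hv : v ∈ J) : u * v ∈ J ^ (n + 1) := by
  rw [pow_succ]; exact Submodule.mul_mem_mul hu hv

theorem SL.pow_anti (h : SL c A J f) {m n : ℕ} (hm : 1 ≤ m) (hmn : m ≤ n) : J ^ n ≤ J ^ m := by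
  induction n, hmn using Nat.le_induction with
  | base => exact le_rfl
  | succ n hmn ih =>
    obtain ⟨n', rfl⟩ : ∃ n', n = n' + 1 := ⟨n - 1, by omega⟩
    refine le_trans ?_ ih
    rw [pow_succ']
    exact h.J_mul_pow n'

theorem SL.pow_le_A (h : SL c A J f) {n : ℕ} (hn : 1 ≤ n) : J ^ n ≤ A := by
  obtain ⟨n', rfl⟩ : ∃ n', n = n' + 1 := ⟨n - 1, by omega⟩
  exact (h.pow_le n').trans h.le

/-- a multiplicatively closed subspace containing generators contains `J` -/
theorem SL.gen (h : SL c A J f) {X : Set R} (hJ : J ≤ span k X ⊔ J ^ 2) {U : Submodule k R}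
    (hX : X ⊆ U) (hU : ∀ u ∈ U, ∀ v ∈ U, u * v ∈ U) : J ≤ U := by
  have hP : ∀ n : ℕ, J ^ (n + 1) ≤ U ⊔ J ^ (n + 2) := by
    intro n
    induction n with
    | zero =>
      rw [zero_add, pow_one]
      exact hJ.trans (sup_le_sup (span_le.mpr hX) le_rfl)
    | succ n ih =>
      have hX' : J ≤ U ⊔ J ^ 2 := hJ.trans (sup_le_sup (span_le.mpr hX) le_rfl)
      intro z hz
      rw [pow_succ'] at hz
      induction hz using Submodule.mul_induction_on' with
      | mem_mul_mem j hj s hs =>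
        obtain ⟨u, hu, t, ht, rfl⟩ := Submodule.mem_sup.mp (hX' hj)
        obtain ⟨u', hu', t', ht', rfl⟩ := Submodule.mem_sup.mp (ih hs)
        have e : (u + t) * (u' + t') = u * u' + (t * (u' + t') + ((u + t) * t' - t * t')) := by
          noncomm_ring
        rw [e]
        refine Submodule.add_mem_sup (hU u hu u' hu') (Submodule.add_mem _ ?_
          (Submodule.sub_mem _ ?_ ?_))
        · have := pm ht hs
          rwa [show 2 + (n + 1) = n + 1 + 2 by ring] at this
        · exact pml hj ht'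
        · have := pm ht ht'
          exact h.pow_anti (by omega) (by omega) this
      | add a _ b _ ha hb => exact Submodule.add_mem _ ha hb
  obtain ⟨N, hN⟩ := h.nil
  have hQ : ∀ m : ℕ, m ≤ N → J ^ (N - m + 1) ≤ U := by
    intro m
    induction m with
    | zero => intro _; rw [Nat.sub_zero, hN]; exact bot_le
    | succ m ih =>
      intro hm
      refine (hP _).trans (sup_le le_rfl ?_)
      have := ih (by omega)
      rwa [show N - (m + 1) + 2 = N - m + 1 by omega]
  have := hQ N le_rfl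
  rwa [Nat.sub_self, zero_add, pow_one] at this

/-- the image of `ad u` on a subspace -/
def adi (u : R) (I : Submodule k R) : Submodule k R :=
  I.map (LinearMap.mulLeft k u - LinearMap.mulRight k u)

theorem mem_adi {u z : R} {I : Submodule k R} : z ∈ adi u I ↔ ∃ s ∈ I, u * s - s * u = z := by
  rw [adi, Submodule.mem_map]
  rfl

/-- the commutator space is generated by commutators with generators -/
theorem SL.cmt_gen (h : SL c A J f) {X : Set R} (hX : X ⊆ J) (hJ : J ≤ span k X ⊔ J ^ 2)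
    {P : Submodule k R} (hP : ∀ x ∈ X, ∀ a ∈ A, x * a - a * x ∈ P) : cmt A ≤ P := by
  -- the set of `u` with `[u, A] ≤ P`
  let U : Submodule k R :=
    { carrier := {u | u ∈ A ∧ ∀ a ∈ A, u * a - a * u ∈ P}
      add_mem' := by
        rintro u v ⟨hu1, hu⟩ ⟨hv1, hv⟩
        refine ⟨A.add_mem hu1 hv1, fun a ha => ?_⟩
        have e : (u + v) * a - a * (u + v) = (u * a - a * u) + (v * a - a * v) := by noncomm_ring
        rw [e]
        exact P.add_mem (hu a ha) (hv a ha)
      zero_mem' := ⟨A.zero_mem, fun a _ => by rw [zero_mul, mul_zero, sub_zero]; exact P.zero_mem⟩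
      smul_mem' := by
        rintro t u ⟨hu1, hu⟩
        refine ⟨A.smul_mem t hu1, fun a ha => ?_⟩
        rw [smul_mul_assoc, mul_smul_comm, ← smul_sub]
        exact P.smul_mem t (hu a ha) }
  have hJU : J ≤ U := by
    refine h.gen hJ (fun x hx => ⟨h.le (hX hx), hP x hx⟩) ?_
    rintro u ⟨hu1, hu⟩ v ⟨hv1, hv⟩
    refine ⟨h.mul_mem hu1 hv1, fun a ha => ?_⟩
    have e : u * v * a - a * (u * v) = (u * (v * a) - v * a * u) + (v * (a * u) - a * u * v) := by
      noncomm_ring
    rw [e]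
    exact P.add_mem (hu _ (h.mul_mem hv1 ha)) (hv _ (h.mul_mem ha hu1))
  refine span_le.mpr ?_
  rintro z ⟨u, hu, v, hv, rfl⟩
  obtain ⟨j, hj, j', hj', e⟩ := h.comm_eq hu hv
  rw [e]
  exact (hJU hj).2 j' (h.le hj')

theorem SL.cmt_two' (h : SL c A J f) {x y : R} (hx : x ∈ J) (hy : y ∈ J)
    (hJ : J ≤ span k {x, y} ⊔ J ^ 2) :
    cmt A ≤ span k {x * y - y * x} ⊔ (adi x (J ^ 2) ⊔ adi y (J ^ 2)) := by
  have key : ∀ a ∈ A, ∃ α β γ : k, ∃ s ∈ J ^ 2, a = γ • c + (α • x + β • y + s) := by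
    intro a ha
    obtain ⟨γ, hγ⟩ := h.decomp a ha
    obtain ⟨α, β, s, hs, e⟩ := exists_pair_expand hJ hγ
    exact ⟨α, β, γ, s, hs, by rw [← e, add_sub_cancel]⟩
  have hxc := h.left x (h.le hx)
  have hxc' := h.right x (h.le hx)
  have hyc := h.left y (h.le hy)
  have hyc' := h.right y (h.le hy)
  refine h.cmt_gen (X := {x, y}) ?_ hJ ?_
  · rintro z (rfl | hz)
    · exact hx
    · rw [Set.mem_singleton_iff] at hz; rw [hz]; exact hy
  · rintro z (rfl | hz) a ha
    · obtain ⟨α, β, γ, s, hs, rfl⟩ := key a ha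
      have e : z * (γ • c + (α • z + β • y + s)) - (γ • c + (α • z + β • y + s)) * z =
          β • (z * y - y * z) + (z * s - s * z) := by
        simp only [mul_add, add_mul, mul_smul_comm, smul_mul_assoc, hxc, hxc']
        module
      rw [e]
      refine Submodule.add_mem_sup (Submodule.smul_mem _ _ (mem_span_singleton_self _))
        (Submodule.mem_sup_left (mem_adi.mpr ⟨s, hs, rfl⟩))
    · rw [Set.mem_singleton_iff] at hz
      subst hz
      obtain ⟨α, β, γ, s, hs, rfl⟩ := key a ha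
      have e : z * (γ • c + (α • x + β • z + s)) - (γ • c + (α • x + β • z + s)) * z =
          (-α) • (x * z - z * x) + (z * s - s * z) := by
        simp only [mul_add, add_mul, mul_smul_comm, smul_mul_assoc, hyc, hyc']
        module
      rw [e]
      refine Submodule.add_mem_sup (Submodule.smul_mem _ _ (mem_span_singleton_self _))
        (Submodule.mem_sup_right (mem_adi.mpr ⟨s, hs, rfl⟩))

theorem adi_le {u : R} (hu : u ∈ J) (n : ℕ) :
    adi u (J ^ n) ≤ J ^ (n + 1) := by
  intro z hz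
  obtain ⟨s, hs, rfl⟩ := mem_adi.mp hz
  exact Submodule.sub_mem _ (pml hu hs) (pmr hs hu)

theorem SL.soc_of_pow (h : SL c A J f) {n : ℕ} (hn : 1 ≤ n) (h0 : J ^ (n + 1) = ⊥) :
    J ^ n ≤ socl A J := by
  intro z hz
  refine ⟨h.pow_le_A hn hz, fun j hj => ?_⟩
  have := pml hj hz
  rw [h0] at this
  exact (Submodule.mem_bot k).mp this

/-- a commutator in the socle vanishes -/
theorem SL.comm_soc (h : SL c A J f) {u v : R} (hu : u ∈ A) (hv : v ∈ A)
    (hs : u * v - v * u ∈ socl A J) : u * v - v * u = 0 := by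
  have : u * v - v * u ∈ cmt A ⊓ socl A J := ⟨subset_span ⟨u, hu, v, hv, rfl⟩, hs⟩
  rw [h.soc_inf] at this
  exact (Submodule.mem_bot k).mp this

/-- the case of two generators -/
theorem SL.two_gen' (h : SL c A J f) {x y : R} (hx : x ∈ J) (hy : y ∈ J)
    (hJ : J ≤ span k {x, y} ⊔ J ^ 2) (hW0 : J ^ 2 ≤ span k {x * y - y * x} ⊔ J ^ 3) : cmt A = ⊥ := by
  by_contra hK
  have hJ3 := h.J3_ne_bot hK
  set w := x * y - y * x with hw
  have hW : J ^ 2 ≤ span k {w} ⊔ J ^ 3 := hW0
  have hw2 : w ∈ J ^ 2 := by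
    rw [pow_two]
    exact Submodule.sub_mem _ (Submodule.mul_mem_mul hx hy) (Submodule.mul_mem_mul hy hx)
  have hw3 : w ∉ J ^ 3 := by
    intro hw3
    have h1 : J ^ 2 ≤ J ^ 3 := hW.trans (sup_le (by rwa [span_singleton_le_iff_mem]) le_rfl)
    have h2 : J ^ 2 = ⊥ := pow_bot_of_le (m := 1) h h1
    apply hJ3
    rw [pow_succ, h2, Submodule.bot_mul]
  -- coefficients
  have hcoef : ∀ u ∈ J, ∀ v ∈ J, ∃ b : k, u * v - b • w ∈ J ^ 3 := by
    intro u hu v hv
    have h1 : u * v ∈ J ^ 2 := by rw [pow_two]; exact Submodule.mul_mem_mul hu hv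
    obtain ⟨p, hp, q, hq, hpq⟩ := Submodule.mem_sup.mp (hW h1)
    obtain ⟨b, rfl⟩ := mem_span_singleton.mp hp
    exact ⟨b, by rw [← hpq, add_sub_cancel_left]; exact hq⟩
  obtain ⟨α, hα⟩ := hcoef x hx x hx
  obtain ⟨β, hβ⟩ := hcoef x hx y hy
  obtain ⟨γ, hγ⟩ := hcoef y hy x hx
  obtain ⟨δ, hδ⟩ := hcoef y hy y hy
  have hβγ : β - γ = 1 := by
    have h1 : (β - γ - 1) • w ∈ J ^ 3 := by
      have h2 := Submodule.sub_mem _ hγ hβ
      have e : (β - γ - 1) • w = y * x - γ • w - (x * y - β • w) := by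
        have e2 : x * y = w + y * x := by rw [hw, sub_add_cancel]
        rw [e2]
        module
      rw [e]; exact h2
    by_contra hne
    have h3 : β - γ - 1 ≠ 0 := fun h0 => hne (sub_eq_zero.mp h0)
    apply hw3
    have h4 := Submodule.smul_mem _ (β - γ - 1)⁻¹ h1
    rwa [smul_smul, inv_mul_cancel₀ h3, one_smul] at h4
  -- associativity
  have m31 : ∀ {p q : R}, p ∈ J → q ∈ J ^ 3 → q * p ∈ J ^ 4 := by
    intro p q hp hq
    rw [pow_succ]; exact Submodule.mul_mem_mul hq hp
  have m13 : ∀ {p q : R}, p ∈ J → q ∈ J ^ 3 → p * q ∈ J ^ 4 := by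
    intro p q hp hq
    rw [pow_succ']; exact Submodule.mul_mem_mul hp hq
  have hass : ∀ {u v t : R} {b b' : k}, u ∈ J → t ∈ J → u * v - b • w ∈ J ^ 3 →
      v * t - b' • w ∈ J ^ 3 →
      b • (Submodule.Quotient.mk (w * t) : R ⧸ (J ^ 4)) = b' • Submodule.Quotient.mk (u * w) := by
    intro u v t b b' hu ht h1 h2
    rw [← Submodule.Quotient.mk_smul, ← Submodule.Quotient.mk_smul, Submodule.Quotient.eq]
    have h3 := m31 ht h1
    have h4 := m13 hu h2
    have e : b • (w * t) - b' • (u * w) = u * (v * t - b' • w) - (u * v - b • w) * t := by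
      rw [mul_sub u (v * t), sub_mul (u * v), smul_mul_assoc, mul_smul_comm, mul_assoc u v t]
      abel
    rw [e]
    exact Submodule.sub_mem _ h4 h3
  have hR1 : (Submodule.Quotient.mk (x * w) : R ⧸ (J ^ 4)) = 0 :=
    lin_aux1 (α := α) hβγ (hass hx hx hα hα) (hass hx hy hα hβ) (hass hx hx hβ hγ)
  have hR2 : (Submodule.Quotient.mk (y * w) : R ⧸ (J ^ 4)) = 0 :=
    lin_aux2 (δ := δ) hβγ (hass hy hy hδ hδ) (hass hy hx hδ hγ) (hass hy hy hγ hβ)
  rw [Submodule.Quotient.mk_eq_zero] at hR1 hR2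
  have h34 : J ^ 3 ≤ J ^ 4 := by
    rw [show (J ^ 3 : Submodule k R) = J * J ^ 2 from pow_succ' _ _]
    refine (mul_le_mul' hJ hW).trans ?_
    rw [Submodule.sup_mul, Submodule.mul_sup, Submodule.mul_sup]
    refine sup_le (sup_le ?_ ?_) (sup_le ?_ ?_)
    · rw [Submodule.span_mul_span, span_le]
      rintro _ ⟨u, hu, v, hv, rfl⟩
      rw [Set.mem_singleton_iff] at hv
      subst hv
      rcases hu with rfl | hu
      · exact hR1
      · rw [Set.mem_singleton_iff] at hu
        subst hu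
        exact hR2
    · rw [show (J ^ 4 : Submodule k R) = J * J ^ 3 from pow_succ' _ _]
      refine mul_le_mul_left ?_ _
      rw [span_le]
      rintro u hu
      rcases hu with rfl | hu
      · exact hx
      · rw [Set.mem_singleton_iff] at hu
        subst hu
        exact hy
    · rw [show (J ^ 4 : Submodule k R) = J ^ 2 * J ^ 2 from by rw [← pow_add]]
      refine mul_le_mul_right ?_ _
      rw [span_singleton_le_iff_mem]
      exact hw2
    · rw [← pow_add]
      exact (by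
        calc (J ^ (2 + 3) : Submodule k R) = J * J ^ (3 + 1) := by rw [← pow_succ']
          _ ≤ J ^ (3 + 1) := h.J_mul_pow 3
          _ = J ^ 4 := rfl)
  exact hJ3 (pow_bot_of_le (m := 2) h h34)


end Cfsg.Agent.H4
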