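import Cfsg.Agent.H4.LocA

/-!
# Symmetric local algebras with five-dimensional centre: two generators (owner: helper4)
-/

set_option autoImplicit false
set_option linter.unusedSectionVars false

namespace Cfsg.Agent.H4

open Submodule

variable {k : Type*} [Field k] {R : Type*} [Ring R] [Algebra k R]
variable {c : R} {A J : Submodule k R} {f : R →ₗ[k] k}

theorem SL.J2_span (h : SL c A J f) {x y : R} (_hx : x ∈ J) (_hy : y ∈ J)
    (hJ : J ≤ span k {x, y} ⊔ J ^ 2) {z : R} (hz : z ∈ J ^ 2) :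
    ∃ a b d e : k, ∃ t ∈ J ^ 3, z = a • (x * x) + b • (x * y) + d • (y * x) + e • (y * y) + t := by
  rw [pow_two] at hz
  induction hz using Submodule.mul_induction_on' with
  | mem_mul_mem u hu v hv =>
    obtain ⟨a, b, s, hs, rfl⟩ := exists_pair_expand hJ hu
    obtain ⟨a', b', s', hs', rfl⟩ := exists_pair_expand hJ hv
    refine ⟨a * a', a * b', b * a', b * b', s * (a' • x + b' • y + s') +
      ((a • x + b • y + s) * s' - s * s'), ?_, ?_⟩
    · refine Submodule.add_mem _ (pmr hs hv) (Submodule.sub_mem _ ?_ ?_)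
      · exact pml hu hs'
      · exact h.pow_anti (by norm_num) (by norm_num) (pm hs hs')
    · simp only [mul_add, add_mul, mul_smul_comm, smul_mul_assoc]
      module
  | add u _ v _ hu hv =>
    obtain ⟨a, b, d, e, t, ht, rfl⟩ := hu
    obtain ⟨a', b', d', e', t', ht', rfl⟩ := hv
    exact ⟨a + a', b + b', d + d', e + e', t + t', Submodule.add_mem _ ht ht', by module⟩

/-- the `J³` part of the commutator space -/
theorem SL.J3_comm (h : SL c A J f) {x y : R} (hx : x ∈ J) (hy : y ∈ J)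
    (hJ : J ≤ span k {x, y} ⊔ J ^ 2) (hw : x * y - y * x ∉ J ^ 3)
    (hK3 : J ^ 3 ≤ cmt A ⊔ socl A J) {n : ℕ} (hn : 3 ≤ n) (hS : socl A J ≤ J ^ n) {z : R}
    (hz : z ∈ J ^ 3) : ∃ s ∈ J ^ 2, ∃ t ∈ J ^ 2,
      z - ((x * s - s * x) + (y * t - t * y)) ∈ J ^ n := by
  obtain ⟨u, hu, s, hs, rfl⟩ := Submodule.mem_sup.mp (hK3 hz)
  obtain ⟨v, hv, a, ha, e⟩ := Submodule.mem_sup.mp (h.cmt_two' hx hy hJ hu)
  obtain ⟨a1, ha1, a2, ha2, e'⟩ := Submodule.mem_sup.mp ha
  obtain ⟨s1, hs1, rfl⟩ := mem_adi.mp ha1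
  obtain ⟨t1, ht1, rfl⟩ := mem_adi.mp ha2
  obtain ⟨γ, rfl⟩ := mem_span_singleton.mp hv
  have hsn := hS hs
  have hsJ : s ∈ J ^ 3 := h.pow_anti (by norm_num) hn hsn
  have haJ : a ∈ J ^ 3 := by
    rw [← e']
    exact Submodule.add_mem _ (adi_le hx 2 (mem_adi.mpr ⟨s1, hs1, rfl⟩))
      (adi_le hy 2 (mem_adi.mpr ⟨t1, ht1, rfl⟩))
  have hγ : γ = 0 := by
    by_contra hγ
    apply hw
    have h1 : γ • (x * y - y * x) ∈ J ^ 3 := by
      have : γ • (x * y - y * x) = (u + s) - s - a := by rw [← e]; abel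
      rw [this]
      exact Submodule.sub_mem _ (Submodule.sub_mem _ hz hsJ) haJ
    have h2 := Submodule.smul_mem _ γ⁻¹ h1
    rwa [smul_smul, inv_mul_cancel₀ hγ, one_smul] at h2
  refine ⟨s1, hs1, t1, ht1, ?_⟩
  rw [hγ, zero_smul, zero_add] at e
  rw [e', e, add_sub_cancel_left]
  exact hsn

theorem mkz {n : ℕ} {z : R} : (Submodule.Quotient.mk z : R ⧸ (J ^ n)) = 0 ↔ z ∈ J ^ n :=
  Submodule.Quotient.mk_eq_zero _

theorem caseI_aux {Q : Type*} [AddCommGroup Q] [Module k Q] {α β γ d a : k} {P S U : Q}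
    (h0 : ¬ (α = 0 ∧ β = 0 ∧ γ = 0))
    (h1 : α • P + β • S = 0) (h2 : β • U + γ • P = 0) (h4 : α • U = 0) (h5 : γ • S = 0)
    (h6 : β • P = 0) (h7 : S = a • U + d • P) : P = 0 ∧ S = 0 := by
  by_cases hβ : β = 0
  · rw [hβ, zero_smul, add_zero] at h1
    rw [hβ, zero_smul, zero_add] at h2
    have hP : P = 0 := by
      by_cases hα : α = 0
      · have hγ : γ ≠ 0 := fun hγ => h0 ⟨hα, hβ, hγ⟩
        exact (smul_eq_zero.mp h2).resolve_left hγ
      · exact (smul_eq_zero.mp h1).resolve_left hα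
    refine ⟨hP, ?_⟩
    by_cases hγ : γ = 0
    · have hα : α ≠ 0 := fun hα => h0 ⟨hα, hβ, hγ⟩
      have hU := (smul_eq_zero.mp h4).resolve_left hα
      rw [h7, hU, hP, smul_zero, smul_zero, add_zero]
    · exact (smul_eq_zero.mp h5).resolve_left hγ
  · have hP : P = 0 := (smul_eq_zero.mp h6).resolve_left hβ
    refine ⟨hP, ?_⟩
    rw [hP, smul_zero, zero_add] at h1
    exact (smul_eq_zero.mp h1).resolve_left hβ

/-- two generators, first case: `xy = 0` modulo `J³` -/
theorem SL.caseI (h : SL c A J f) {x y : R} (hx : x ∈ J) (hy : y ∈ J)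
    (hJ : J ≤ span k {x, y} ⊔ J ^ 2) (hw : x * y - y * x ∉ J ^ 3)
    (hK3 : J ^ 3 ≤ cmt A ⊔ socl A J) (hxy : x * y ∈ J ^ 3) {α β γ : k}
    (h0 : ¬ (α = 0 ∧ β = 0 ∧ γ = 0))
    (hrel : α • (x * x) + β • (y * x) + γ • (y * y) ∈ J ^ 3) : J ^ 4 = ⊥ := by
  by_contra h4
  have hS : socl A J ≤ J ^ 4 := (h.soc_le (h.pow_le_A (by norm_num)) h4 (h.J_mul_pow 3)).1
  have hxx : x * x ∈ J ^ 2 := pm2 hx hx
  have hyx : y * x ∈ J ^ 2 := pm2 hy hx
  have hyy : y * y ∈ J ^ 2 := pm2 hy hy
  set p := y * (x * x) with hp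
  set q := y * (y * x) with hq
  have hpJ : p ∈ J ^ 3 := pml hy hxx
  have hqJ : q ∈ J ^ 3 := pml hy hyx
  have key : ∀ z ∈ J ^ 3, ∃ a b : k, z - (a • p + b • q) ∈ J ^ 4 := by
    intro z hz
    obtain ⟨s, hs, t, ht, hst⟩ := h.J3_comm hx hy hJ hw hK3 (n := 4) (by norm_num) hS hz
    obtain ⟨a, b, d, e, s', hs', rfl⟩ := h.J2_span hx hy hJ hs
    obtain ⟨a', b', d', e', t', ht', rfl⟩ := h.J2_span hx hy hJ ht
    refine ⟨-d + a', -e + d', ?_⟩
    have e1 : z - ((-d + a') • p + (-e + d') • q) =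
        (z - ((x * (a • (x * x) + b • (x * y) + d • (y * x) + e • (y * y) + s') -
          (a • (x * x) + b • (x * y) + d • (y * x) + e • (y * y) + s') * x) +
          (y * (a' • (x * x) + b' • (x * y) + d' • (y * x) + e' • (y * y) + t') -
          (a' • (x * x) + b' • (x * y) + d' • (y * x) + e' • (y * y) + t') * y))) +
        (b • (x * (x * y)) + d • ((x * y) * x) + e • ((x * y) * y) - b • ((x * y) * x) +
          (x * s' - s' * x) + b' • (y * (x * y)) - a' • (x * (x * y)) - b' • ((x * y) * y) -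
          d' • (y * (x * y)) + (y * t' - t' * y)) := by
      rw [hp, hq]
      simp only [mul_add, add_mul, mul_smul_comm, smul_mul_assoc, mul_assoc]
      module
    rw [e1]
    refine Submodule.add_mem _ hst ?_
    have m1 : x * (x * y) ∈ J ^ 4 := pml hx hxy
    have m2 : x * y * x ∈ J ^ 4 := pmr hxy hx
    have m3 : x * y * y ∈ J ^ 4 := pmr hxy hy
    have m4 : y * (x * y) ∈ J ^ 4 := pml hy hxy
    have m5 : x * s' - s' * x ∈ J ^ 4 := Submodule.sub_mem _ (pml hx hs') (pmr hs' hx)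
    have m6 : y * t' - t' * y ∈ J ^ 4 := Submodule.sub_mem _ (pml hy ht') (pmr ht' hy)
    rw [← mkz] at m1 m2 m3 m4 m5 m6 ⊢
    simp only [Submodule.Quotient.mk_add, Submodule.Quotient.mk_sub, Submodule.Quotient.mk_smul]
      at m1 m2 m3 m4 m5 m6 ⊢
    simp only [m1, m2, m3, m4, m5, m6, smul_zero, add_zero, sub_zero]
  obtain ⟨a, b, hX3⟩ := key (x * (x * x)) (pml hx hxx)
  obtain ⟨a', d, hY3⟩ := key (y * (y * y)) (pml hy hyy)
  have hxp : x * p ∈ J ^ 5 := by
    have := pm hxy hxx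
    rw [hp, ← mul_assoc]; exact this
  have hxq : x * q ∈ J ^ 5 := by
    have := pm hxy hyx
    rw [hq, ← mul_assoc]; exact this
  -- equations modulo J⁵
  have n4 : y * (y * (y * y)) ∈ J ^ 5 := by
    have e1 : y * (y * (y * y)) = (y * (y * y) - (a' • p + d • q)) * y +
        (a' • (y * (x * (x * y))) + d • (y * (y * (x * y)))) := by
      rw [hp, hq]
      simp only [sub_mul, add_mul, smul_mul_assoc, mul_assoc]
      abel
    rw [e1]
    refine Submodule.add_mem _ (pmr hY3 hy) (Submodule.add_mem _ ?_ ?_)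
    · exact Submodule.smul_mem _ _ (pml hy (pml hx hxy))
    · exact Submodule.smul_mem _ _ (pml hy (pml hy hxy))
  have n1 : x * (x * (x * x)) ∈ J ^ 5 := by
    have e1 : x * (x * (x * x)) = x * (x * (x * x) - (a • p + b • q)) +
        (a • (x * p) + b • (x * q)) := by
      simp only [mul_sub, mul_add, mul_smul_comm]
      abel
    rw [e1]
    exact Submodule.add_mem _ (pml hx hX3) (Submodule.add_mem _ (Submodule.smul_mem _ _ hxp)
      (Submodule.smul_mem _ _ hxq))
  have n5 : y * q - (a' • (y * (x * (x * x))) + d • (y * p)) ∈ J ^ 5 := by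
    have e1 : y * q - (a' • (y * (x * (x * x))) + d • (y * p)) =
        (y * (y * y) - (a' • p + d • q)) * x := by
      rw [hp, hq]
      simp only [sub_mul, add_mul, smul_mul_assoc, mul_assoc]
    rw [e1]
    exact pmr hY3 hx
  have i1 : α • (y * p) + β • (y * q) + γ • (y * (y * (y * y))) ∈ J ^ 5 := by
    have e1 : α • (y * p) + β • (y * q) + γ • (y * (y * (y * y))) =
        y * (y * (α • (x * x) + β • (y * x) + γ • (y * y))) := by
      rw [hp, hq]
      simp only [mul_add, mul_smul_comm]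
    rw [e1]
    exact pml hy (pml hy hrel)
  have i2 : α • (x * (x * (x * x))) + β • (y * (x * (x * x))) + γ • (y * p) ∈ J ^ 5 := by
    have e1 : α • (x * (x * (x * x))) + β • (y * (x * (x * x))) + γ • (y * p) =
        (α • (x * x) + β • (y * x) + γ • (y * y)) * (x * x) := by
      rw [hp]
      simp only [add_mul, smul_mul_assoc, mul_assoc]
    rw [e1]
    exact pm hrel hxx
  have i3 : α • (y * (x * (x * x))) + β • (y * p) + γ • (y * q) ∈ J ^ 5 := by
    have e1 : α • (y * (x * (x * x))) + β • (y * p) + γ • (y * q) =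
        y * (α • (x * x) + β • (y * x) + γ • (y * y)) * x := by
      rw [hp, hq]
      simp only [mul_add, add_mul, smul_mul_assoc, mul_smul_comm, mul_assoc]
    rw [e1]
    exact pmr (pml hy hrel) hx
  have i4' : α • (x * (x * x)) ∈ J ^ 4 := by
    have e1 : α • (x * (x * x)) = x * (α • (x * x) + β • (y * x) + γ • (y * y)) -
        (β • ((x * y) * x) + γ • ((x * y) * y)) := by
      simp only [mul_add, mul_smul_comm, mul_assoc]
      abel
    rw [e1]
    exact Submodule.sub_mem _ (pml hx hrel) (Submodule.add_mem _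
      (Submodule.smul_mem _ _ (pmr hxy hx)) (Submodule.smul_mem _ _ (pmr hxy hy)))
  have i4 : α • (y * (x * (x * x))) ∈ J ^ 5 := by
    rw [← mul_smul_comm]; exact pml hy i4'
  have i5' : γ • (y * (y * y)) ∈ J ^ 4 := by
    have e1 : γ • (y * (y * y)) = (α • (x * x) + β • (y * x) + γ • (y * y)) * y -
        (α • (x * (x * y)) + β • (y * (x * y))) := by
      simp only [add_mul, smul_mul_assoc, mul_assoc]
      abel
    rw [e1]
    exact Submodule.sub_mem _ (pmr hrel hy) (Submodule.add_mem _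
      (Submodule.smul_mem _ _ (pml hx hxy)) (Submodule.smul_mem _ _ (pml hy hxy)))
  have i5 : γ • (y * q) ∈ J ^ 5 := by
    have e1 : γ • (y * q) = (γ • (y * (y * y))) * x := by
      rw [hq]; simp only [smul_mul_assoc, mul_assoc]
    rw [e1]; exact pmr i5' hx
  -- conclusion
  rw [← mkz] at n4 n1 n5 i1 i2 i3 i4 i5
  simp only [Submodule.Quotient.mk_add, Submodule.Quotient.mk_sub, Submodule.Quotient.mk_smul]
    at n4 n1 n5 i1 i2 i3 i4 i5
  rw [n4, smul_zero, add_zero] at i1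
  rw [n1, smul_zero, zero_add] at i2
  have i6 : β • (Submodule.Quotient.mk (y * p) : R ⧸ (J ^ 5)) = 0 := by
    rw [i4, zero_add, i5, add_zero] at i3
    exact i3
  obtain ⟨hP, hQ⟩ := caseI_aux h0 i1 i2 i4 i5 i6 (sub_eq_zero.mp n5)
  rw [mkz] at hP hQ
  -- J⁴ ≤ J⁵
  have h45 : J ^ 4 ≤ J ^ 5 := by
    intro z hz
    rw [show (J ^ 4 : Submodule k R) = J * J ^ 3 from pow_succ' _ _] at hz
    induction hz using Submodule.mul_induction_on' with
    | mem_mul_mem u hu v hv =>
      obtain ⟨e1, e2, s, hs, rfl⟩ := exists_pair_expand hJ hu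
      obtain ⟨e3, e4, he⟩ := key v hv
      have e : (e1 • x + e2 • y + s) * v = (e1 • x + e2 • y + s) * (v - (e3 • p + e4 • q)) +
          (s * (e3 • p + e4 • q) + ((e1 * e3) • (x * p) + (e1 * e4) • (x * q) +
            (e2 * e3) • (y * p) + (e2 * e4) • (y * q))) := by
        simp only [mul_sub, mul_add, add_mul, mul_smul_comm, smul_mul_assoc]
        module
      rw [e]
      refine Submodule.add_mem _ (pml hu he) (Submodule.add_mem _ (pm (i := 2) (j := 3) hs ?_) ?_)
      · exact Submodule.add_mem _ (Submodule.smul_mem _ _ hpJ) (Submodule.smul_mem _ _ hqJ)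
      · exact Submodule.add_mem _ (Submodule.add_mem _ (Submodule.add_mem _
          (Submodule.smul_mem _ _ hxp) (Submodule.smul_mem _ _ hxq))
          (Submodule.smul_mem _ _ hP)) (Submodule.smul_mem _ _ hQ)
    | add u _ v _ hu hv => exact Submodule.add_mem _ hu hv
  exact h4 (pow_bot_of_le (m := 3) h h45)

end Cfsg.Agent.H4
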