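import Cfsg.Agent.H4.LocB

/-!
# Symmetric local algebras with five-dimensional centre: two generators, second part (owner: helper4)
-/

set_option autoImplicit false
set_option linter.unusedSectionVars false

namespace Cfsg.Agent.H4

open Submodule

variable {k : Type*} [Field k] {R : Type*} [Ring R] [Algebra k R]
variable {c : R} {A J : Submodule k R} {f : R →ₗ[k] k}

/-- `q`-commuting case -/
theorem SL.caseB (h : SL c A J f) {x y : R} (hx : x ∈ J) (hy : y ∈ J)
    (hJ : J ≤ span k {x, y} ⊔ J ^ 2) (hw : x * y - y * x ∉ J ^ 3)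
    (hK3 : J ^ 3 ≤ cmt A ⊔ socl A J) (hxx : x * x ∈ J ^ 3) {q : k}
    (hE : x * y - q • (y * x) ∈ J ^ 3) : J ^ 4 = ⊥ := by
  by_contra h4
  have hS : socl A J ≤ J ^ 4 := (h.soc_le (h.pow_le_A (by norm_num)) h4 (h.J_mul_pow 3)).1
  obtain ⟨E, hE'⟩ : ∃ E, E = x * y - q • (y * x) := ⟨_, rfl⟩
  rw [← hE'] at hE
  have hxy : x * y = E + q • (y * x) := by rw [hE']; abel
  have hyx : y * x ∈ J ^ 2 := pm2 hy hx
  have hyy : y * y ∈ J ^ 2 := pm2 hy hy
  obtain ⟨p, hp⟩ : ∃ p, p = y * (y * x) := ⟨_, rfl⟩
  have hpJ : p ∈ J ^ 3 := by rw [hp]; exact pml hy hyx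
  -- words modulo J⁴
  have w1 : x * (y * x) - E * x - q • (y * (x * x)) = 0 := by
    rw [← mul_assoc, hxy]
    simp only [add_mul, smul_mul_assoc, mul_assoc]
    abel
  have w2 : y * (x * y) - y * E - q • p = 0 := by
    rw [hxy, hp]
    simp only [mul_add, mul_smul_comm]
    abel
  have w3 : x * (y * y) - E * y - q • (y * (x * y)) = 0 := by
    rw [← mul_assoc, hxy]
    simp only [add_mul, smul_mul_assoc, mul_assoc]
    rw [hxy]
    abel
  have m1 : x * (y * x) ∈ J ^ 4 := by
    have e : x * (y * x) = E * x + q • (y * (x * x)) := by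
      have := w1; rw [sub_sub, sub_eq_zero] at this; exact this
    rw [e]
    exact Submodule.add_mem _ (pmr hE hx) (Submodule.smul_mem _ _ (pml hy hxx))
  have m2 : y * (x * y) - q • p ∈ J ^ 4 := by
    have e : y * (x * y) - q • p = y * E := by
      have := w2; rw [sub_sub, add_comm, ← sub_sub, sub_eq_zero] at this; exact this
    rw [e]; exact pml hy hE
  have m3 : x * (y * y) - (q * q) • p ∈ J ^ 4 := by
    have e : x * (y * y) - (q * q) • p = E * y + q • (y * (x * y) - q • p) := by
      have := w3; rw [sub_sub, sub_eq_zero] at this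
      rw [this]; module
    rw [e]; exact Submodule.add_mem _ (pmr hE hy) (Submodule.smul_mem _ _ m2)
  have key : ∀ z ∈ J ^ 3, ∃ a : k, z - a • p ∈ J ^ 4 := by
    intro z hz
    obtain ⟨s, hs, t, ht, hst⟩ := h.J3_comm hx hy hJ hw hK3 (n := 4) (by norm_num) hS hz
    obtain ⟨a, b, d, e, s', hs', rfl⟩ := h.J2_span hx hy hJ hs
    obtain ⟨a', b', d', e', t', ht', rfl⟩ := h.J2_span hx hy hJ ht
    refine ⟨e * (q * q) - e + b' * q - b' * (q * q) + d' - d' * q, ?_⟩
    have e1 : z - (e * (q * q) - e + b' * q - b' * (q * q) + d' - d' * q) • p =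
        (z - ((x * (a • (x * x) + b • (x * y) + d • (y * x) + e • (y * y) + s') -
          (a • (x * x) + b • (x * y) + d • (y * x) + e • (y * y) + s') * x) +
          (y * (a' • (x * x) + b' • (x * y) + d' • (y * x) + e' • (y * y) + t') -
          (a' • (x * x) + b' • (x * y) + d' • (y * x) + e' • (y * y) + t') * y))) +
        (b • ((x * x) * y) - b • (x * (y * x)) + d • (x * (y * x)) - d • (y * (x * x)) +
          e • (x * (y * y) - (q * q) • p) + (x * s' - s' * x) +
          a' • (y * (x * x)) - a' • ((x * x) * y) + b' • (y * (x * y) - q • p) -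
          b' • (x * (y * y) - (q * q) • p) - d' • (y * (x * y) - q • p) +
          (y * t' - t' * y)) := by
      rw [hp]
      simp only [mul_add, add_mul, mul_smul_comm, smul_mul_assoc, mul_assoc]
      module
    rw [e1]
    refine Submodule.add_mem _ hst ?_
    have m4 : x * x * y ∈ J ^ 4 := pmr hxx hy
    have m5 : y * (x * x) ∈ J ^ 4 := pml hy hxx
    have m6 : x * s' - s' * x ∈ J ^ 4 := Submodule.sub_mem _ (pml hx hs') (pmr hs' hx)
    have m7 : y * t' - t' * y ∈ J ^ 4 := Submodule.sub_mem _ (pml hy ht') (pmr ht' hy)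
    exact Submodule.add_mem _ (Submodule.sub_mem _ (Submodule.sub_mem _ (Submodule.add_mem _
      (Submodule.sub_mem _ (Submodule.add_mem _ (Submodule.add_mem _ (Submodule.add_mem _
      (Submodule.sub_mem _ (Submodule.add_mem _ (Submodule.sub_mem _
      (Submodule.smul_mem _ _ m4) (Submodule.smul_mem _ _ m1)) (Submodule.smul_mem _ _ m1))
      (Submodule.smul_mem _ _ m5)) (Submodule.smul_mem _ _ m3)) m6) (Submodule.smul_mem _ _ m5))
      (Submodule.smul_mem _ _ m4)) (Submodule.smul_mem _ _ m2)) (Submodule.smul_mem _ _ m3))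
      (Submodule.smul_mem _ _ m2)) m7
  have hpx : p * x ∈ J ^ 5 := by
    rw [hp, mul_assoc, mul_assoc]; exact pml hy (pml hy hxx)
  have hxp : x * p ∈ J ^ 5 := by
    have e : x * p = (x * (y * y) - (q * q) • p) * x + (q * q) • (p * x) := by
      rw [hp]; simp only [sub_mul, smul_mul_assoc, mul_assoc]; abel
    rw [e]; exact Submodule.add_mem _ (pmr m3 hx) (Submodule.smul_mem _ _ hpx)
  have hyp : y * p ∈ J ^ 5 := by
    obtain ⟨a, ha⟩ := key (y * (y * y)) (pml hy hyy)
    have e : y * p = (y * (y * y) - a • p) * x + a • (p * x) := by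
      rw [hp]; simp only [sub_mul, smul_mul_assoc, mul_assoc]; abel
    rw [e]; exact Submodule.add_mem _ (pmr ha hx) (Submodule.smul_mem _ _ hpx)
  have h45 : J ^ 4 ≤ J ^ 5 := by
    intro z hz
    rw [show (J ^ 4 : Submodule k R) = J * J ^ 3 from pow_succ' _ _] at hz
    induction hz using Submodule.mul_induction_on' with
    | mem_mul_mem u hu v hv =>
      obtain ⟨e1, e2, s, hs, rfl⟩ := exists_pair_expand hJ hu
      obtain ⟨e3, he⟩ := key v hv
      have e : (e1 • x + e2 • y + s) * v = (e1 • x + e2 • y + s) * (v - e3 • p) +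
          (s * (e3 • p) + ((e1 * e3) • (x * p) + (e2 * e3) • (y * p))) := by
        simp only [mul_sub, add_mul, mul_smul_comm, smul_mul_assoc]
        module
      rw [e]
      exact Submodule.add_mem _ (pml hu he) (Submodule.add_mem _
        (pm (i := 2) (j := 3) hs (Submodule.smul_mem _ _ hpJ))
        (Submodule.add_mem _ (Submodule.smul_mem _ _ hxp) (Submodule.smul_mem _ _ hyp)))
    | add u _ v _ hu hv => exact Submodule.add_mem _ hu hv
  exact h4 (pow_bot_of_le (m := 3) h h45)

/-- the case `x² = y² = 0` -/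
theorem SL.caseA (h : SL c A J f) {x y : R} (hx : x ∈ J) (hy : y ∈ J)
    (hJ : J ≤ span k {x, y} ⊔ J ^ 2) (hw : x * y - y * x ∉ J ^ 3)
    (hK3 : J ^ 3 ≤ cmt A ⊔ socl A J) (hxx : x * x ∈ J ^ 3) (hyy : y * y ∈ J ^ 3)
    (h4 : J ^ 4 ≠ ⊥) :
    cmt A ≤ span k {x * y - y * x, x * (x * y) - (x * y) * x, y * (x * y) - (x * y) * y} := by
  have hxy : x * y ∈ J ^ 2 := pm2 hx hy
  have hyx : y * x ∈ J ^ 2 := pm2 hy hx
  obtain ⟨u, hu⟩ : ∃ u, u = x * (y * x) := ⟨_, rfl⟩
  obtain ⟨v, hv⟩ : ∃ v, v = y * (x * y) := ⟨_, rfl⟩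
  have huJ : u ∈ J ^ 3 := by rw [hu]; exact pml hx hyx
  have hvJ : v ∈ J ^ 3 := by rw [hv]; exact pml hy hxy
  have hxu : x * u ∈ J ^ 5 := by rw [hu, ← mul_assoc]; exact pm hxx hyx
  have hyv : y * v ∈ J ^ 5 := by rw [hv, ← mul_assoc]; exact pm hyy hxy
  have hux : u * x ∈ J ^ 5 := by
    rw [hu, mul_assoc, mul_assoc]; exact pml hx (pml hy hxx)
  have hvy : v * y ∈ J ^ 5 := by
    rw [hv, mul_assoc, mul_assoc]; exact pml hy (pml hx hyy)
  have huy : u * y = x * v := by rw [hu, hv]; simp only [mul_assoc]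
  have hvx : v * x = y * u := by rw [hu, hv]; simp only [mul_assoc]
  -- J² modulo J³
  have k2 : ∀ z ∈ J ^ 2, ∃ b d : k, ∃ t ∈ J ^ 3, z = b • (x * y) + d • (y * x) + t := by
    intro z hz
    obtain ⟨a, b, d, e, t, ht, rfl⟩ := h.J2_span hx hy hJ hz
    exact ⟨b, d, a • (x * x) + e • (y * y) + t, Submodule.add_mem _ (Submodule.add_mem _
      (Submodule.smul_mem _ _ hxx) (Submodule.smul_mem _ _ hyy)) ht, by abel⟩
  have k3 : ∀ z ∈ J ^ 3, ∃ a b : k, z - (a • u + b • v) ∈ J ^ 4 := by
    intro z hz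
    rw [show (J ^ 3 : Submodule k R) = J * J ^ 2 from pow_succ' _ _] at hz
    induction hz using Submodule.mul_induction_on' with
    | mem_mul_mem g hg s hs =>
      obtain ⟨e1, e2, g', hg', rfl⟩ := exists_pair_expand hJ hg
      obtain ⟨b, d, t, ht, rfl⟩ := k2 s hs
      refine ⟨e1 * d, e2 * b, ?_⟩
      have e : (e1 • x + e2 • y + g') * (b • (x * y) + d • (y * x) + t) -
          ((e1 * d) • u + (e2 * b) • v) = (e1 * b) • ((x * x) * y) + (e2 * d) • ((y * y) * x) +
          g' * (b • (x * y) + d • (y * x)) + (e1 • x + e2 • y + g') * t := by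
        rw [hu, hv]
        simp only [mul_add, add_mul, mul_smul_comm, smul_mul_assoc, mul_assoc]
        module
      rw [e]
      refine Submodule.add_mem _ (Submodule.add_mem _ (Submodule.add_mem _
        (Submodule.smul_mem _ _ (pmr hxx hy)) (Submodule.smul_mem _ _ (pmr hyy hx)))
        (pm (i := 2) (j := 2) hg' (Submodule.add_mem _ (Submodule.smul_mem _ _ hxy)
          (Submodule.smul_mem _ _ hyx)))) (pml hg ht)
    | add z1 _ z2 _ h1 h2 =>
      obtain ⟨a, b, h1⟩ := h1
      obtain ⟨a', b', h2⟩ := h2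
      refine ⟨a + a', b + b', ?_⟩
      have e : z1 + z2 - ((a + a') • u + (b + b') • v) = (z1 - (a • u + b • v)) +
          (z2 - (a' • u + b' • v)) := by module
      rw [e]; exact Submodule.add_mem _ h1 h2
  have k4 : ∀ z ∈ J ^ 4, ∃ a b : k, z - (a • (x * v) + b • (y * u)) ∈ J ^ 5 := by
    intro z hz
    rw [show (J ^ 4 : Submodule k R) = J * J ^ 3 from pow_succ' _ _] at hz
    induction hz using Submodule.mul_induction_on' with
    | mem_mul_mem g hg s hs =>
      obtain ⟨e1, e2, g', hg', rfl⟩ := exists_pair_expand hJ hg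
      obtain ⟨b, d, ht⟩ := k3 s hs
      refine ⟨e1 * d, e2 * b, ?_⟩
      have e : (e1 • x + e2 • y + g') * s - ((e1 * d) • (x * v) + (e2 * b) • (y * u)) =
          (e1 • x + e2 • y + g') * (s - (b • u + d • v)) + (e1 * b) • (x * u) +
          (e2 * d) • (y * v) + g' * (b • u + d • v) := by
        simp only [mul_add, mul_sub, add_mul, mul_smul_comm, smul_mul_assoc, mul_assoc]
        module
      rw [e]
      exact Submodule.add_mem _ (Submodule.add_mem _ (Submodule.add_mem _ (pml hg ht)
        (Submodule.smul_mem _ _ hxu)) (Submodule.smul_mem _ _ hyv))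
        (pm (i := 2) (j := 3) hg' (Submodule.add_mem _ (Submodule.smul_mem _ _ huJ)
          (Submodule.smul_mem _ _ hvJ)))
    | add z1 _ z2 _ h1 h2 =>
      obtain ⟨a, b, h1⟩ := h1
      obtain ⟨a', b', h2⟩ := h2
      refine ⟨a + a', b + b', ?_⟩
      have e : z1 + z2 - ((a + a') • (x * v) + (b + b') • (y * u)) =
          (z1 - (a • (x * v) + b • (y * u))) + (z2 - (a' • (x * v) + b' • (y * u))) := by module
      rw [e]; exact Submodule.add_mem _ h1 h2
  -- independence
  have hnot : ¬ (x * v ∈ J ^ 5 ∧ y * u ∈ J ^ 5) := by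
    rintro ⟨h1, h2⟩
    apply h4
    refine pow_bot_of_le (m := 3) h ?_
    intro z hz
    obtain ⟨a, b, hab⟩ := k4 z hz
    have := Submodule.add_mem _ hab (Submodule.add_mem _ (Submodule.smul_mem _ a h1)
      (Submodule.smul_mem _ b h2))
    rwa [sub_add_cancel] at this
  have ind : ∀ a b : k, a • u + b • v ∈ J ^ 4 → a = 0 ∧ b = 0 := by
    intro a b hab
    have e1 : b • (x * v) ∈ J ^ 5 := by
      have e : b • (x * v) = x * (a • u + b • v) - a • (x * u) := by
        simp only [mul_add, mul_smul_comm]; abel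
      rw [e]; exact Submodule.sub_mem _ (pml hx hab) (Submodule.smul_mem _ _ hxu)
    have e2 : a • (x * v) ∈ J ^ 5 := by
      have e : a • (x * v) = (a • u + b • v) * y - b • (v * y) := by
        simp only [add_mul, smul_mul_assoc, huy]; abel
      rw [e]; exact Submodule.sub_mem _ (pmr hab hy) (Submodule.smul_mem _ _ hvy)
    have e3 : a • (y * u) ∈ J ^ 5 := by
      have e : a • (y * u) = y * (a • u + b • v) - b • (y * v) := by
        simp only [mul_add, mul_smul_comm]; abel
      rw [e]; exact Submodule.sub_mem _ (pml hy hab) (Submodule.smul_mem _ _ hyv)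
    have e4 : b • (y * u) ∈ J ^ 5 := by
      have e : b • (y * u) = (a • u + b • v) * x - a • (u * x) := by
        simp only [add_mul, smul_mul_assoc, hvx]; abel
      rw [e]; exact Submodule.sub_mem _ (pmr hab hx) (Submodule.smul_mem _ _ hux)
    have cancel : ∀ {t : k} {z : R}, t ≠ 0 → t • z ∈ J ^ 5 → z ∈ J ^ 5 := by
      intro t z ht hz
      have := Submodule.smul_mem _ t⁻¹ hz
      rwa [smul_smul, inv_mul_cancel₀ ht, one_smul] at this
    constructor
    · by_contra ha; exact hnot ⟨cancel ha e2, cancel ha e3⟩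
    · by_contra hb; exact hnot ⟨cancel hb e1, cancel hb e4⟩
  -- J⁵ = 0
  have h5 : J ^ 5 = ⊥ := by
    by_contra h5
    have hS : socl A J ≤ J ^ 5 := (h.soc_le (h.pow_le_A (by norm_num)) h5 (h.J_mul_pow 4)).1
    have h43 : J ^ 4 ≤ J ^ 3 := h.pow_anti (by norm_num) (by norm_num)
    have h54 : J ^ 5 ≤ J ^ 4 := h.pow_anti (by norm_num) (by norm_num)
    -- commutators with J³
    have cx : ∀ s ∈ J ^ 3, ∃ t : k, (x * s - s * x) - t • (x * v - y * u) ∈ J ^ 5 := by
      intro s hs
      obtain ⟨a, b, hab⟩ := k3 s hs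
      refine ⟨b, ?_⟩
      have e : (x * s - s * x) - b • (x * v - y * u) = (x * (s - (a • u + b • v)) -
          (s - (a • u + b • v)) * x) + (a • (x * u) - a • (u * x)) := by
        simp only [mul_sub, sub_mul, mul_add, add_mul, mul_smul_comm, smul_mul_assoc, ← hvx]
        module
      rw [e]
      exact Submodule.add_mem _ (Submodule.sub_mem _ (pml hx hab) (pmr hab hx))
        (Submodule.sub_mem _ (Submodule.smul_mem _ _ hxu) (Submodule.smul_mem _ _ hux))
    have cy : ∀ s ∈ J ^ 3, ∃ t : k, (y * s - s * y) - t • (x * v - y * u) ∈ J ^ 5 := by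
      intro s hs
      obtain ⟨a, b, hab⟩ := k3 s hs
      refine ⟨-a, ?_⟩
      have e : (y * s - s * y) - (-a) • (x * v - y * u) = (y * (s - (a • u + b • v)) -
          (s - (a • u + b • v)) * y) + (b • (y * v) - b • (v * y)) := by
        simp only [mul_sub, sub_mul, mul_add, add_mul, mul_smul_comm, smul_mul_assoc, ← huy]
        module
      rw [e]
      exact Submodule.add_mem _ (Submodule.sub_mem _ (pml hy hab) (pmr hab hy))
        (Submodule.sub_mem _ (Submodule.smul_mem _ _ hyv) (Submodule.smul_mem _ _ hvy))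
    have key : ∀ z ∈ J ^ 4, ∃ t : k, z - t • (x * v - y * u) ∈ J ^ 5 := by
      intro z hz
      obtain ⟨s, hs, t, ht, hst⟩ := h.J3_comm hx hy hJ hw hK3 (n := 5) (by norm_num) hS (h43 hz)
      obtain ⟨b, d, s', hs', rfl⟩ := k2 s hs
      obtain ⟨b', d', t', ht', rfl⟩ := k2 t ht
      obtain ⟨t1, h1⟩ := cy (x * x) hxx
      obtain ⟨t2, h2⟩ := cx (y * y) hyy
      obtain ⟨t3, h3⟩ := cx s' hs'
      obtain ⟨t4, h4'⟩ := cy t' ht'
      -- the coefficients agree
      have hco : (d - b) • u + (b' - d') • v ∈ J ^ 4 := by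
        have e : (d - b) • u + (b' - d') • v = z - (z - ((x * (b • (x * y) + d • (y * x) + s') -
            (b • (x * y) + d • (y * x) + s') * x) + (y * (b' • (x * y) + d' • (y * x) + t') -
            (b' • (x * y) + d' • (y * x) + t') * y))) - (b • ((x * x) * y) - d • (y * (x * x)) +
            d' • ((y * y) * x) - b' • (x * (y * y)) + (x * s' - s' * x) + (y * t' - t' * y)) := by
          rw [hu, hv]
          simp only [mul_add, add_mul, mul_smul_comm, smul_mul_assoc, mul_assoc]
          module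
        rw [e]
        refine Submodule.sub_mem _ (Submodule.sub_mem _ hz (h54 hst)) ?_
        refine Submodule.add_mem _ (Submodule.add_mem _ (Submodule.sub_mem _ (Submodule.add_mem _
          (Submodule.sub_mem _ ?_ ?_) ?_) ?_) ?_) ?_
        · exact Submodule.smul_mem _ _ (pmr hxx hy)
        · exact Submodule.smul_mem _ _ (pml hy hxx)
        · exact Submodule.smul_mem _ _ (pmr hyy hx)
        · exact Submodule.smul_mem _ _ (pml hx hyy)
        · exact Submodule.sub_mem _ (pml hx hs') (pmr hs' hx)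
        · exact Submodule.sub_mem _ (pml hy ht') (pmr ht' hy)
      obtain ⟨e1, e2⟩ := ind _ _ hco
      rw [sub_eq_zero] at e1 e2
      subst e1 e2
      refine ⟨-d * t1 + -b' * t2 + t3 + t4, ?_⟩
      have e : z - (-d * t1 + -b' * t2 + t3 + t4) • (x * v - y * u) =
          (z - ((x * (d • (x * y) + d • (y * x) + s') -
            (d • (x * y) + d • (y * x) + s') * x) + (y * (b' • (x * y) + b' • (y * x) + t') -
            (b' • (x * y) + b' • (y * x) + t') * y))) +
          ((-d) • ((y * (x * x) - (x * x) * y) - t1 • (x * v - y * u)) +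
           (-b') • ((x * (y * y) - (y * y) * x) - t2 • (x * v - y * u)) +
           ((x * s' - s' * x) - t3 • (x * v - y * u)) +
           ((y * t' - t' * y) - t4 • (x * v - y * u))) := by
        simp only [mul_add, add_mul, mul_smul_comm, smul_mul_assoc, mul_assoc]
        module
      rw [e]
      exact Submodule.add_mem _ hst (Submodule.add_mem _ (Submodule.add_mem _ (Submodule.add_mem _
        (Submodule.smul_mem _ _ h1) (Submodule.smul_mem _ _ h2)) h3) h4')
    obtain ⟨t, ht⟩ := key (x * v) (pml hx hvJ)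
    have e0 : (1 - t) • (x * v) + t • (y * u) ∈ J ^ 5 := by
      have e : (1 - t) • (x * v) + t • (y * u) = x * v - t • (x * v - y * u) := by module
      rw [e]; exact ht
    obtain ⟨E, hE⟩ : ∃ E, E = (1 - t) • (x * v) + t • (y * u) := ⟨_, rfl⟩
    rw [← hE] at e0
    have hxyu : x * (y * u) ∈ J ^ 6 := by
      have e : x * (y * u) = x * E - (1 - t) • ((x * x) * v) + (E * x - t • (y * (u * x))) := by
        rw [hE]
        simp only [mul_add, add_mul, mul_smul_comm, smul_mul_assoc, mul_assoc, hvx]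
        module
      rw [e]
      exact Submodule.add_mem _ (Submodule.sub_mem _ (pml hx e0) (Submodule.smul_mem _ _
        (pm hxx hvJ))) (Submodule.sub_mem _ (pmr e0 hx) (Submodule.smul_mem _ _ (pml hy hux)))
    have hyxv : y * (x * v) ∈ J ^ 6 := by
      have e : y * (x * v) = y * E - t • ((y * y) * u) + (E * y - (1 - t) • (x * (v * y))) := by
        rw [hE]
        simp only [mul_add, add_mul, mul_smul_comm, smul_mul_assoc, mul_assoc, huy]
        module
      rw [e]
      exact Submodule.add_mem _ (Submodule.sub_mem _ (pml hy e0) (Submodule.smul_mem _ _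
        (pm hyy huJ))) (Submodule.sub_mem _ (pmr e0 hy) (Submodule.smul_mem _ _ (pml hx hvy)))
    have h56 : J ^ 5 ≤ J ^ 6 := by
      intro z hz
      rw [show (J ^ 5 : Submodule k R) = J * J ^ 4 from pow_succ' _ _] at hz
      induction hz using Submodule.mul_induction_on' with
      | mem_mul_mem g hg s hs =>
        obtain ⟨e1, e2, g', hg', rfl⟩ := exists_pair_expand hJ hg
        obtain ⟨b, d, ht⟩ := k4 s hs
        have e : (e1 • x + e2 • y + g') * s =
            (e1 • x + e2 • y + g') * (s - (b • (x * v) + d • (y * u))) + (e1 * b) • ((x * x) * v) +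
            (e1 * d) • (x * (y * u)) + (e2 * b) • (y * (x * v)) + (e2 * d) • ((y * y) * u) +
            g' * (b • (x * v) + d • (y * u)) := by
          simp only [mul_add, mul_sub, add_mul, mul_smul_comm, smul_mul_assoc, mul_assoc]
          module
        rw [e]
        exact Submodule.add_mem _ (Submodule.add_mem _ (Submodule.add_mem _ (Submodule.add_mem _
          (Submodule.add_mem _ (pml hg ht) (Submodule.smul_mem _ _ (pm hxx hvJ)))
          (Submodule.smul_mem _ _ hxyu)) (Submodule.smul_mem _ _ hyxv))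
          (Submodule.smul_mem _ _ (pm hyy huJ)))
          (pm (i := 2) (j := 4) hg' (Submodule.add_mem _ (Submodule.smul_mem _ _ (pml hx hvJ))
            (Submodule.smul_mem _ _ (pml hy huJ))))
      | add z1 _ z2 _ h1 h2 => exact Submodule.add_mem _ h1 h2
    exact h5 (pow_bot_of_le (m := 4) h h56)
  -- conclusion
  have h4S : J ^ 4 ≤ socl A J := h.soc_of_pow (by norm_num) h5
  have hJ3A : ∀ {s}, s ∈ J ^ 3 → s ∈ A := fun hs => h.pow_le_A (by norm_num) hs
  have z1 : ∀ {g s}, g ∈ J → s ∈ J ^ 3 → g * s - s * g = 0 := by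
    intro g s hg hs
    exact h.comm_soc (h.le hg) (hJ3A hs) (h4S (Submodule.sub_mem _ (pml hg hs) (pmr hs hg)))
  refine (h.cmt_two' hx hy hJ).trans (sup_le ?_ (sup_le ?_ ?_))
  · exact span_mono (by simp)
  · intro z hz
    obtain ⟨s, hs, rfl⟩ := mem_adi.mp hz
    obtain ⟨b, d, t, ht, rfl⟩ := k2 s hs
    have e : x * (b • (x * y) + d • (y * x) + t) - (b • (x * y) + d • (y * x) + t) * x =
        (b - d) • (x * (x * y) - (x * y) * x) - d • (y * (x * x) - (x * x) * y) +
        (x * t - t * x) := by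
      simp only [mul_add, add_mul, mul_smul_comm, smul_mul_assoc, mul_assoc]
      module
    rw [e, z1 hy hxx, z1 hx ht, smul_zero, sub_zero, add_zero]
    exact Submodule.smul_mem _ _ (subset_span (by simp))
  · intro z hz
    obtain ⟨s, hs, rfl⟩ := mem_adi.mp hz
    obtain ⟨b, d, t, ht, rfl⟩ := k2 s hs
    have e : y * (b • (x * y) + d • (y * x) + t) - (b • (x * y) + d • (y * x) + t) * y =
        (b - d) • (y * (x * y) - (x * y) * y) - d • (x * (y * y) - (y * y) * x) +
        (y * t - t * y) := by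
      simp only [mul_add, add_mul, mul_smul_comm, smul_mul_assoc, mul_assoc]
      module
    rw [e, z1 hx hyy, z1 hy ht, smul_zero, sub_zero, add_zero]
    exact Submodule.smul_mem _ _ (subset_span (by simp))

end Cfsg.Agent.H4
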