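import Cfsg.Agent.H4.LocC

/-!
# Symmetric local algebras with five-dimensional centre: two generators, end (owner: helper4)
-/

set_option autoImplicit false
set_option linter.unusedSectionVars false

namespace Cfsg.Agent.H4

open Submodule

section lin

variable {k : Type*} [Field k]

theorem ker2 {a b d e : k} (hdet : a * e - b * d = 0) :
    ∃ u v : k, ¬ (u = 0 ∧ v = 0) ∧ a * u + b * v = 0 ∧ d * u + e * v = 0 := by
  by_cases h1 : a = 0 ∧ b = 0
  · by_cases h2 : d = 0 ∧ e = 0
    · exact ⟨1, 0, fun h => one_ne_zero h.1, by rw [h1.1, h1.2]; ring, by rw [h2.1, h2.2]; ring⟩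
    · refine ⟨e, -d, fun h => h2 ⟨neg_eq_zero.mp h.2, h.1⟩, ?_, by ring⟩
      rw [h1.1, h1.2]; ring
  · refine ⟨b, -a, fun h => h1 ⟨neg_eq_zero.mp h.2, h.1⟩, by ring, ?_⟩
    linear_combination -hdet

theorem ker23 (a1 a2 a3 b1 b2 b3 : k) :
    ∃ u v w : k, ¬ (u = 0 ∧ v = 0 ∧ w = 0) ∧ a1 * u + a2 * v + a3 * w = 0 ∧
      b1 * u + b2 * v + b3 * w = 0 := by
  by_cases h : a2 * b3 - a3 * b2 = 0 ∧ a3 * b1 - a1 * b3 = 0 ∧ a1 * b2 - a2 * b1 = 0
  · obtain ⟨h1, h2, h3⟩ := h
    by_cases hb : b1 = 0 ∧ b2 = 0 ∧ b3 = 0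
    · obtain ⟨rfl, rfl, rfl⟩ := hb
      by_cases ha : a1 = 0
      · exact ⟨1, 0, 0, fun h => one_ne_zero h.1, by rw [ha]; ring, by ring⟩
      · exact ⟨a2, -a1, 0, fun h => ha (neg_eq_zero.mp h.2.1), by ring, by ring⟩
    · by_cases hb1 : b1 = 0
      · by_cases hb2 : b2 = 0
        · have hb3 : b3 ≠ 0 := fun h => hb ⟨hb1, hb2, h⟩
          refine ⟨1, 0, 0, fun h => one_ne_zero h.1, ?_, by rw [hb1]; ring⟩
          have : a1 * b3 = 0 := by rw [hb1] at h2; linear_combination -h2
          rw [(mul_eq_zero.mp this).resolve_right hb3]; ring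
        · refine ⟨1, 0, 0, fun h => one_ne_zero h.1, ?_, by rw [hb1]; ring⟩
          have : a1 * b2 = 0 := by rw [hb1] at h3; linear_combination h3
          rw [(mul_eq_zero.mp this).resolve_right hb2]; ring
      · refine ⟨b2, -b1, 0, fun h => hb1 (neg_eq_zero.mp h.2.1), ?_, by ring⟩
        linear_combination h3
  · refine ⟨a2 * b3 - a3 * b2, a3 * b1 - a1 * b3, a1 * b2 - a2 * b1, h, by ring, by ring⟩

theorem quad_root [IsAlgClosed k] (a b d : k) (hd : d ≠ 0) : ∃ t : k, a + b * t + d * t ^ 2 = 0 := by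
  obtain ⟨t, ht⟩ := IsAlgClosed.exists_root
    (Polynomial.C d * Polynomial.X ^ 2 + Polynomial.C b * Polynomial.X + Polynomial.C a)
    (by rw [Polynomial.degree_quadratic hd]; norm_num)
  refine ⟨t, ?_⟩
  rw [Polynomial.IsRoot.def] at ht
  simp only [Polynomial.eval_add, Polynomial.eval_mul, Polynomial.eval_C, Polynomial.eval_pow,
    Polynomial.eval_X] at ht
  linear_combination ht

end lin

variable {k : Type*} [Field k] {R : Type*} [Ring R] [Algebra k R]
variable {c : R} {A J : Submodule k R} {f : R →ₗ[k] k}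

/-- change of generators -/
theorem gens_change {x y a b : R} (hJ : J ≤ span k {x, y} ⊔ J ^ 2)
    (hx : x ∈ span k {a, b}) (hy : y ∈ span k {a, b}) : J ≤ span k {a, b} ⊔ J ^ 2 := by
  refine hJ.trans (sup_le_sup (span_le.mpr ?_) le_rfl)
  rintro z (rfl | hz)
  · exact hx
  · rw [Set.mem_singleton_iff] at hz; rw [hz]; exact hy

theorem cancel_mem {I : Submodule k R} {t : k} {z : R} (ht : t ≠ 0) (hz : t • z ∈ I) : z ∈ I := by
  have := Submodule.smul_mem _ t⁻¹ hz
  rwa [smul_smul, inv_mul_cancel₀ ht, one_smul] at this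

/-- `y` annihilates modulo `J³` -/
theorem SL.case0 (h : SL c A J f) {x y : R} (hx : x ∈ J) (hy : y ∈ J)
    (hJ : J ≤ span k {x, y} ⊔ J ^ 2) (hxy : x * y ∈ J ^ 3) (hyx : y * x ∈ J ^ 3)
    (hyy : y * y ∈ J ^ 3) : cmt A ≤ span k {x * y - y * x} := by
  have k2 : ∀ z ∈ J ^ 2, ∃ a : k, z - a • (x * x) ∈ J ^ 3 := by
    intro z hz
    obtain ⟨a, b, d, e, t, ht, rfl⟩ := h.J2_span hx hy hJ hz
    refine ⟨a, ?_⟩
    have e1 : a • (x * x) + b • (x * y) + d • (y * x) + e • (y * y) + t - a • (x * x) =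
        b • (x * y) + d • (y * x) + e • (y * y) + t := by abel
    rw [e1]
    exact Submodule.add_mem _ (Submodule.add_mem _ (Submodule.add_mem _
      (Submodule.smul_mem _ _ hxy) (Submodule.smul_mem _ _ hyx)) (Submodule.smul_mem _ _ hyy)) ht
  have kn : ∀ n : ℕ, ∀ z ∈ J ^ (n + 2), ∃ a : k, z - a • x ^ (n + 2) ∈ J ^ (n + 3) := by
    intro n
    induction n with
    | zero =>
      intro z hz
      obtain ⟨a, ha⟩ := k2 z hz
      exact ⟨a, by rw [zero_add, zero_add, pow_two]; exact ha⟩
    | succ n ih =>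
      intro z hz
      rw [show (J ^ (n + 1 + 2) : Submodule k R) = J * J ^ (n + 2) from pow_succ' _ _] at hz
      induction hz using Submodule.mul_induction_on' with
      | mem_mul_mem g hg s hs =>
        obtain ⟨e1, e2, g', hg', rfl⟩ := exists_pair_expand hJ hg
        obtain ⟨a, ha⟩ := ih s hs
        refine ⟨e1 * a, ?_⟩
        have hxn : x ^ (n + 1) ∈ J ^ (n + 1) := Submodule.pow_mem_pow _ hx _
        have hxn2 : x ^ (n + 2) ∈ J ^ (n + 2) := Submodule.pow_mem_pow _ hx _
        have e : (e1 • x + e2 • y + g') * s - (e1 * a) • x ^ (n + 1 + 2) =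
            (e1 • x + e2 • y + g') * (s - a • x ^ (n + 2)) + (e2 * a) • ((y * x) * x ^ (n + 1)) +
              g' * (a • x ^ (n + 2)) := by
          have ex : x ^ (n + 1 + 2) = x * x ^ (n + 2) := pow_succ' _ _
          have ey : (y * x) * x ^ (n + 1) = y * x ^ (n + 2) := by
            rw [mul_assoc, ← pow_succ']
          rw [ex, ey]
          simp only [mul_sub, add_mul, mul_smul_comm, smul_mul_assoc]
          module
        rw [e]
        refine Submodule.add_mem _ (Submodule.add_mem _ (pml hg ha) (Submodule.smul_mem _ _ ?_)) ?_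
        · have := pm hyx hxn
          rwa [show 3 + (n + 1) = n + 1 + 3 by ring] at this
        · have := pm hg' (Submodule.smul_mem _ a hxn2)
          rwa [show 2 + (n + 2) = n + 1 + 3 by ring] at this
      | add z1 _ z2 _ h1 h2 =>
        obtain ⟨a, h1⟩ := h1
        obtain ⟨a', h2⟩ := h2
        refine ⟨a + a', ?_⟩
        have e : z1 + z2 - (a + a') • x ^ (n + 1 + 2) = (z1 - a • x ^ (n + 1 + 2)) +
          (z2 - a' • x ^ (n + 1 + 2)) := by module
        rw [e]; exact Submodule.add_mem _ h1 h2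
  -- descending induction
  have desc : ∀ U : Submodule k R, (∀ n : ℕ, x ^ (n + 2) ∈ U) → J ^ 2 ≤ U := by
    intro U hU
    obtain ⟨N, hN⟩ := h.nil
    have hQ : ∀ m : ℕ, m ≤ N + 1 → J ^ (N + 1 - m + 2) ≤ U := by
      intro m
      induction m with
      | zero =>
        intro _
        refine (h.pow_anti (m := N + 1) (by omega) (by omega)).trans ?_
        rw [hN]; exact bot_le
      | succ m ih =>
        intro hm z hz
        obtain ⟨a, ha⟩ := kn _ z hz
        have h1 := ih (by omega)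
        rw [show N + 1 - m + 2 = N + 1 - (m + 1) + 3 by omega] at h1
        have := U.add_mem (h1 ha) (U.smul_mem a (hU (N + 1 - (m + 1))))
        rwa [sub_add_cancel] at this
    have := hQ (N + 1) le_rfl
    rwa [Nat.sub_self, zero_add] at this
  have hU1 : ∀ z ∈ J ^ 2, x * z = z * x := by
    have := desc (LinearMap.ker (LinearMap.mulLeft k x - LinearMap.mulRight k x)) (by
      intro n
      rw [LinearMap.mem_ker, LinearMap.sub_apply, LinearMap.mulLeft_apply,
        LinearMap.mulRight_apply, ← pow_succ, ← pow_succ', sub_self])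
    intro z hz
    have h1 := this hz
    rw [LinearMap.mem_ker, LinearMap.sub_apply, LinearMap.mulLeft_apply,
        LinearMap.mulRight_apply, sub_eq_zero] at h1
    exact h1
  have hJ32 : J ^ 3 ≤ J ^ 2 := h.pow_anti (by norm_num) (by norm_num)
  have e1 : x * (x * y) = x * (y * x) := by
    rw [hU1 _ (hJ32 hxy), mul_assoc]
  have hxn : ∀ n : ℕ, y * x ^ (n + 2) = x ^ (n + 2) * y := by
    intro n
    induction n with
    | zero =>
      rw [zero_add, pow_two, ← mul_assoc, ← hU1 _ (hJ32 hyx), ← e1, mul_assoc]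
    | succ n ih =>
      calc y * x ^ (n + 1 + 2) = (y * x ^ (n + 2)) * x := by rw [mul_assoc, ← pow_succ]
        _ = x ^ (n + 1) * (x * (y * x)) := by rw [ih]; simp only [pow_succ, mul_assoc]
        _ = x ^ (n + 1) * (x * (x * y)) := by rw [e1]
        _ = x ^ (n + 1 + 2) * y := by simp only [pow_succ, mul_assoc]
  have hU2 : ∀ z ∈ J ^ 2, y * z = z * y := by
    have := desc (LinearMap.ker (LinearMap.mulLeft k y - LinearMap.mulRight k y)) (by
      intro n
      rw [LinearMap.mem_ker, LinearMap.sub_apply, LinearMap.mulLeft_apply,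
        LinearMap.mulRight_apply, hxn, sub_self])
    intro z hz
    have h1 := this hz
    rw [LinearMap.mem_ker, LinearMap.sub_apply, LinearMap.mulLeft_apply,
        LinearMap.mulRight_apply, sub_eq_zero] at h1
    exact h1
  refine (h.cmt_two' hx hy hJ).trans (sup_le le_rfl (sup_le ?_ ?_))
  · intro z hz
    obtain ⟨s, hs, rfl⟩ := mem_adi.mp hz
    rw [hU1 s hs, sub_self]; exact Submodule.zero_mem _
  · intro z hz
    obtain ⟨s, hs, rfl⟩ := mem_adi.mp hz
    rw [hU2 s hs, sub_self]; exact Submodule.zero_mem _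

/-- subcase `[x, y] ∈ J³` -/
theorem SL.case0' (h : SL c A J f) {x y : R} (hx : x ∈ J) (hy : y ∈ J)
    (hJ : J ≤ span k {x, y} ⊔ J ^ 2) (hw : x * y - y * x ∈ J ^ 3) (h3 : J ^ 3 ≠ ⊥) {s : R}
    (hs : s ∈ J ^ 2) (hJ2 : J ^ 2 ≤ span k {s} ⊔ J ^ 3) :
    ∃ x' y' : R, cmt A ≤ span k {x' * y' - y' * x'} := by
  have hsJ : s ∉ J ^ 3 := by
    intro hs3
    have h1 : J ^ 2 ≤ J ^ 3 := hJ2.trans (sup_le (by rwa [span_singleton_le_iff_mem]) le_rfl)
    have h2 : J ^ 2 = ⊥ := pow_bot_of_le (m := 1) h h1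
    apply h3
    rw [pow_succ, h2, Submodule.bot_mul]
  have coef : ∀ u ∈ J, ∀ v ∈ J, ∃ a : k, u * v - a • s ∈ J ^ 3 := by
    intro u hu v hv
    obtain ⟨p, hp, q, hq, e⟩ := Submodule.mem_sup.mp (hJ2 (pm2 hu hv))
    obtain ⟨a, rfl⟩ := mem_span_singleton.mp hp
    exact ⟨a, by rw [← e, add_sub_cancel_left]; exact hq⟩
  obtain ⟨α, hα⟩ := coef x hx x hx
  obtain ⟨β, hβ⟩ := coef x hx y hy
  obtain ⟨γ, hγ⟩ := coef y hy x hx
  obtain ⟨δ, hδ⟩ := coef y hy y hy
  have hβγ : β = γ := by
    by_contra hne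
    apply hsJ
    refine cancel_mem (sub_ne_zero.mpr hne) ?_
    have e : (β - γ) • s = (x * y - y * x) - (x * y - β • s) + (y * x - γ • s) := by module
    rw [e]
    exact Submodule.add_mem _ (Submodule.sub_mem _ hw hβ) hγ
  subst hβγ
  have hdet : α * δ - β * β = 0 := by
    by_contra hd
    apply h3
    refine pow_bot_of_le (m := 2) h ?_
    have e1 : (α * δ - β * β) • (x * s) ∈ J ^ 4 := by
      have e : (α * δ - β * β) • (x * s) =
          α • ((x * y - β • s) * y) - α • (x * (y * y - δ • s)) + β • (x * (x * y - β • s)) -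
            β • ((x * x - α • s) * y) := by
        simp only [mul_sub, sub_mul, mul_smul_comm, smul_mul_assoc, mul_assoc]
        module
      rw [e]
      exact Submodule.sub_mem _ (Submodule.add_mem _ (Submodule.sub_mem _
        (Submodule.smul_mem _ _ (pmr hβ hy)) (Submodule.smul_mem _ _ (pml hx hδ)))
        (Submodule.smul_mem _ _ (pml hx hβ))) (Submodule.smul_mem _ _ (pmr hα hy))
    have e2 : (α * δ - β * β) • (y * s) ∈ J ^ 4 := by
      have e : (α * δ - β * β) • (y * s) =
          δ • ((y * x - β • s) * x) - δ • (y * (x * x - α • s)) + β • (y * (y * x - β • s)) -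
            β • ((y * y - δ • s) * x) := by
        simp only [mul_sub, sub_mul, mul_smul_comm, smul_mul_assoc, mul_assoc]
        module
      rw [e]
      exact Submodule.sub_mem _ (Submodule.add_mem _ (Submodule.sub_mem _
        (Submodule.smul_mem _ _ (pmr hγ hx)) (Submodule.smul_mem _ _ (pml hy hα)))
        (Submodule.smul_mem _ _ (pml hy hγ))) (Submodule.smul_mem _ _ (pmr hδ hx))
    have hxs := cancel_mem hd e1
    have hys := cancel_mem hd e2
    intro z hz
    rw [show (J ^ 3 : Submodule k R) = J * J ^ 2 from pow_succ' _ _] at hz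
    induction hz using Submodule.mul_induction_on' with
    | mem_mul_mem g hg t ht =>
      obtain ⟨e1, e2, g', hg', rfl⟩ := exists_pair_expand hJ hg
      obtain ⟨p, hp, q, hq, e⟩ := Submodule.mem_sup.mp (hJ2 ht)
      obtain ⟨a, rfl⟩ := mem_span_singleton.mp hp
      rw [← e]
      have e' : (e1 • x + e2 • y + g') * (a • s + q) = (e1 * a) • (x * s) + (e2 * a) • (y * s) +
          g' * (a • s) + (e1 • x + e2 • y + g') * q := by
        simp only [mul_add, add_mul, mul_smul_comm, smul_mul_assoc]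
        module
      rw [e']
      exact Submodule.add_mem _ (Submodule.add_mem _ (Submodule.add_mem _
        (Submodule.smul_mem _ _ hxs) (Submodule.smul_mem _ _ hys))
        (pm (i := 2) (j := 2) hg' (Submodule.smul_mem _ _ hs))) (pml hg hq)
    | add z1 _ z2 _ h1 h2 => exact Submodule.add_mem _ h1 h2
  obtain ⟨u, v, huv, e1, e2⟩ := ker2 hdet
  -- the element `u x + v y`
  have hz : u • x + v • y ∈ J := J.add_mem (J.smul_mem _ hx) (J.smul_mem _ hy)
  have m1 : x * (u • x + v • y) ∈ J ^ 3 := by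
    have e : x * (u • x + v • y) = u • (x * x - α • s) + v • (x * y - β • s) +
        (α * u + β * v) • s := by
      simp only [mul_add, mul_smul_comm]; module
    rw [e, e1, zero_smul, add_zero]
    exact Submodule.add_mem _ (Submodule.smul_mem _ _ hα) (Submodule.smul_mem _ _ hβ)
  have m2 : y * (u • x + v • y) ∈ J ^ 3 := by
    have e : y * (u • x + v • y) = u • (y * x - β • s) + v • (y * y - δ • s) +
        (β * u + δ * v) • s := by
      simp only [mul_add, mul_smul_comm]; module
    rw [e, e2, zero_smul, add_zero]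
    exact Submodule.add_mem _ (Submodule.smul_mem _ _ hγ) (Submodule.smul_mem _ _ hδ)
  have m3 : (u • x + v • y) * x ∈ J ^ 3 := by
    have e : (u • x + v • y) * x = u • (x * x - α • s) + v • (y * x - β • s) +
        (α * u + β * v) • s := by
      simp only [add_mul, smul_mul_assoc]; module
    rw [e, e1, zero_smul, add_zero]
    exact Submodule.add_mem _ (Submodule.smul_mem _ _ hα) (Submodule.smul_mem _ _ hγ)
  have m4 : (u • x + v • y) * y ∈ J ^ 3 := by
    have e : (u • x + v • y) * y = u • (x * y - β • s) + v • (y * y - δ • s) +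
        (β * u + δ * v) • s := by
      simp only [add_mul, smul_mul_assoc]; module
    rw [e, e2, zero_smul, add_zero]
    exact Submodule.add_mem _ (Submodule.smul_mem _ _ hβ) (Submodule.smul_mem _ _ hδ)
  have m5 : (u • x + v • y) * (u • x + v • y) ∈ J ^ 3 := by
    rw [mul_add, mul_smul_comm, mul_smul_comm]
    exact Submodule.add_mem _ (Submodule.smul_mem _ _ m3) (Submodule.smul_mem _ _ m4)
  by_cases hv : v = 0
  · have hu : u ≠ 0 := fun hu => huv ⟨hu, hv⟩
    refine ⟨y, u • x + v • y, h.case0 hy hz (gens_change hJ ?_ ?_) m2 m4 m5⟩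
    · rw [mem_span_pair]
      exact ⟨0, u⁻¹, by rw [hv, zero_smul, add_zero, zero_add, smul_smul,
        inv_mul_cancel₀ hu, one_smul]⟩
    · exact subset_span (by simp)
  · refine ⟨x, u • x + v • y, h.case0 hx hz (gens_change hJ ?_ ?_) m1 m3 m5⟩
    · exact subset_span (by simp)
    · rw [mem_span_pair]
      refine ⟨-(v⁻¹ * u), v⁻¹, ?_⟩
      rw [smul_add, smul_smul, smul_smul, inv_mul_cancel₀ hv, one_smul, neg_smul]
      abel

end Cfsg.Agent.H4
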