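import Cfsg.Agent.H4.LocD

/-!
# Symmetric local algebras with five-dimensional centre: two generators, main (owner: helper4)
-/

set_option autoImplicit false
set_option linter.unusedSectionVars false

namespace Cfsg.Agent.H4

open Submodule

variable {k : Type*} [Field k] {R : Type*} [Ring R] [Algebra k R]
variable {c : R} {A J : Submodule k R} {f : R →ₗ[k] k}

/-- `J²/J³` has dimension at most two -/
def Dep3 (J : Submodule k R) : Prop :=
  ∀ z1 ∈ J ^ 2, ∀ z2 ∈ J ^ 2, ∀ z3 ∈ J ^ 2, ∃ a b d : k, ¬ (a = 0 ∧ b = 0 ∧ d = 0) ∧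
    a • z1 + b • z2 + d • z3 ∈ J ^ 3

theorem dep3_of {s w : R} (h : J ^ 2 ≤ span k {s, w} ⊔ J ^ 3) : Dep3 J := by
  intro z1 h1 z2 h2 z3 h3
  have key : ∀ z ∈ J ^ 2, ∃ a b : k, z - (a • s + b • w) ∈ J ^ 3 := by
    intro z hz
    obtain ⟨p, hp, q, hq, e⟩ := Submodule.mem_sup.mp (h hz)
    obtain ⟨a, b, rfl⟩ := mem_span_pair.mp hp
    exact ⟨a, b, by rw [← e, add_sub_cancel_left]; exact hq⟩
  obtain ⟨a1, b1, e1⟩ := key z1 h1
  obtain ⟨a2, b2, e2⟩ := key z2 h2
  obtain ⟨a3, b3, e3⟩ := key z3 h3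
  obtain ⟨u, v, t, hne, f1, f2⟩ := ker23 a1 a2 a3 b1 b2 b3
  refine ⟨u, v, t, hne, ?_⟩
  have e : u • z1 + v • z2 + t • z3 = u • (z1 - (a1 • s + b1 • w)) + v • (z2 - (a2 • s + b2 • w)) +
      t • (z3 - (a3 • s + b3 • w)) + ((a1 * u + a2 * v + a3 * t) • s +
      (b1 * u + b2 * v + b3 * t) • w) := by module
  rw [e, f1, f2, zero_smul, zero_smul, add_zero, add_zero]
  exact Submodule.add_mem _ (Submodule.add_mem _ (Submodule.smul_mem _ _ e1)
    (Submodule.smul_mem _ _ e2)) (Submodule.smul_mem _ _ e3)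

theorem SL.caseI' (h : SL c A J f) {x y : R} (hx : x ∈ J) (hy : y ∈ J)
    (hJ : J ≤ span k {x, y} ⊔ J ^ 2) (hw : x * y - y * x ∉ J ^ 3)
    (hK3 : J ^ 3 ≤ cmt A ⊔ socl A J) (hD : Dep3 J) (hxy : x * y ∈ J ^ 3) : J ^ 4 = ⊥ := by
  obtain ⟨a, b, d, hne, hr⟩ := hD _ (pm2 hx hx) _ (pm2 hy hx) _ (pm2 hy hy)
  exact h.caseI hx hy hJ hw hK3 hxy hne hr

/-- generators with `x² = 0` -/
theorem SL.caseII (h : SL c A J f) {x y : R} (hx : x ∈ J) (hy : y ∈ J)
    (hJ : J ≤ span k {x, y} ⊔ J ^ 2) (hw : x * y - y * x ∉ J ^ 3)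
    (hK3 : J ^ 3 ≤ cmt A ⊔ socl A J) (hD : Dep3 J) (hxx : x * x ∈ J ^ 3) :
    J ^ 4 = ⊥ ∨ ∃ p q r : R, cmt A ≤ span k {p, q, r} := by
  have hw' : y * x - x * y ∉ J ^ 3 := by
    intro h1; apply hw; rw [← neg_sub]; exact Submodule.neg_mem _ h1
  have hJ' : J ≤ span k {y, x} ⊔ J ^ 2 := by rw [Set.pair_comm]; exact hJ
  obtain ⟨α, β, γ, hne, hr⟩ := hD _ (pm2 hx hy) _ (pm2 hy hx) _ (pm2 hy hy)
  by_cases hγ : γ = 0
  · rw [hγ, zero_smul, add_zero] at hr
    by_cases hα : α = 0
    · have hβ : β ≠ 0 := fun hβ => hne ⟨hα, hβ, hγ⟩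
      rw [hα, zero_smul, zero_add] at hr
      exact Or.inl (h.caseI' hy hx hJ' hw' hK3 hD (cancel_mem hβ hr))
    · left
      refine h.caseB hx hy hJ hw hK3 hxx (q := -(α⁻¹ * β)) ?_
      have e : x * y - (-(α⁻¹ * β)) • (y * x) = α⁻¹ • (α • (x * y) + β • (y * x)) := by
        rw [smul_add, smul_smul, smul_smul, inv_mul_cancel₀ hα, one_smul, neg_smul, sub_neg_eq_add]
      rw [e]; exact Submodule.smul_mem _ _ hr
  · -- complete the square
    obtain ⟨t, ht⟩ : ∃ t, t = γ⁻¹ * α := ⟨_, rfl⟩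
    obtain ⟨κ, hκ⟩ : ∃ κ, κ = γ⁻¹ * (α - β) := ⟨_, rfl⟩
    have hz : y + t • x ∈ J := J.add_mem hy (J.smul_mem _ hx)
    have hzz : (y + t • x) * (y + t • x) - κ • (y * x) ∈ J ^ 3 := by
      have e : (y + t • x) * (y + t • x) - κ • (y * x) =
          γ⁻¹ • (α • (x * y) + β • (y * x) + γ • (y * y)) + (t * t) • (x * x) := by
        rw [smul_add, smul_add, smul_smul, smul_smul, smul_smul, inv_mul_cancel₀ hγ, one_smul, ht, hκ]
        simp only [mul_add, add_mul, mul_smul_comm, smul_mul_assoc]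
        module
      rw [e]; exact Submodule.add_mem _ (Submodule.smul_mem _ _ hr) (Submodule.smul_mem _ _ hxx)
    have hJz : J ≤ span k {x, y + t • x} ⊔ J ^ 2 := by
      refine gens_change hJ (subset_span (by simp)) ?_
      rw [mem_span_pair]
      exact ⟨-t, 1, by module⟩
    have hwz : x * (y + t • x) - (y + t • x) * x ∉ J ^ 3 := by
      have e : x * (y + t • x) - (y + t • x) * x = x * y - y * x := by
        simp only [mul_add, add_mul, mul_smul_comm, smul_mul_assoc]; abel
      rw [e]; exact hw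
    by_cases hκ0 : κ = 0
    · rw [hκ0, zero_smul, sub_zero] at hzz
      by_cases h4 : J ^ 4 = ⊥
      · exact Or.inl h4
      · right
        exact ⟨_, _, _, h.caseA hx hz hJz hwz hK3 hxx hzz h4⟩
    · left
      have hb : y + t • x - κ • x ∈ J := J.sub_mem hz (J.smul_mem _ hx)
      refine h.caseI' (x := y + t • x) (y := y + t • x - κ • x) hz hb ?_ ?_ hK3 hD ?_
      · refine gens_change hJz ?_ ?_
        · rw [mem_span_pair]
          refine ⟨κ⁻¹, -κ⁻¹, ?_⟩
          have : κ⁻¹ • (y + t • x) + -κ⁻¹ • (y + t • x - κ • x) = (κ⁻¹ * κ) • x := by module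
          rw [this, inv_mul_cancel₀ hκ0, one_smul]
        · exact subset_span (by simp)
      · intro h1
        apply hwz
        refine cancel_mem hκ0 ?_
        have e : κ • (x * (y + t • x) - (y + t • x) * x) =
            (y + t • x) * (y + t • x - κ • x) - (y + t • x - κ • x) * (y + t • x) := by
          simp only [mul_add, add_mul, mul_sub, sub_mul, mul_smul_comm, smul_mul_assoc]
          module
        rw [e]; exact h1
      · have e : (y + t • x) * (y + t • x - κ • x) =
            ((y + t • x) * (y + t • x) - κ • (y * x)) - (κ * t) • (x * x) := by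
          simp only [mul_add, add_mul, mul_sub, mul_smul_comm, smul_mul_assoc]
          module
        rw [e]; exact Submodule.sub_mem _ hzz (Submodule.smul_mem _ _ hxx)

/-- two generators, `[x, y] ∉ J³` -/
theorem SL.case1 [IsAlgClosed k] (h : SL c A J f) {x y : R} (hx : x ∈ J) (hy : y ∈ J)
    (hJ : J ≤ span k {x, y} ⊔ J ^ 2) (hw : x * y - y * x ∉ J ^ 3)
    (hK3 : J ^ 3 ≤ cmt A ⊔ socl A J) {s : R} (hs : J ^ 2 ≤ span k {s, x * y - y * x} ⊔ J ^ 3) :
    J ^ 4 = ⊥ ∨ ∃ p q r : R, cmt A ≤ span k {p, q, r} := by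
  have hD : Dep3 J := dep3_of hs
  obtain ⟨w, hwdef⟩ : ∃ w, w = x * y - y * x := ⟨_, rfl⟩
  rw [← hwdef] at hw hs
  have key : ∀ z ∈ J ^ 2, ∃ a b : k, z - (a • s + b • w) ∈ J ^ 3 := by
    intro z hz
    obtain ⟨p, hp, q, hq, e⟩ := Submodule.mem_sup.mp (hs hz)
    obtain ⟨a, b, rfl⟩ := mem_span_pair.mp hp
    exact ⟨a, b, by rw [← e, add_sub_cancel_left]; exact hq⟩
  obtain ⟨a1, b1, e1⟩ := key _ (pm2 hx hx)
  obtain ⟨a2, b2, e2⟩ := key _ (pm2 hx hy)
  obtain ⟨a3, b3, e3⟩ := key _ (pm2 hy hx)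
  obtain ⟨a4, b4, e4⟩ := key _ (pm2 hy hy)
  -- a zero product
  obtain ⟨p, q, u, v, hpq, huv, hprod⟩ : ∃ p q u v : k, ¬ (p = 0 ∧ q = 0) ∧ ¬ (u = 0 ∧ v = 0) ∧
      (p • x + q • y) * (u • x + v • y) ∈ J ^ 3 := by
    have main : ∀ p q : k, (p * a1 + q * a3) * (p * b2 + q * b4) -
        (p * a2 + q * a4) * (p * b1 + q * b3) = 0 → ∃ u v : k, ¬ (u = 0 ∧ v = 0) ∧
        (p • x + q • y) * (u • x + v • y) ∈ J ^ 3 := by
      intro p q hdet
      obtain ⟨u, v, huv, f1, f2⟩ := ker2 hdet
      refine ⟨u, v, huv, ?_⟩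
      have e : (p • x + q • y) * (u • x + v • y) =
          (p * u) • (x * x - (a1 • s + b1 • w)) + (p * v) • (x * y - (a2 • s + b2 • w)) +
          (q * u) • (y * x - (a3 • s + b3 • w)) + (q * v) • (y * y - (a4 • s + b4 • w)) +
          (((p * a1 + q * a3) * u + (p * a2 + q * a4) * v) • s +
            ((p * b1 + q * b3) * u + (p * b2 + q * b4) * v) • w) := by
        simp only [mul_add, add_mul, mul_smul_comm, smul_mul_assoc]
        module
      rw [e, f1, f2, zero_smul, zero_smul, add_zero, add_zero]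
      exact Submodule.add_mem _ (Submodule.add_mem _ (Submodule.add_mem _
        (Submodule.smul_mem _ _ e1) (Submodule.smul_mem _ _ e2)) (Submodule.smul_mem _ _ e3))
        (Submodule.smul_mem _ _ e4)
    by_cases hy0 : a3 * b4 - a4 * b3 = 0
    · obtain ⟨u, v, huv, hm⟩ := main 0 1 (by linear_combination hy0)
      exact ⟨0, 1, u, v, fun h => one_ne_zero h.2, huv, hm⟩
    · obtain ⟨t, ht⟩ := quad_root (a1 * b2 - a2 * b1) (a1 * b4 + a3 * b2 - a2 * b3 - a4 * b1)
        (a3 * b4 - a4 * b3) hy0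
      obtain ⟨u, v, huv, hm⟩ := main 1 t (by linear_combination ht)
      exact ⟨1, t, u, v, fun h => one_ne_zero h.1, huv, hm⟩
  have ha : p • x + q • y ∈ J := J.add_mem (J.smul_mem _ hx) (J.smul_mem _ hy)
  have hb : u • x + v • y ∈ J := J.add_mem (J.smul_mem _ hx) (J.smul_mem _ hy)
  by_cases hdet : p * v - q * u = 0
  · -- proportional: a square is zero
    have hsq : (p • x + q • y) * (p • x + q • y) ∈ J ^ 3 := by
      by_cases hp : p = 0
      · have hq : q ≠ 0 := fun hq => hpq ⟨hp, hq⟩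
        have hu : u = 0 := by
          have : q * u = 0 := by rw [hp] at hdet; linear_combination -hdet
          exact (mul_eq_zero.mp this).resolve_left hq
        have hv : v ≠ 0 := fun hv => huv ⟨hu, hv⟩
        refine cancel_mem hv ?_
        have e : v • ((p • x + q • y) * (p • x + q • y)) =
            q • ((p • x + q • y) * (u • x + v • y)) := by
          rw [hp, hu]
          simp only [zero_smul, zero_add, mul_smul_comm, smul_mul_assoc]
          module
        rw [e]; exact Submodule.smul_mem _ _ hprod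
      · have hu : u ≠ 0 := by
          intro hu
          have : p * v = 0 := by rw [hu] at hdet; linear_combination hdet
          exact huv ⟨hu, (mul_eq_zero.mp this).resolve_left hp⟩
        refine cancel_mem hu ?_
        have e : u • ((p • x + q • y) * (p • x + q • y)) =
            p • ((p • x + q • y) * (u • x + v • y)) -
              (p * v - q * u) • ((p • x + q • y) * y) := by
          simp only [mul_add, add_mul, mul_smul_comm, smul_mul_assoc]
          module
        rw [e, hdet, zero_smul, sub_zero]; exact Submodule.smul_mem _ _ hprod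
    by_cases hp : p = 0
    · have hq : q ≠ 0 := fun hq => hpq ⟨hp, hq⟩
      refine h.caseII (x := p • x + q • y) (y := x) ha hx ?_ ?_ hK3 hD hsq
      · refine gens_change hJ (subset_span (by simp)) ?_
        rw [mem_span_pair]
        exact ⟨q⁻¹, 0, by rw [hp, zero_smul, zero_add, add_zero, smul_smul,
          inv_mul_cancel₀ hq, one_smul]⟩
      · intro h1
        apply hw
        refine cancel_mem hq ?_
        have e : q • w = -((p • x + q • y) * x - x * (p • x + q • y)) := by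
          rw [hwdef]
          simp only [mul_add, add_mul, mul_smul_comm, smul_mul_assoc]
          module
        rw [e]; exact Submodule.neg_mem _ h1
    · refine h.caseII (x := p • x + q • y) (y := y) ha hy ?_ ?_ hK3 hD hsq
      · refine gens_change hJ ?_ (subset_span (by simp))
        rw [mem_span_pair]
        refine ⟨p⁻¹, -(p⁻¹ * q), ?_⟩
        have : p⁻¹ • (p • x + q • y) + -(p⁻¹ * q) • y = (p⁻¹ * p) • x := by module
        rw [this, inv_mul_cancel₀ hp, one_smul]
      · intro h1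
        apply hw
        refine cancel_mem hp ?_
        have e : p • w = (p • x + q • y) * y - y * (p • x + q • y) := by
          rw [hwdef]
          simp only [mul_add, add_mul, mul_smul_comm, smul_mul_assoc]
          module
        rw [e]; exact h1
  · left
    refine h.caseI' (x := p • x + q • y) (y := u • x + v • y) ha hb ?_ ?_ hK3 hD hprod
    · refine gens_change hJ ?_ ?_
      · rw [mem_span_pair]
        refine ⟨(p * v - q * u)⁻¹ * v, -((p * v - q * u)⁻¹ * q), ?_⟩
        have : ((p * v - q * u)⁻¹ * v) • (p • x + q • y) +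
            -((p * v - q * u)⁻¹ * q) • (u • x + v • y) =
            ((p * v - q * u)⁻¹ * (p * v - q * u)) • x := by module
        rw [this, inv_mul_cancel₀ hdet, one_smul]
      · rw [mem_span_pair]
        refine ⟨-((p * v - q * u)⁻¹ * u), (p * v - q * u)⁻¹ * p, ?_⟩
        have : -((p * v - q * u)⁻¹ * u) • (p • x + q • y) +
            ((p * v - q * u)⁻¹ * p) • (u • x + v • y) =
            ((p * v - q * u)⁻¹ * (p * v - q * u)) • y := by module
        rw [this, inv_mul_cancel₀ hdet, one_smul]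
    · intro h1
      apply hw
      refine cancel_mem hdet ?_
      have e : (p * v - q * u) • w = (p • x + q • y) * (u • x + v • y) -
          (u • x + v • y) * (p • x + q • y) := by
        rw [hwdef]
        simp only [mul_add, add_mul, mul_smul_comm, smul_mul_assoc]
        module
      rw [e]; exact h1

variable [Module.Finite k R]

theorem finrank_three {U : Submodule k R} {p q r : R} (h : U ≤ span k {p, q, r}) :
    Module.finrank k U ≤ 3 := by
  classical
  refine (Submodule.finrank_mono h).trans ?_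
  have : (({p, q, r} : Finset R) : Set R) = {p, q, r} := by simp
  rw [← this]
  exact (finrank_span_finset_le_card _).trans Finset.card_le_three

theorem SL.finrank_of_J4 (h : SL c A J f) (h4 : J ^ 4 = ⊥) {X : Finset R}
    (hK : cmt A ≤ span k (X : Set R) ⊔ J ^ 3) : Module.finrank k (cmt A) ≤ X.card := by
  have h1 : cmt A ⊓ J ^ 3 = ⊥ := by
    rw [eq_bot_iff, ← h.soc_inf]
    exact inf_le_inf le_rfl (h.soc_of_pow (by norm_num) h4)
  have h2 := Submodule.finrank_sup_add_finrank_inf_eq (cmt A) (J ^ 3)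
  rw [h1, finrank_bot, add_zero] at h2
  have h3 : Module.finrank k (cmt A ⊔ J ^ 3 : Submodule k R) ≤
      Module.finrank k (span k (X : Set R) ⊔ J ^ 3 : Submodule k R) :=
    Submodule.finrank_mono (sup_le hK le_sup_right)
  have h4 := Submodule.finrank_add_le_finrank_add_finrank (span k (X : Set R)) (J ^ 3)
  have h5 := finrank_span_finset_le_card (R := k) X
  have h7 : Module.finrank k (span k (X : Set R)) ≤ X.card := h5
  omega

/-- **two generators** -/
theorem SL.two_final [IsAlgClosed k] (h : SL c A J f) (hK : cmt A ≠ ⊥) {x y : R} (hx : x ∈ J)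
    (hy : y ∈ J) (hJ : J ≤ span k {x, y} ⊔ J ^ 2)
    (hf : Module.finrank k (J ^ 2 : Submodule k R) ≤
      Module.finrank k (cmt A ⊔ socl A J : Submodule k R) + 1) :
    Module.finrank k (cmt A) ≤ 3 := by
  classical
  have hJ3 := h.J3_ne_bot hK
  have hS3 : socl A J ≤ J ^ 3 := (h.soc_le (h.pow_le_A (by norm_num)) hJ3 (h.J_mul_pow 2)).1
  have hJ32 : J ^ 3 ≤ J ^ 2 := h.pow_anti (by norm_num) (by norm_num)
  have hK2 := h.cmt_two hx hy hJ
  have hle : cmt A ⊔ J ^ 3 ≤ J ^ 2 := sup_le h.cmt_le hJ32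
  have hne : cmt A ⊔ J ^ 3 ≠ J ^ 2 := by
    intro he
    refine hK (h.two_gen' hx hy hJ ?_)
    rw [← he]
    exact sup_le hK2 le_sup_right
  have hlt := Submodule.finrank_lt_finrank_of_lt (lt_of_le_of_ne hle hne)
  have hKS : cmt A ⊔ socl A J ≤ cmt A ⊔ J ^ 3 := sup_le_sup le_rfl hS3
  have hKS' : cmt A ⊔ socl A J = cmt A ⊔ J ^ 3 :=
    Submodule.eq_of_le_of_finrank_le hKS (by omega)
  have hK3 : J ^ 3 ≤ cmt A ⊔ socl A J := by rw [hKS']; exact le_sup_right
  obtain ⟨s, hs, hsn⟩ := SetLike.exists_of_lt (lt_of_le_of_ne hle hne)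
  have hJ2 : J ^ 2 ≤ span k {s} ⊔ (cmt A ⊔ J ^ 3) := by
    have h1 : cmt A ⊔ J ^ 3 < span k {s} ⊔ (cmt A ⊔ J ^ 3) :=
      lt_of_le_of_ne le_sup_right fun h0 => hsn (by
        rw [h0]; exact Submodule.mem_sup_left (mem_span_singleton_self s))
    have h2 : span k {s} ⊔ (cmt A ⊔ J ^ 3) ≤ J ^ 2 := sup_le (by
      rwa [span_singleton_le_iff_mem]) hle
    have h3 := Submodule.finrank_lt_finrank_of_lt h1
    rw [hKS'] at hf
    exact (Submodule.eq_of_le_of_finrank_le h2 (by omega)).ge
  by_cases hw : x * y - y * x ∈ J ^ 3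
  · have h1 : J ^ 2 ≤ span k {s} ⊔ J ^ 3 :=
      hJ2.trans (sup_le_sup le_rfl (sup_le (hK2.trans (sup_le (by
        rwa [span_singleton_le_iff_mem]) le_rfl)) le_rfl))
    obtain ⟨x', y', h2⟩ := h.case0' hx hy hJ hw hJ3 hs h1
    refine finrank_three (p := x' * y' - y' * x') (q := 0) (r := 0) (h2.trans (span_mono ?_))
    simp
  · have h1 : J ^ 2 ≤ span k {s, x * y - y * x} ⊔ J ^ 3 := by
      rw [span_insert, sup_assoc]
      exact hJ2.trans (sup_le_sup le_rfl (sup_le hK2 le_sup_right))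
    rcases h.case1 hx hy hJ hw hK3 h1 with h4 | ⟨p, q, r, hpqr⟩
    · have := h.finrank_of_J4 h4 (X := {x * y - y * x}) (by simpa using hK2)
      rw [Finset.card_singleton] at this
      omega
    · exact finrank_three hpqr

end Cfsg.Agent.H4
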