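import Cfsg.Agent.H4.LocE

/-!
# Symmetric local algebras with five-dimensional centre: three generators (owner: helper4)
-/

set_option autoImplicit false
set_option linter.unusedSectionVars false

namespace Cfsg.Agent.H4

open Submodule

variable {k : Type*} [Field k] {R : Type*} [Ring R] [Algebra k R]
variable {c : R} {A J : Submodule k R} {f : R →ₗ[k] k}

/-- three generators and Loewy length at least five -/
structure T3 (c : R) (A J : Submodule k R) (f : R →ₗ[k] k) (X : (Fin 3 → k) →ₗ[k] R) (n : ℕ) :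
    Prop where
  sl : SL c A J f
  mem : ∀ a, X a ∈ J
  gen : J ≤ LinearMap.range X ⊔ J ^ 2
  ind : ∀ a, X a ∈ J ^ 2 → a = 0
  two : J ^ 2 ≤ cmt A ⊔ socl A J
  hn : 3 ≤ n
  ne : J ^ (n + 1) ≠ ⊥
  eq : J ^ (n + 2) = ⊥

variable {X : (Fin 3 → k) →ₗ[k] R} {n : ℕ}

/-- span of the commutators of generators -/
def CV (X : (Fin 3 → k) →ₗ[k] R) : Submodule k R :=
  span k {z | ∃ a b, z = X a * X b - X b * X a}

theorem expand (hgen : J ≤ LinearMap.range X ⊔ J ^ 2) {j : R} (hj : j ∈ J) :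
    ∃ a, ∃ s ∈ J ^ 2, j = X a + s := by
  obtain ⟨u, hu, s, hs, e⟩ := Submodule.mem_sup.mp (hgen hj)
  obtain ⟨a, rfl⟩ := hu
  exact ⟨a, s, hs, e.symm⟩

theorem SL.cmt_CV (h : SL c A J f) (hmem : ∀ a, X a ∈ J)
    (hgen : J ≤ LinearMap.range X ⊔ J ^ 2) : cmt A ≤ CV X ⊔ J ^ 3 := by
  refine span_le.mpr ?_
  rintro z ⟨u, hu, v, hv, rfl⟩
  obtain ⟨j, hj, j', hj', e⟩ := h.comm_eq hu hv
  rw [e, SetLike.mem_coe]
  obtain ⟨a, s, hs, rfl⟩ := expand hgen hj
  obtain ⟨b, s', hs', rfl⟩ := expand hgen hj'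
  have hJ2 : J ^ 2 ≤ J := h.pow_le 1
  have e1 : (X a + s) * (X b + s') - (X b + s') * (X a + s) = (X a * X b - X b * X a) +
      ((X a * s' - s' * X a) + (s * X b - X b * s) + (s * s' - s' * s)) := by noncomm_ring
  rw [e1]
  refine Submodule.add_mem_sup (subset_span ⟨a, b, rfl⟩) ?_
  refine Submodule.add_mem _ (Submodule.add_mem _ ?_ ?_) ?_
  · exact Submodule.sub_mem _ (pml (hmem a) hs') (pmr hs' (hmem a))
  · exact Submodule.sub_mem _ (pmr hs (hmem b)) (pml (hmem b) hs)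
  · exact Submodule.sub_mem _ (pml (hJ2 hs) hs') (pmr hs' (hJ2 hs))

/-- the three commutators -/
theorem CV_le : CV X ≤ span k (({X (Pi.single 0 1) * X (Pi.single 1 1) -
    X (Pi.single 1 1) * X (Pi.single 0 1),
    X (Pi.single 0 1) * X (Pi.single 2 1) - X (Pi.single 2 1) * X (Pi.single 0 1),
    X (Pi.single 1 1) * X (Pi.single 2 1) - X (Pi.single 2 1) * X (Pi.single 1 1)} : Set R)) := by
  refine span_le.mpr ?_
  rintro z ⟨a, b, rfl⟩
  have key : ∀ a : Fin 3 → k, X a = a 0 • X (Pi.single 0 1) + a 1 • X (Pi.single 1 1) +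
      a 2 • X (Pi.single 2 1) := by
    intro a
    rw [← map_smul, ← map_smul, ← map_smul, ← map_add, ← map_add]
    congr 1
    funext i
    fin_cases i <;> simp
  obtain ⟨x, hx⟩ : ∃ x, x = X (Pi.single 0 1) := ⟨_, rfl⟩
  obtain ⟨y, hy⟩ : ∃ y, y = X (Pi.single 1 1) := ⟨_, rfl⟩
  obtain ⟨w, hw⟩ : ∃ w, w = X (Pi.single 2 1) := ⟨_, rfl⟩
  rw [key a, key b, ← hx, ← hy, ← hw]
  have e : (a 0 • x + a 1 • y + a 2 • w) * (b 0 • x + b 1 • y + b 2 • w) -
      (b 0 • x + b 1 • y + b 2 • w) * (a 0 • x + a 1 • y + a 2 • w) =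
      (a 0 * b 1 - a 1 * b 0) • (x * y - y * x) + (a 0 * b 2 - a 2 * b 0) • (x * w - w * x) +
      (a 1 * b 2 - a 2 * b 1) • (y * w - w * y) := by
    simp only [mul_add, add_mul, mul_smul_comm, smul_mul_assoc]
    module
  rw [e]
  exact Submodule.add_mem _ (Submodule.add_mem _ (Submodule.smul_mem _ _ (subset_span (by simp)))
    (Submodule.smul_mem _ _ (subset_span (by simp))))
    (Submodule.smul_mem _ _ (subset_span (by simp)))

theorem SL.three_J4 [Module.Finite k R] (h : SL c A J f) (hmem : ∀ a, X a ∈ J)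
    (hgen : J ≤ LinearMap.range X ⊔ J ^ 2) (h4 : J ^ 4 = ⊥) :
    Module.finrank k (cmt A) ≤ 3 := by
  classical
  have h1 : cmt A ≤ span k ((({X (Pi.single 0 1) * X (Pi.single 1 1) -
    X (Pi.single 1 1) * X (Pi.single 0 1),
    X (Pi.single 0 1) * X (Pi.single 2 1) - X (Pi.single 2 1) * X (Pi.single 0 1),
    X (Pi.single 1 1) * X (Pi.single 2 1) - X (Pi.single 2 1) * X (Pi.single 1 1)} : Finset R)) :
      Set R) ⊔ J ^ 3 := by
    refine (h.cmt_CV hmem hgen).trans (sup_le_sup ?_ le_rfl)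
    simpa using CV_le
  exact (h.finrank_of_J4 h4 h1).trans Finset.card_le_three

/-- the annihilator of a subspace with respect to the form -/
def pr (f : R →ₗ[k] k) (I : Submodule k R) : Submodule k R where
  carrier := {z | ∀ g ∈ I, f (z * g) = 0}
  add_mem' := by
    intro a b ha hb g hg
    rw [add_mul, map_add, ha g hg, hb g hg, add_zero]
  zero_mem' := by intro g _; rw [zero_mul, map_zero]
  smul_mem' := by
    intro t a ha g hg
    rw [smul_mul_assoc, map_smul, ha g hg, smul_zero]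

theorem mem_pr {I : Submodule k R} {z : R} : z ∈ pr f I ↔ ∀ g ∈ I, f (z * g) = 0 := Iff.rfl

namespace T3

theorem top (t : T3 c A J f X n) {z : R} (hz : z ∈ J ^ (n + 1)) (h0 : f z = 0) : z = 0 :=
  t.sl.soc_f (t.sl.soc_of_pow (by omega) t.eq hz) h0

theorem zero_of (t : T3 c A J f X n) {m : ℕ} (hm : n + 2 ≤ m) {z : R} (hz : z ∈ J ^ m) : z = 0 := by
  have := t.sl.pow_anti (by omega) hm hz
  rw [t.eq] at this
  exact (Submodule.mem_bot k).mp this

theorem fz (t : T3 c A J f X n) {i j : ℕ} (hij : n + 2 ≤ i + j) {u v : R} (hu : u ∈ J ^ i)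
    (hv : v ∈ J ^ j) : f (u * v) = 0 := by
  rw [t.zero_of hij (pm hu hv), map_zero]

theorem tr (t : T3 c A J f X n) {i j : ℕ} (hi : 1 ≤ i) (hj : 1 ≤ j) {u v : R} (hu : u ∈ J ^ i)
    (hv : v ∈ J ^ j) : f (u * v) = f (v * u) :=
  t.sl.tr u (t.sl.pow_le_A hi hu) v (t.sl.pow_le_A hj hv)

theorem J4 (t : T3 c A J f X n) : J ^ 4 ≠ ⊥ := by
  intro h4
  apply t.ne
  rw [eq_bot_iff, ← h4]
  exact t.sl.pow_anti (by norm_num) (by have := t.hn; omega)

theorem socl_le (t : T3 c A J f X n) : socl A J ≤ J ^ 4 :=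
  (t.sl.soc_le (t.sl.pow_le_A (by norm_num)) t.J4 (t.sl.J_mul_pow 3)).1

theorem two' (t : T3 c A J f X n) : J ^ 2 ≤ CV X ⊔ J ^ 3 :=
  t.two.trans (sup_le (t.sl.cmt_CV t.mem t.gen) ((t.socl_le.trans
    (t.sl.pow_anti (by norm_num) (by norm_num))).trans le_sup_right))

theorem CV_le2 (t : T3 c A J f X n) : CV X ≤ J ^ 2 := by
  refine span_le.mpr ?_
  rintro z ⟨a, b, rfl⟩
  exact Submodule.sub_mem _ (pm2 (t.mem a) (t.mem b)) (pm2 (t.mem b) (t.mem a))

/-- **nondegeneracy** -/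
theorem nondeg (t : T3 c A J f X n) {v : R} (hv : v ∈ J) (h0 : ∀ g ∈ J ^ n, g * v = 0) :
    v ∈ J ^ 2 := by
  classical
  by_contra hv2
  have hn := t.hn
  -- the kernel in `V`
  let N : Submodule k (Fin 3 → k) :=
    { carrier := {a | ∀ g ∈ J ^ n, f (g * X a) = 0}
      add_mem' := by
        intro a b ha hb g hg
        rw [map_add, mul_add, map_add, ha g hg, hb g hg, add_zero]
      zero_mem' := by intro g _; rw [map_zero, mul_zero, map_zero]
      smul_mem' := by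
        intro r a ha g hg
        rw [map_smul, mul_smul_comm, map_smul, ha g hg, smul_zero] }
  have hNm : ∀ a, a ∈ N ↔ ∀ g ∈ J ^ n, f (g * X a) = 0 := fun a => Iff.rfl
  obtain ⟨a0, s0, hs0, e0⟩ := expand t.gen hv
  have ha0 : a0 ∈ N := by
    rw [hNm]
    intro g hg
    have h1 := h0 g hg
    rw [e0, mul_add] at h1
    have h2 : f (g * s0) = 0 := t.fz (by omega) hg hs0
    have h3 := congrArg f h1
    rw [map_add, h2, add_zero, map_zero] at h3
    exact h3
  have ha00 : a0 ≠ 0 := by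
    rintro rfl
    apply hv2
    rw [e0, map_zero, zero_add]
    exact hs0
  -- two more vectors
  obtain ⟨b1, b2, hb⟩ : ∃ b1 b2 : Fin 3 → k, (⊤ : Submodule k (Fin 3 → k)) ≤ span k {b1, b2} ⊔ N := by
    have h1 : Module.finrank k (⊤ : Submodule k (Fin 3 → k)) ≤ Module.finrank k N + 2 := by
      rw [finrank_top, Module.finrank_fin_fun]
      have : 0 < Module.finrank k N := Nat.pos_of_ne_zero fun h => by
        have h2 := Submodule.finrank_eq_zero.mp h
        rw [h2] at ha0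
        exact ha00 ((Submodule.mem_bot k).mp ha0)
      omega
    have step : ∀ {W' : Submodule k (Fin 3 → k)} {x : Fin 3 → k}, x ∉ W' →
        Module.finrank k W' + 1 ≤ Module.finrank k (span k {x} ⊔ W' : Submodule k (Fin 3 → k)) := by
      intro W' x hx
      refine Submodule.finrank_lt_finrank_of_lt (lt_of_le_of_ne le_sup_right fun h0 => hx ?_)
      rw [h0]
      exact Submodule.mem_sup_left (mem_span_singleton_self x)
    by_cases h2 : ∀ x : Fin 3 → k, x ∈ N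
    · exact ⟨0, 0, fun x _ => Submodule.mem_sup_right (h2 x)⟩
    push Not at h2
    obtain ⟨b1, hb1⟩ := h2
    by_cases h3 : ∀ x : Fin 3 → k, x ∈ span k {b1} ⊔ N
    · refine ⟨b1, 0, fun x _ => ?_⟩
      have h5 : span k {b1} ⊔ N ≤ span k {b1, 0} ⊔ N := sup_le_sup (span_mono (by simp)) le_rfl
      exact h5 (h3 x)
    push Not at h3
    obtain ⟨b2, hb2⟩ := h3
    refine ⟨b1, b2, ?_⟩
    have e : span k {b1, b2} ⊔ N = span k {b2} ⊔ (span k {b1} ⊔ N) := by
      rw [span_insert, ← sup_assoc, sup_comm (span k {b2})]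
    have h4 := step hb1
    have h5 := step hb2
    rw [← e] at h5
    refine (Submodule.eq_of_le_of_finrank_le le_top ?_).ge
    rw [finrank_top, Module.finrank_fin_fun] at h1 ⊢
    omega
  have hbV : ∀ a, ∃ p q : k, ∃ ν ∈ N, a = p • b1 + q • b2 + ν := by
    intro a
    obtain ⟨u, hu, ν, hν, e⟩ := Submodule.mem_sup.mp (hb (mem_top (x := a)))
    obtain ⟨p, q, rfl⟩ := mem_span_pair.mp hu
    exact ⟨p, q, ν, hν, e.symm⟩
  obtain ⟨y1, hy1⟩ : ∃ y1, y1 = X b1 := ⟨_, rfl⟩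
  obtain ⟨y2, hy2⟩ : ∃ y2, y2 = X b2 := ⟨_, rfl⟩
  obtain ⟨w, hw⟩ : ∃ w, w = y1 * y2 - y2 * y1 := ⟨_, rfl⟩
  have hy1J : y1 ∈ J := by rw [hy1]; exact t.mem _
  have hy2J : y2 ∈ J := by rw [hy2]; exact t.mem _
  have hwJ : w ∈ J ^ 2 := by
    rw [hw]; exact Submodule.sub_mem _ (pm2 hy1J hy2J) (pm2 hy2J hy1J)
  obtain ⟨m, rfl⟩ : ∃ m, n = m + 2 := ⟨n - 2, by omega⟩
  have hm1 : 1 ≤ m := by omega
  -- `N` is killed on both sides
  have hNr : ∀ ν ∈ N, ∀ z ∈ J, ∀ g ∈ J ^ (m + 1), f (X ν * z * g) = 0 := by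
    intro ν hν z hz g hg
    rw [mul_assoc, t.tr (i := 1) (j := m + 2) le_rfl (by omega) (pm1 (t.mem ν)) (pml hz hg)]
    exact (hNm ν).mp hν _ (pml hz hg)
  have hNl : ∀ ν ∈ N, ∀ z ∈ J, ∀ g ∈ J ^ (m + 1), f (z * X ν * g) = 0 := by
    intro ν hν z hz g hg
    rw [mul_assoc, t.tr (i := 1) (j := m + 2) le_rfl (by omega) (pm1 hz) (pml (t.mem ν) hg),
      mul_assoc, t.tr (i := 1) (j := m + 2) le_rfl (by omega) (pm1 (t.mem ν)) (pmr hg hz)]
    exact (hNm ν).mp hν _ (pmr hg hz)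
  obtain ⟨T1, hT1⟩ : ∃ T1, T1 = pr f (J ^ (m + 1)) := ⟨_, rfl⟩
  obtain ⟨T0, hT0⟩ : ∃ T0, T0 = pr f (J ^ m) := ⟨_, rfl⟩
  have hJ3T : J ^ 3 ≤ T1 := by
    intro z hz
    rw [hT1, mem_pr]
    intro g hg
    exact t.fz (by omega) hz hg
  have hCV : CV X ≤ span k {w} ⊔ T1 := by
    refine span_le.mpr ?_
    rintro z ⟨a, b, rfl⟩
    obtain ⟨p, q, ν, hν, rfl⟩ := hbV a
    obtain ⟨p', q', ν', hν', rfl⟩ := hbV b
    have e : X (p • b1 + q • b2 + ν) * X (p' • b1 + q' • b2 + ν') -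
        X (p' • b1 + q' • b2 + ν') * X (p • b1 + q • b2 + ν) = (p * q' - q * p') • w +
        ((X ν * X (p' • b1 + q' • b2 + ν') - X (p' • b1 + q' • b2 + ν') * X ν) +
          ((p • y1 + q • y2) * X ν' - X ν' * (p • y1 + q • y2))) := by
      simp only [map_add, map_smul, ← hy1, ← hy2, hw]
      simp only [mul_add, add_mul, mul_smul_comm, smul_mul_assoc]
      module
    rw [e, SetLike.mem_coe]
    have hyy : p • y1 + q • y2 ∈ J := J.add_mem (J.smul_mem _ hy1J) (J.smul_mem _ hy2J)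
    refine Submodule.add_mem_sup (Submodule.smul_mem _ _ (mem_span_singleton_self _))
      (Submodule.add_mem _ (Submodule.sub_mem _ ?_ ?_) (Submodule.sub_mem _ ?_ ?_))
    · rw [hT1]; exact fun g hg => hNr ν hν _ (t.mem _) g hg
    · rw [hT1]; exact fun g hg => hNl ν hν _ (t.mem _) g hg
    · rw [hT1]; exact fun g hg => hNl ν' hν' _ hyy g hg
    · rw [hT1]; exact fun g hg => hNr ν' hν' _ hyy g hg
  have hJ2 : J ^ 2 ≤ span k {w} ⊔ T1 :=
    t.two'.trans (sup_le hCV (hJ3T.trans le_sup_right))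
  have hwT : w ∉ T1 := by
    intro hwT
    have h1 : J ^ 2 ≤ T1 := hJ2.trans (sup_le (by rwa [span_singleton_le_iff_mem]) le_rfl)
    apply t.ne
    rw [eq_bot_iff]
    intro z hz
    rw [show (J ^ (m + 2 + 1) : Submodule k R) = J ^ 2 * J ^ (m + 1) from by
      rw [← pow_add]; congr 1; ring] at hz
    rw [Submodule.mem_bot]
    induction hz using Submodule.mul_induction_on' with
    | mem_mul_mem u hu g hg =>
      have h2 : u * g ∈ J ^ (m + 2 + 1) := by
        have := pm hu hg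
        rwa [show 2 + (m + 1) = m + 2 + 1 by ring] at this
      refine t.top h2 ?_
      have := h1 hu
      rw [hT1] at this
      exact this g hg
    | add z1 _ z2 _ h1 h2 => rw [h1, h2, add_zero]
  -- `J T1`, `T1 J ≤ T0`
  have hT1A : ∀ {u z : R}, u ∈ J → z ∈ T1 → z ∈ A → u * z ∈ T0 := by
    intro u z hu hz hzA
    rw [hT0, mem_pr]
    intro g hg
    have hgA := t.sl.pow_le_A hm1 hg
    rw [mul_assoc, t.sl.tr u (t.sl.le hu) _ (t.sl.mul_mem hzA hgA), mul_assoc]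
    rw [hT1] at hz
    exact hz _ (pmr hg hu)
  have hT1B : ∀ {u z : R}, u ∈ J → z ∈ T1 → z * u ∈ T0 := by
    intro u z hu hz
    rw [hT0, mem_pr]
    intro g hg
    rw [mul_assoc]
    rw [hT1] at hz
    exact hz _ (pml hu hg)
  have hcoef : ∀ u ∈ J, ∀ v ∈ J, ∃ b : k, u * v - b • w ∈ T1 := by
    intro u hu v hv
    obtain ⟨p, hp, q, hq, hpq⟩ := Submodule.mem_sup.mp (hJ2 (pm2 hu hv))
    obtain ⟨b, rfl⟩ := mem_span_singleton.mp hp
    exact ⟨b, by rw [← hpq, add_sub_cancel_left]; exact hq⟩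
  obtain ⟨α, hα⟩ := hcoef y1 hy1J y1 hy1J
  obtain ⟨β, hβ⟩ := hcoef y1 hy1J y2 hy2J
  obtain ⟨γ, hγ⟩ := hcoef y2 hy2J y1 hy1J
  obtain ⟨δ, hδ⟩ := hcoef y2 hy2J y2 hy2J
  have hβγ : β - γ = 1 := by
    have h1 : (β - γ - 1) • w ∈ T1 := by
      have h2 := Submodule.sub_mem _ hγ hβ
      have e : (β - γ - 1) • w = y2 * y1 - γ • w - (y1 * y2 - β • w) := by
        have e2 : y1 * y2 = w + y2 * y1 := by rw [hw, sub_add_cancel]
        rw [e2]
        module
      rw [e]; exact h2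
    by_contra hne
    have h3 : β - γ - 1 ≠ 0 := fun h0 => hne (sub_eq_zero.mp h0)
    exact hwT (cancel_mem h3 h1)
  have hass : ∀ {u v t' : R} {b b' : k}, u ∈ J → v ∈ J → t' ∈ J → u * v - b • w ∈ T1 →
      v * t' - b' • w ∈ T1 →
      b • (Submodule.Quotient.mk (w * t') : R ⧸ T0) = b' • Submodule.Quotient.mk (u * w) := by
    intro u v t' b b' hu hv ht h1 h2
    rw [← Submodule.Quotient.mk_smul, ← Submodule.Quotient.mk_smul, Submodule.Quotient.eq]
    have h3 := hT1B ht h1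
    have hA : v * t' - b' • w ∈ A := Submodule.sub_mem _ (t.sl.pow_le_A (by norm_num) (pm2 hv ht))
      (Submodule.smul_mem _ _ (t.sl.pow_le_A (by norm_num) hwJ))
    have h4 := hT1A hu h2 hA
    have e : b • (w * t') - b' • (u * w) = u * (v * t' - b' • w) - (u * v - b • w) * t' := by
      rw [mul_sub u (v * t'), sub_mul (u * v), smul_mul_assoc, mul_smul_comm, mul_assoc u v t']
      abel
    rw [e]
    exact Submodule.sub_mem _ h4 h3
  have hR1 : (Submodule.Quotient.mk (y1 * w) : R ⧸ T0) = 0 :=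
    lin_aux1 (α := α) hβγ (hass hy1J hy1J hy1J hα hα) (hass hy1J hy1J hy2J hα hβ)
      (hass hy1J hy2J hy1J hβ hγ)
  have hR2 : (Submodule.Quotient.mk (y2 * w) : R ⧸ T0) = 0 :=
    lin_aux2 (δ := δ) hβγ (hass hy2J hy2J hy2J hδ hδ) (hass hy2J hy2J hy1J hδ hγ)
      (hass hy2J hy1J hy2J hγ hβ)
  rw [Submodule.Quotient.mk_eq_zero] at hR1 hR2
  -- all of `J w` lies in `T0`
  have hJw : ∀ u ∈ J, u * w ∈ T0 := by
    intro u hu
    obtain ⟨a, s, hs, rfl⟩ := expand t.gen hu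
    obtain ⟨p, q, ν, hν, rfl⟩ := hbV a
    have e : (X (p • b1 + q • b2 + ν) + s) * w = p • (y1 * w) + q • (y2 * w) + X ν * w + s * w := by
      simp only [map_add, map_smul, ← hy1, ← hy2, add_mul, smul_mul_assoc]
    rw [e]
    refine Submodule.add_mem _ (Submodule.add_mem _ (Submodule.add_mem _
      (Submodule.smul_mem _ _ hR1) (Submodule.smul_mem _ _ hR2)) ?_) ?_
    · rw [hT0, mem_pr]
      intro g hg
      have hwg : w * g ∈ J ^ (m + 2) := by
        have := pm hwJ hg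
        rwa [add_comm 2 m] at this
      rw [mul_assoc, t.tr (i := 1) (j := m + 2) le_rfl (by omega) (pm1 (t.mem ν)) hwg]
      exact (hNm ν).mp hν _ hwg
    · rw [hT0, mem_pr]
      intro g hg
      exact t.fz (i := 4) (j := m) (by omega) (pm hs hwJ) hg
  apply hwT
  rw [hT1, mem_pr]
  intro g hg
  rw [pow_succ] at hg
  induction hg using Submodule.mul_induction_on' with
  | mem_mul_mem g hg u hu =>
    have h1 := hJw u hu
    rw [hT0] at h1
    have h2 := h1 g hg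
    have hwA := t.sl.pow_le_A (by norm_num) hwJ
    have hgA := t.sl.pow_le_A hm1 hg
    rw [← mul_assoc, t.sl.tr _ (t.sl.mul_mem hwA hgA) u (t.sl.le hu), ← mul_assoc]
    exact h2
  | add z1 _ z2 _ h1 h2 => rw [mul_add, map_add, h1, h2, add_zero]

end T3

end Cfsg.Agent.H4
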