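import Cfsg.Agent.H4.LocF

/-!
# Symmetric local algebras with five-dimensional centre: three generators, regular case (owner: helper4)
-/

set_option autoImplicit false
set_option linter.unusedSectionVars false

namespace Cfsg.Agent.H4

open Submodule

/-- the linear algebra statement on twisted three-dimensional algebras -/
def Twist (k : Type*) [Field k] : Prop :=
  ∀ (b : (Fin 3 → k) →ₗ[k] (Fin 3 → k) →ₗ[k] (Fin 3 → k)) (t : (Fin 3 → k) →ₗ[k] (Fin 3 → k))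
    (x : Fin 3 → k), Function.Injective t → (∀ w, b x w = w) → (∀ v, b v x = t v) →
    (∀ v w u, b (b v w) u = b (t v) (b w u)) →
    (Submodule.span k {z | ∃ v w, z = b v w - b w v} = ⊤) →
    (Submodule.span k {z | ∃ v u, z = b (t v) u - b u v} = ⊤) → False

variable {k : Type*} [Field k] {R : Type*} [Ring R] [Algebra k R]
variable {c : R} {A J : Submodule k R} {f : R →ₗ[k] k} {X : (Fin 3 → k) →ₗ[k] R} {n : ℕ}

namespace T3

theorem nondeg_r (t : T3 c A J f X n) {v : R} (hv : v ∈ J) (h0 : ∀ g ∈ J ^ n, v * g = 0) :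
    v ∈ J ^ 2 := by
  have hn := t.hn
  refine t.nondeg hv fun g hg => ?_
  refine t.top (pmr hg hv) ?_
  rw [t.tr (i := n) (j := 1) (by omega) le_rfl hg (pm1 hv), h0 g hg, map_zero]

theorem nd (t : T3 c A J f X n) {v : R} (hv : v ∈ J) {i : ℕ} (hin : i ≤ n)
    (h : ∀ g ∈ J ^ i, g * v ∈ J ^ (i + 2)) : v ∈ J ^ 2 := by
  refine t.nondeg hv fun g hg => ?_
  obtain ⟨m, rfl⟩ : ∃ m, n = m + i := ⟨n - i, by omega⟩
  rw [pow_add] at hg
  induction hg using Submodule.mul_induction_on' with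
  | mem_mul_mem a ha b hb =>
    rw [mul_assoc]
    exact t.zero_of (by omega) (pm ha (h b hb))
  | add z1 _ z2 _ h1 h2 => rw [add_mul, h1, h2, add_zero]

section surj

variable {x0 : R}

theorem surj_step (hx0 : x0 ∈ J) (hs : ∀ z ∈ J ^ 2, ∃ y ∈ J, z - x0 * y ∈ J ^ 3) :
    ∀ i : ℕ, ∀ z ∈ J ^ (i + 2), ∃ y ∈ J ^ (i + 1), z - x0 * y ∈ J ^ (i + 3) := by
  intro i
  induction i with
  | zero =>
    intro z hz
    obtain ⟨y, hy, h⟩ := hs z hz
    exact ⟨y, pm1 hy, h⟩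
  | succ i ih =>
    intro z hz
    rw [show (J ^ (i + 1 + 2) : Submodule k R) = J ^ (i + 2) * J from pow_succ _ _] at hz
    induction hz using Submodule.mul_induction_on' with
    | mem_mul_mem a ha u hu =>
      obtain ⟨y, hy, h⟩ := ih a ha
      refine ⟨y * u, pmr hy hu, ?_⟩
      have e : a * u - x0 * (y * u) = (a - x0 * y) * u := by rw [sub_mul, mul_assoc]
      rw [e]; exact pmr h hu
    | add z1 _ z2 _ h1 h2 =>
      obtain ⟨y1, hy1, h1⟩ := h1
      obtain ⟨y2, hy2, h2⟩ := h2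
      refine ⟨y1 + y2, Submodule.add_mem _ hy1 hy2, ?_⟩
      have e : z1 + z2 - x0 * (y1 + y2) = (z1 - x0 * y1) + (z2 - x0 * y2) := by noncomm_ring
      rw [e]; exact Submodule.add_mem _ h1 h2

theorem surj_exact (t : T3 c A J f X n) (hx0 : x0 ∈ J)
    (hs : ∀ z ∈ J ^ 2, ∃ y ∈ J, z - x0 * y ∈ J ^ 3) :
    ∀ m i : ℕ, n ≤ i + m → ∀ z ∈ J ^ (i + 2), ∃ y ∈ J ^ (i + 1), z = x0 * y := by
  intro m
  induction m with
  | zero =>
    intro i hi z hz
    exact ⟨0, Submodule.zero_mem _, by rw [t.zero_of (by omega) hz, mul_zero]⟩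
  | succ m ih =>
    intro i hi z hz
    obtain ⟨y, hy, h⟩ := surj_step hx0 hs i z hz
    obtain ⟨y', hy', e⟩ := ih (i + 1) (by omega) _ h
    refine ⟨y + y', Submodule.add_mem _ hy (t.sl.pow_anti (by omega) (by omega) hy'), ?_⟩
    rw [mul_add, ← e]; abel

theorem rsurj_step (hx0 : x0 ∈ J) (hs : ∀ z ∈ J ^ 2, ∃ y ∈ J, z - y * x0 ∈ J ^ 3) :
    ∀ i : ℕ, ∀ z ∈ J ^ (i + 2), ∃ y ∈ J ^ (i + 1), z - y * x0 ∈ J ^ (i + 3) := by
  intro i
  induction i with
  | zero =>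
    intro z hz
    obtain ⟨y, hy, h⟩ := hs z hz
    exact ⟨y, pm1 hy, h⟩
  | succ i ih =>
    intro z hz
    rw [show (J ^ (i + 1 + 2) : Submodule k R) = J * J ^ (i + 2) from pow_succ' _ _] at hz
    induction hz using Submodule.mul_induction_on' with
    | mem_mul_mem u hu a ha =>
      obtain ⟨y, hy, h⟩ := ih a ha
      refine ⟨u * y, pml hu hy, ?_⟩
      have e : u * a - u * y * x0 = u * (a - y * x0) := by rw [mul_sub, mul_assoc]
      rw [e]; exact pml hu h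
    | add z1 _ z2 _ h1 h2 =>
      obtain ⟨y1, hy1, h1⟩ := h1
      obtain ⟨y2, hy2, h2⟩ := h2
      refine ⟨y1 + y2, Submodule.add_mem _ hy1 hy2, ?_⟩
      have e : z1 + z2 - (y1 + y2) * x0 = (z1 - y1 * x0) + (z2 - y2 * x0) := by noncomm_ring
      rw [e]; exact Submodule.add_mem _ h1 h2

theorem rsurj_exact (t : T3 c A J f X n) (hx0 : x0 ∈ J)
    (hs : ∀ z ∈ J ^ 2, ∃ y ∈ J, z - y * x0 ∈ J ^ 3) :
    ∀ m i : ℕ, n ≤ i + m → ∀ z ∈ J ^ (i + 2), ∃ y ∈ J ^ (i + 1), z = y * x0 := by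
  intro m
  induction m with
  | zero =>
    intro i hi z hz
    exact ⟨0, Submodule.zero_mem _, by rw [t.zero_of (by omega) hz, zero_mul]⟩
  | succ m ih =>
    intro i hi z hz
    obtain ⟨y, hy, h⟩ := rsurj_step hx0 hs i z hz
    obtain ⟨y', hy', e⟩ := ih (i + 1) (by omega) _ h
    refine ⟨y + y', Submodule.add_mem _ hy (t.sl.pow_anti (by omega) (by omega) hy'), ?_⟩
    rw [add_mul, ← e]; abel

/-- right multiplication by a regular element is injective -/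
theorem rinj (t : T3 c A J f X n) (hx0 : x0 ∈ J)
    (hs : ∀ z ∈ J ^ 2, ∃ y ∈ J, z - x0 * y ∈ J ^ 3) {v : R} (hv : v ∈ J)
    (h : v * x0 ∈ J ^ 3) : v ∈ J ^ 2 := by
  have hn := t.hn
  refine t.nondeg_r hv fun g hg => ?_
  obtain ⟨m, rfl⟩ : ∃ m, n = m + 2 := ⟨n - 2, by omega⟩
  obtain ⟨y, hy, rfl⟩ := t.surj_exact hx0 hs 2 m le_rfl g hg
  rw [← mul_assoc]
  exact t.zero_of (by omega) (pm h hy)

theorem linj (t : T3 c A J f X n) (hx0 : x0 ∈ J)
    (hs : ∀ z ∈ J ^ 2, ∃ y ∈ J, z - y * x0 ∈ J ^ 3) {v : R} (hv : v ∈ J)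
    (h : x0 * v ∈ J ^ 3) : v ∈ J ^ 2 := by
  have hn := t.hn
  refine t.nondeg hv fun g hg => ?_
  obtain ⟨m, rfl⟩ : ∃ m, n = m + 2 := ⟨n - 2, by omega⟩
  obtain ⟨y, hy, rfl⟩ := t.rsurj_exact hx0 hs 2 m le_rfl g hg
  rw [mul_assoc]
  exact t.zero_of (by omega) (pm hy h)

theorem linj2 (t : T3 c A J f X n) (hx0 : x0 ∈ J)
    (hs : ∀ z ∈ J ^ 2, ∃ y ∈ J, z - y * x0 ∈ J ^ 3) {v : R} (hv : v ∈ J)
    (h : x0 * (x0 * v) ∈ J ^ 4) : v ∈ J ^ 2 := by
  have hn := t.hn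
  refine t.nondeg hv fun g hg => ?_
  obtain ⟨m, rfl⟩ : ∃ m, n = m + 3 := ⟨n - 3, by omega⟩
  obtain ⟨y, hy, rfl⟩ := t.rsurj_exact hx0 hs 2 (m + 1) le_rfl g hg
  obtain ⟨y', hy', rfl⟩ := t.rsurj_exact hx0 hs 3 m le_rfl y hy
  rw [mul_assoc, mul_assoc]
  exact t.zero_of (by omega) (pm hy' h)

variable [Module.Finite k R]

theorem finrank_CV : Module.finrank k (CV X) ≤ 3 := finrank_three CV_le

theorem sup_eq (t : T3 c A J f X n) : CV X ⊔ J ^ 3 = J ^ 2 :=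
  le_antisymm (sup_le t.CV_le2 (t.sl.pow_anti (by norm_num) (by norm_num))) t.two'

theorem dims (t : T3 c A J f X n) (hx0 : x0 ∈ J)
    (hs : ∀ z ∈ J ^ 2, ∃ y ∈ J, z - x0 * y ∈ J ^ 3) :
    (∀ z ∈ J ^ 2, ∃ y ∈ J, z - y * x0 ∈ J ^ 3) ∧ CV X ⊓ J ^ 3 = ⊥ := by
  obtain ⟨ψ, hψ⟩ : ∃ ψ : (Fin 3 → k) →ₗ[k] R, ∀ a, ψ a = X a * x0 :=
    ⟨(LinearMap.mulRight k x0).comp X, fun a => rfl⟩
  have hψ3 : ∀ a, ψ a ∈ J ^ 3 → a = 0 := fun a ha => by
    rw [hψ] at ha
    exact t.ind a (t.rinj hx0 hs (t.mem a) ha)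
  have hinj : Function.Injective ψ := by
    rw [← LinearMap.ker_eq_bot, LinearMap.ker_eq_bot']
    intro a ha
    exact hψ3 a (by rw [ha]; exact Submodule.zero_mem _)
  have h1 : Module.finrank k (LinearMap.range ψ) = 3 := by
    rw [LinearMap.finrank_range_of_inj hinj, Module.finrank_fin_fun]
  have h2 : LinearMap.range ψ ⊓ J ^ 3 = ⊥ := by
    rw [eq_bot_iff]
    rintro z ⟨⟨a, rfl⟩, hz⟩
    rw [hψ3 a hz, map_zero]
    exact Submodule.zero_mem _
  have h3 := Submodule.finrank_sup_add_finrank_inf_eq (LinearMap.range ψ) (J ^ 3)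
  rw [h2, finrank_bot, add_zero, h1] at h3
  have h4 := Submodule.finrank_sup_add_finrank_inf_eq (CV X) (J ^ 3)
  rw [t.sup_eq] at h4
  have h5 : Module.finrank k (CV X) ≤ 3 := finrank_CV
  have h6 : LinearMap.range ψ ⊔ J ^ 3 ≤ J ^ 2 := by
    refine sup_le ?_ (t.sl.pow_anti (by norm_num) (by norm_num))
    rintro z ⟨a, rfl⟩
    rw [hψ]; exact pm2 (t.mem a) hx0
  have h7 := Submodule.finrank_mono h6
  constructor
  · have h8 := Submodule.eq_of_le_of_finrank_le h6 (by omega)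
    intro z hz
    rw [← h8] at hz
    obtain ⟨u, ⟨a, rfl⟩, s, hs', e⟩ := Submodule.mem_sup.mp hz
    refine ⟨X a, t.mem a, ?_⟩
    rw [← e, hψ, add_sub_cancel_left]
    exact hs'
  · exact Submodule.finrank_eq_zero.mp (by omega)

/-- the third layer is spanned by commutators -/
theorem three_comm (t : T3 c A J f X n) (hCV : CV X ⊓ J ^ 3 = ⊥) :
    J ^ 3 ≤ span k {z | ∃ a, ∃ s ∈ J ^ 2, z = X a * s - s * X a} ⊔ J ^ 4 := by
  obtain ⟨P, hP⟩ : ∃ P, P = span k {z | ∃ a, ∃ s ∈ J ^ 2, z = X a * s - s * X a} := ⟨_, rfl⟩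
  rw [← hP]
  have hP3 : P ≤ J ^ 3 := by
    rw [hP]
    refine span_le.mpr ?_
    rintro z ⟨a, s, hs, rfl⟩
    exact Submodule.sub_mem _ (pml (t.mem a) hs) (pmr hs (t.mem a))
  have hJ43 : J ^ 4 ≤ J ^ 3 := t.sl.pow_anti (by norm_num) (by norm_num)
  have hK : cmt A ≤ CV X ⊔ (P ⊔ J ^ 4) := by
    refine span_le.mpr ?_
    rintro z ⟨u, hu, v, hv, rfl⟩
    obtain ⟨j, hj, j', hj', e⟩ := t.sl.comm_eq hu hv
    rw [e, SetLike.mem_coe]
    obtain ⟨a, s, hs, rfl⟩ := expand t.gen hj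
    obtain ⟨b, s', hs', rfl⟩ := expand t.gen hj'
    have e1 : (X a + s) * (X b + s') - (X b + s') * (X a + s) = (X a * X b - X b * X a) +
        (((X a * s' - s' * X a) - (X b * s - s * X b)) + (s * s' - s' * s)) := by noncomm_ring
    rw [e1]
    refine Submodule.add_mem_sup (subset_span ⟨a, b, rfl⟩) (Submodule.add_mem_sup ?_ ?_)
    · rw [hP]
      exact Submodule.sub_mem _ (subset_span ⟨a, s', hs', rfl⟩) (subset_span ⟨b, s, hs, rfl⟩)
    · exact Submodule.sub_mem _ (pm (i := 2) (j := 2) hs hs') (pm (i := 2) (j := 2) hs' hs)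
  intro z hz
  have hz2 := t.two (t.sl.pow_anti (by norm_num) (by norm_num) hz)
  obtain ⟨u, hu, s, hs, rfl⟩ := Submodule.mem_sup.mp hz2
  obtain ⟨v, hv, q, hq, rfl⟩ := Submodule.mem_sup.mp (hK hu)
  have hs4 := t.socl_le hs
  have hq3 : q ∈ J ^ 3 := (sup_le hP3 hJ43) hq
  have hv3 : v ∈ CV X ⊓ J ^ 3 := by
    refine ⟨hv, ?_⟩
    have e : v = (v + q + s) - s - q := by abel
    rw [e]
    exact Submodule.sub_mem _ (Submodule.sub_mem _ hz (hJ43 hs4)) hq3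
  rw [hCV, Submodule.mem_bot] at hv3
  rw [hv3, zero_add]
  exact Submodule.add_mem _ hq (Submodule.mem_sup_right hs4)

/-- **the regular case is impossible** -/
theorem regular_false (t : T3 c A J f X n) (hT : Twist k) {a0 : Fin 3 → k}
    (hs : ∀ z ∈ J ^ 2, ∃ y ∈ J, z - X a0 * y ∈ J ^ 3) : False := by
  obtain ⟨x0, hx0⟩ : ∃ x0, x0 = X a0 := ⟨_, rfl⟩
  rw [← hx0] at hs
  have hx0J : x0 ∈ J := by rw [hx0]; exact t.mem _
  obtain ⟨hsr, hCV⟩ := t.dims hx0J hs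
  have h3c := t.three_comm hCV
  -- the linear maps
  obtain ⟨m0, hm0⟩ : ∃ m0 : (Fin 3 → k) →ₗ[k] (R ⧸ (J ^ 3)),
      ∀ a, m0 a = Submodule.Quotient.mk (x0 * X a) :=
    ⟨(mkQ (J ^ 3)).comp ((LinearMap.mulLeft k x0).comp X), fun a => rfl⟩
  have hinj : LinearMap.ker m0 = ⊥ := by
    rw [LinearMap.ker_eq_bot']
    intro a ha
    rw [hm0, Submodule.Quotient.mk_eq_zero] at ha
    exact t.ind a (t.linj hx0J hsr (t.mem a) ha)
  obtain ⟨g, hg⟩ := LinearMap.exists_leftInverse_of_injective m0 hinj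
  have hgm : ∀ a, g (m0 a) = a := fun a => by
    have := LinearMap.congr_fun hg a
    exact this
  obtain ⟨G, hG⟩ : ∃ G : R →ₗ[k] (Fin 3 → k), ∀ z, G z = g (Submodule.Quotient.mk z) :=
    ⟨g.comp (mkQ (J ^ 3)), fun z => rfl⟩
  have hG3 : ∀ z ∈ J ^ 3, G z = 0 := fun z hz => by
    rw [hG, (Submodule.Quotient.mk_eq_zero _).mpr hz, map_zero]
  have hGx : ∀ a, G (x0 * X a) = a := fun a => by rw [hG, ← hm0, hgm]
  have hGs : ∀ z ∈ J ^ 2, z - x0 * X (G z) ∈ J ^ 3 := by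
    intro z hz
    obtain ⟨y, hy, h⟩ := hs z hz
    obtain ⟨a, s, hs', rfl⟩ := expand t.gen hy
    have h1 : z - x0 * X a ∈ J ^ 3 := by
      have e : z - x0 * X a = (z - x0 * (X a + s)) + x0 * s := by noncomm_ring
      rw [e]; exact Submodule.add_mem _ h (pml hx0J hs')
    have h2 : G z = a := by
      have e : G z = G (z - x0 * X a) + G (x0 * X a) := by rw [← map_add, sub_add_cancel]
      rw [e, hG3 _ h1, hGx, zero_add]
    rw [h2]; exact h1
  obtain ⟨b, hb⟩ : ∃ b : (Fin 3 → k) →ₗ[k] (Fin 3 → k) →ₗ[k] (Fin 3 → k),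
      ∀ u v, b u v = G (X u * X v) := by
    refine ⟨LinearMap.mk₂ k (fun u v => G (X u * X v)) ?_ ?_ ?_ ?_, fun u v => rfl⟩
    · intro u v w; rw [map_add, add_mul, map_add]
    · intro r u v; rw [map_smul, smul_mul_assoc, map_smul]
    · intro u v w; rw [map_add, mul_add, map_add]
    · intro r u v; rw [map_smul, mul_smul_comm, map_smul]
  obtain ⟨τ, hτ⟩ : ∃ τ : (Fin 3 → k) →ₗ[k] (Fin 3 → k), ∀ u, τ u = G (X u * x0) :=
    ⟨G.comp ((LinearMap.mulRight k x0).comp X), fun u => rfl⟩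
  have kb : ∀ u v, X u * X v - x0 * X (b u v) ∈ J ^ 3 := fun u v => by
    rw [hb]; exact hGs _ (pm2 (t.mem u) (t.mem v))
  have kτ : ∀ u, X u * x0 - x0 * X (τ u) ∈ J ^ 3 := fun u => by
    rw [hτ]; exact hGs _ (pm2 (t.mem u) hx0J)
  -- uniqueness in the third layer
  have uniq : ∀ a a', x0 * (x0 * X a) - x0 * (x0 * X a') ∈ J ^ 4 → a = a' := by
    intro a a' h
    have e : x0 * (x0 * X a) - x0 * (x0 * X a') = x0 * (x0 * X (a - a')) := by
      rw [map_sub]; noncomm_ring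
    rw [e] at h
    exact sub_eq_zero.mp (t.ind _ (t.linj2 hx0J hsr (t.mem _) h))
  refine hT b τ a0 ?_ ?_ ?_ ?_ ?_ ?_
  · intro u v huv
    have e : τ (u - v) = 0 := by rw [map_sub, huv, sub_self]
    have h1 := kτ (u - v)
    rw [e, map_zero, mul_zero, sub_zero] at h1
    exact sub_eq_zero.mp (t.ind _ (t.rinj hx0J hs (t.mem _) h1))
  · intro w
    rw [hb, ← hx0, hGx]
  · intro v
    rw [hb, hτ, ← hx0]
  · intro v w u
    apply uniq
    have m1 := pml hx0J (kb (b v w) u)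
    have m2 := pmr (kb v w) (t.mem u)
    have m3 := pml (t.mem v) (kb w u)
    have m4 := pmr (kτ v) (t.mem (b w u))
    have m5 := pml hx0J (kb (τ v) (b w u))
    have e : x0 * (x0 * X (b (b v w) u)) - x0 * (x0 * X (b (τ v) (b w u))) =
        -(x0 * (X (b v w) * X u - x0 * X (b (b v w) u))) -
        (X v * X w - x0 * X (b v w)) * X u + X v * (X w * X u - x0 * X (b w u)) +
        (X v * x0 - x0 * X (τ v)) * X (b w u) +
        x0 * (X (τ v) * X (b w u) - x0 * X (b (τ v) (b w u))) := by noncomm_ring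
    rw [e]
    exact Submodule.add_mem _ (Submodule.add_mem _ (Submodule.add_mem _ (Submodule.sub_mem _
      (Submodule.neg_mem _ m1) m2) m3) m4) m5
  · rw [eq_top_iff]
    intro a _
    obtain ⟨S, hS⟩ : ∃ S : Submodule k (Fin 3 → k), S = span k {z | ∃ v w, z = b v w - b w v} :=
      ⟨_, rfl⟩
    rw [← hS]
    have h1 : CV X ≤ S.comap G := by
      refine span_le.mpr ?_
      rintro z ⟨u, v, rfl⟩
      rw [SetLike.mem_coe, Submodule.mem_comap, map_sub, ← hb, ← hb, hS]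
      exact subset_span ⟨u, v, rfl⟩
    have h2 : J ^ 2 ≤ S.comap G := by
      refine t.two'.trans (sup_le h1 ?_)
      intro z hz
      rw [Submodule.mem_comap, hG3 z hz]
      exact Submodule.zero_mem _
    have h3 := h2 (pm2 hx0J (t.mem a))
    rwa [Submodule.mem_comap, hGx] at h3
  · rw [eq_top_iff]
    intro a _
    obtain ⟨S, hS⟩ : ∃ S : Submodule k (Fin 3 → k),
        S = span k {z | ∃ v u, z = b (τ v) u - b u v} := ⟨_, rfl⟩
    rw [← hS]
    -- every element of the third layer is `x0 x0 X e` with `e ∈ S`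
    obtain ⟨U, hU⟩ : ∃ U : Submodule k R, U = (S.map ((LinearMap.mulLeft k x0).comp
        ((LinearMap.mulLeft k x0).comp X))) ⊔ J ^ 4 := ⟨_, rfl⟩
    have hUm : ∀ e ∈ S, x0 * (x0 * X e) ∈ U := fun e he => by
      rw [hU]; exact Submodule.mem_sup_left ⟨e, he, rfl⟩
    have hJ4U : J ^ 4 ≤ U := by rw [hU]; exact le_sup_right
    have h1 : J ^ 3 ≤ U := by
      refine h3c.trans (sup_le (span_le.mpr ?_) hJ4U)
      rintro z ⟨v, s, hs', rfl⟩
      rw [SetLike.mem_coe]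
      have n1 := hGs s hs'
      obtain ⟨d, hd⟩ : ∃ d, d = G s := ⟨_, rfl⟩
      rw [← hd] at n1
      have m1 := Submodule.sub_mem _ (pml (t.mem v) n1) (pmr n1 (t.mem v))
      have m2 := pmr (kτ v) (t.mem d)
      have m3 := pml hx0J (kb (τ v) d)
      have m4 := pml hx0J (kb d v)
      have e : X v * s - s * X v = (X v * (s - x0 * X d) - (s - x0 * X d) * X v) +
          (X v * x0 - x0 * X (τ v)) * X d + x0 * (X (τ v) * X d - x0 * X (b (τ v) d)) -
          x0 * (X d * X v - x0 * X (b d v)) + x0 * (x0 * X (b (τ v) d - b d v)) := by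
        rw [map_sub]; noncomm_ring
      rw [e]
      refine Submodule.add_mem _ (hJ4U (Submodule.sub_mem _ (Submodule.add_mem _
        (Submodule.add_mem _ m1 m2) m3) m4)) (hUm _ ?_)
      rw [hS]; exact subset_span ⟨v, d, rfl⟩
    have h2 := h1 (pml hx0J (pm2 hx0J (t.mem a)))
    rw [hU] at h2
    obtain ⟨z, ⟨e, he, rfl⟩, s, hs', e'⟩ := Submodule.mem_sup.mp h2
    have h3 : a = e := by
      apply uniq
      have e2 : x0 * (x0 * X a) - x0 * (x0 * X e) = s := by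
        rw [← e']
        show x0 * (x0 * X e) + s - x0 * (x0 * X e) = s
        abel
      rw [e2]; exact hs'
    rw [h3]; exact he

end surj

end T3

end Cfsg.Agent.H4
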