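import Cfsg.Agent.H4.LocG
import Cfsg.Agent.H10.Sing

/-!
# Symmetric local algebras with five-dimensional centre: three generators, singular case (owner: helper4)
-/

set_option autoImplicit false
set_option linter.unusedSectionVars false

namespace Cfsg.Agent.H4

open Submodule

/-- a bilinear map with small target -/
theorem small_target {F V W : Type*} [Field F] [AddCommGroup V] [Module F V]
    [AddCommGroup W] [Module F W] [Module.Finite F W] (hV : 2 ≤ Module.finrank F V)
    (hW : Module.finrank F W ≤ 2)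
    (m : V →ₗ[F] V →ₗ[F] W) (hs : Submodule.span F {z | ∃ u v, z = m u v} = ⊤)
    (hN : ∀ v, (∀ u, m u v = 0) → v = 0) : ∃ x, Function.Surjective (m x) := by
  have hVf : Module.Finite F V := Module.finite_of_finrank_pos (by omega)
  by_contra hno
  push Not at hno
  have hlt : ∀ x, Module.finrank F (LinearMap.range (m x)) < Module.finrank F W := by
    intro x
    refine Submodule.finrank_lt fun h => hno x (LinearMap.range_eq_top.mp h)
  obtain ⟨v0, hv0⟩ : ∃ v0 : V, v0 ≠ 0 := by
    by_contra h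
    push Not at h
    have : Subsingleton V := ⟨fun a b => by rw [h a, h b]⟩
    rw [Module.finrank_zero_of_subsingleton] at hV
    omega
  by_cases h1 : Module.finrank F W ≤ 1
  · refine hv0 (hN v0 fun u => ?_)
    have h2 := hlt u
    have h3 : LinearMap.range (m u) = ⊥ := Submodule.finrank_eq_zero.mp (by omega)
    have h4 : m u v0 ∈ LinearMap.range (m u) := ⟨v0, rfl⟩
    rw [h3] at h4
    exact (Submodule.mem_bot F).mp h4
  · have hr : ∀ u, ∃ s : W, ∀ v, ∃ c : F, m u v = c • s := by
      intro u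
      have h2 := hlt u
      have h3 : Module.finrank F (LinearMap.range (m u)) ≤ 1 := by omega
      obtain ⟨s, hs⟩ := finrank_le_one_iff.mp h3
      refine ⟨s, fun v => ?_⟩
      obtain ⟨c, hc⟩ := hs ⟨m u v, v, rfl⟩
      exact ⟨c, by have := congrArg Subtype.val hc; exact this.symm⟩
    rcases Cfsg.Agent.H10.Sing.rank_one m hr with ⟨s, hs1⟩ | ⟨φ, hφ⟩
    · have h2 : (⊤ : Submodule F W) ≤ span F {s} := by
        rw [← hs]
        refine span_le.mpr ?_
        rintro z ⟨u, v, rfl⟩
        exact hs1 u v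
      have h3 := Submodule.finrank_mono h2
      rw [finrank_top] at h3
      have h4 : Module.finrank F (span F {s}) ≤ 1 := by
        have := finrank_span_le_card (R := F) ({s} : Set W)
        simpa using this
      omega
    · have h2 := LinearMap.finrank_range_add_finrank_ker φ
      have h3 : Module.finrank F (LinearMap.range φ) ≤ 1 := by
        have := Submodule.finrank_le (LinearMap.range φ)
        rwa [Module.finrank_self] at this
      have h4 : LinearMap.ker φ ≠ ⊥ := by
        intro h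
        rw [h, finrank_bot] at h2
        omega
      obtain ⟨v, hv, hv0⟩ := (Submodule.ne_bot_iff _).mp h4
      exact hv0 (hN v fun u => hφ u v (LinearMap.mem_ker.mp hv))

variable {k : Type*} [Field k] {R : Type*} [Ring R] [Algebra k R]
variable {c : R} {A J : Submodule k R} {f : R →ₗ[k] k} {X : (Fin 3 → k) →ₗ[k] R} {n : ℕ}

/-- a linear map vanishing on the standard basis -/
theorem lin0 {M : Type*} [AddCommGroup M] [Module k M] (L : (Fin 3 → k) →ₗ[k] M)
    (h : ∀ i, L (Pi.single i 1) = 0) (a : Fin 3 → k) : L a = 0 := by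
  have : L = 0 := by
    refine LinearMap.pi_ext' fun i => ?_
    refine LinearMap.ext_ring ?_
    simpa using h i
  rw [this, LinearMap.zero_apply]

/-- commutators of generators with respect to a spanning triple -/
theorem CV_le' {a b d : Fin 3 → k} (hsp : ∀ v, ∃ p q r : k, v = p • a + q • b + r • d) :
    CV X ≤ span k ({X a * X b - X b * X a, X a * X d - X d * X a, X b * X d - X d * X b} : Set R) := by
  refine span_le.mpr ?_
  rintro z ⟨u, v, rfl⟩
  obtain ⟨p, q, r, rfl⟩ := hsp u
  obtain ⟨p', q', r', rfl⟩ := hsp v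
  obtain ⟨x, hx⟩ : ∃ x, x = X a := ⟨_, rfl⟩
  obtain ⟨y, hy⟩ : ∃ y, y = X b := ⟨_, rfl⟩
  obtain ⟨w, hw⟩ : ∃ w, w = X d := ⟨_, rfl⟩
  simp only [map_add, map_smul, ← hx, ← hy, ← hw]
  have e : (p • x + q • y + r • w) * (p' • x + q' • y + r' • w) -
      (p' • x + q' • y + r' • w) * (p • x + q • y + r • w) =
      (p * q' - q * p') • (x * y - y * x) + (p * r' - r * p') • (x * w - w * x) +
      (q * r' - r * q') • (y * w - w * y) := by
    simp only [mul_add, add_mul, mul_smul_comm, smul_mul_assoc]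
    module
  rw [e]
  exact Submodule.add_mem _ (Submodule.add_mem _ (Submodule.smul_mem _ _ (subset_span (by simp)))
    (Submodule.smul_mem _ _ (subset_span (by simp))))
    (Submodule.smul_mem _ _ (subset_span (by simp)))

namespace T3

/-- the twisted alternating case is impossible -/
theorem gamma_false (t : T3 c A J f X n) (κ : (Fin 3 → k) →ₗ[k] (Fin 3 → k))
    (hκ : Function.Surjective κ) (h0 : ∀ a, X a * X (κ a) ∈ J ^ 3) : False := by
  have hn := t.hn
  -- the four-fold product
  obtain ⟨g, hg⟩ : ∃ g : (Fin 3 → k) → (Fin 3 → k) → (Fin 3 → k) → (Fin 3 → k) → (R ⧸ (J ^ 5)),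
      ∀ a b d e, g a b d e =
        Submodule.Quotient.mk (X a * X (κ b) * X (κ (κ d)) * X (κ (κ (κ e)))) :=
    ⟨fun a b d e => Submodule.Quotient.mk _, fun a b d e => rfl⟩
  have h01 : ∀ a d e, g a a d e = 0 := fun a d e => by
    rw [hg, Submodule.Quotient.mk_eq_zero]
    exact pmr (pmr (h0 a) (t.mem _)) (t.mem _)
  have h12 : ∀ a b e, g a b b e = 0 := fun a b e => by
    rw [hg, Submodule.Quotient.mk_eq_zero, mul_assoc (X a)]
    exact pmr (pml (t.mem _) (h0 (κ b))) (t.mem _)
  have h23 : ∀ a b d, g a b d d = 0 := fun a b d => by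
    rw [hg, Submodule.Quotient.mk_eq_zero, mul_assoc (X a * X (κ b)), mul_assoc (X a)]
    exact pml (t.mem _) (pml (t.mem _) (h0 (κ (κ d))))
  have l0 : ∀ a a' b d e, g (a + a') b d e = g a b d e + g a' b d e := fun a a' b d e => by
    rw [hg, hg, hg, ← Submodule.Quotient.mk_add]
    congr 1
    rw [map_add]; noncomm_ring
  have l1 : ∀ a b b' d e, g a (b + b') d e = g a b d e + g a b' d e := fun a b b' d e => by
    rw [hg, hg, hg, ← Submodule.Quotient.mk_add]
    congr 1
    simp only [map_add]; noncomm_ring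
  have l2 : ∀ a b d d' e, g a b (d + d') e = g a b d e + g a b d' e := fun a b d d' e => by
    rw [hg, hg, hg, ← Submodule.Quotient.mk_add]
    congr 1
    simp only [map_add]; noncomm_ring
  have l3 : ∀ a b d e e', g a b d (e + e') = g a b d e + g a b d e' := fun a b d e e' => by
    rw [hg, hg, hg, ← Submodule.Quotient.mk_add]
    congr 1
    simp only [map_add]; noncomm_ring
  have s12 : ∀ a b d e, g a b d e = - g a d b e := fun a b d e => by
    have h1 := h12 a (b + d) e
    rw [l1, l2, l2, h12, h12, zero_add, add_zero] at h1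
    exact eq_neg_of_add_eq_zero_left h1
  have s23 : ∀ a b d e, g a b d e = - g a b e d := fun a b d e => by
    have h1 := h23 a b (d + e)
    rw [l2, l3, l3, h23, h23, zero_add, add_zero] at h1
    exact eq_neg_of_add_eq_zero_left h1
  have h02 : ∀ a b e, g a b a e = 0 := fun a b e => by rw [s12, h01, neg_zero]
  have h13 : ∀ a b d, g a b d b = 0 := fun a b d => by rw [s23, h12, neg_zero]
  have h03 : ∀ a b d, g a b d a = 0 := fun a b d => by rw [s23, h02, neg_zero]
  have hbas : ∀ i j l m : Fin 3, g (Pi.single i 1) (Pi.single j 1) (Pi.single l 1)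
      (Pi.single m 1) = 0 := by
    intro i j l m
    have hc : i = j ∨ j = l ∨ l = m ∨ i = l ∨ j = m ∨ i = m := by
      revert i j l m; decide
    rcases hc with rfl | rfl | rfl | rfl | rfl | rfl
    · exact h01 _ _ _
    · exact h12 _ _ _
    · exact h23 _ _ _
    · exact h02 _ _ _
    · exact h13 _ _ _
    · exact h03 _ _ _
  have g3 : ∀ (i j l : Fin 3) (e : Fin 3 → k), g (Pi.single i 1) (Pi.single j 1)
      (Pi.single l 1) e = 0 := by
    intro i j l e
    obtain ⟨L, hL⟩ : ∃ L : (Fin 3 → k) →ₗ[k] (R ⧸ (J ^ 5)), ∀ e, L e = g (Pi.single i 1)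
        (Pi.single j 1) (Pi.single l 1) e :=
      ⟨(mkQ (J ^ 5)).comp ((LinearMap.mulLeft k (X (Pi.single i 1) * X (κ (Pi.single j 1)) *
        X (κ (κ (Pi.single l 1))))).comp (X.comp (κ.comp (κ.comp κ)))), fun e => by rw [hg]; rfl⟩
    rw [← hL]
    exact lin0 L (fun m => by rw [hL]; exact hbas i j l m) e
  have g2 : ∀ (i j : Fin 3) (d e : Fin 3 → k), g (Pi.single i 1) (Pi.single j 1) d e = 0 := by
    intro i j d e
    obtain ⟨L, hL⟩ : ∃ L : (Fin 3 → k) →ₗ[k] (R ⧸ (J ^ 5)), ∀ d, L d = g (Pi.single i 1)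
        (Pi.single j 1) d e :=
      ⟨(mkQ (J ^ 5)).comp ((LinearMap.mulRight k (X (κ (κ (κ e))))).comp
        ((LinearMap.mulLeft k (X (Pi.single i 1) * X (κ (Pi.single j 1)))).comp
          (X.comp (κ.comp κ)))), fun d => by rw [hg]; rfl⟩
    rw [← hL]
    exact lin0 L (fun m => by rw [hL]; exact g3 i j m e) d
  have g1 : ∀ (i : Fin 3) (b d e : Fin 3 → k), g (Pi.single i 1) b d e = 0 := by
    intro i b d e
    obtain ⟨L, hL⟩ : ∃ L : (Fin 3 → k) →ₗ[k] (R ⧸ (J ^ 5)), ∀ b, L b = g (Pi.single i 1)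
        b d e :=
      ⟨(mkQ (J ^ 5)).comp ((LinearMap.mulRight k (X (κ (κ (κ e))))).comp
        ((LinearMap.mulRight k (X (κ (κ d)))).comp
        ((LinearMap.mulLeft k (X (Pi.single i 1))).comp
          (X.comp κ)))), fun b => by rw [hg]; rfl⟩
    rw [← hL]
    exact lin0 L (fun m => by rw [hL]; exact g2 i m d e) b
  have g0 : ∀ (a b d e : Fin 3 → k), g a b d e = 0 := by
    intro a b d e
    obtain ⟨L, hL⟩ : ∃ L : (Fin 3 → k) →ₗ[k] (R ⧸ (J ^ 5)), ∀ a, L a = g a b d e :=
      ⟨(mkQ (J ^ 5)).comp ((LinearMap.mulRight k (X (κ (κ (κ e))))).comp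
        ((LinearMap.mulRight k (X (κ (κ d)))).comp
        ((LinearMap.mulRight k (X (κ b))).comp X))), fun b => by rw [hg]; rfl⟩
    rw [← hL]
    exact lin0 L (fun m => by rw [hL]; exact g1 m b d e) a
  have h5 : ∀ a b d e : Fin 3 → k, X a * X b * X d * X e ∈ J ^ 5 := by
    intro a b d e
    obtain ⟨b, rfl⟩ := hκ b
    obtain ⟨d, rfl⟩ := hκ d
    obtain ⟨d, rfl⟩ := hκ d
    obtain ⟨e, rfl⟩ := hκ e
    obtain ⟨e, rfl⟩ := hκ e
    obtain ⟨e, rfl⟩ := hκ e
    have := g0 a b d e
    rw [hg, Submodule.Quotient.mk_eq_zero] at this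
    exact this
  have h45 : J ^ 4 ≤ J ^ 5 := by
    intro z hz
    rw [show (J ^ 4 : Submodule k R) = J * J * J * J from by
      rw [pow_succ, pow_succ, pow_succ, pow_one]] at hz
    have hJ2 : J ^ 2 ≤ J := t.sl.pow_le 1
    induction hz using Submodule.mul_induction_on' with
    | mem_mul_mem z3 hz3 j4 hj4 =>
      obtain ⟨e, s4, hs4, rfl⟩ := expand t.gen hj4
      have hz3' : z3 ∈ J ^ 3 := by
        rw [pow_succ, pow_succ, pow_one]; exact hz3
      rw [mul_add]
      refine Submodule.add_mem _ ?_ (pm (i := 3) (j := 2) hz3' hs4)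
      clear hz3' hs4 hj4 s4
      induction hz3 using Submodule.mul_induction_on' with
      | mem_mul_mem z2 hz2 j3 hj3 =>
        obtain ⟨d, s3, hs3, rfl⟩ := expand t.gen hj3
        have hz2' : z2 ∈ J ^ 2 := by
          rw [pow_succ, pow_one]; exact hz2
        rw [mul_add, add_mul]
        refine Submodule.add_mem _ ?_ (pmr (pm (i := 2) (j := 2) hz2' hs3) (t.mem e))
        clear hz2' hs3 hj3 s3
        induction hz2 using Submodule.mul_induction_on' with
        | mem_mul_mem j1 hj1 j2 hj2 =>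
          obtain ⟨a, s1, hs1, rfl⟩ := expand t.gen hj1
          obtain ⟨b, s2, hs2, rfl⟩ := expand t.gen hj2
          have e1 : (X a + s1) * (X b + s2) * X d * X e = X a * X b * X d * X e +
              (s1 * (X b + s2) * X d * X e + X a * s2 * X d * X e) := by noncomm_ring
          rw [e1]
          refine Submodule.add_mem _ (h5 a b d e) (Submodule.add_mem _ ?_ ?_)
          · exact pmr (pmr (pmr hs1 (Submodule.add_mem _ (t.mem b) (hJ2 hs2))) (t.mem d)) (t.mem e)
          · exact pmr (pmr (pml (t.mem a) hs2) (t.mem d)) (t.mem e)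
        | add z1 _ z2 _ h1 h2 =>
          rw [add_mul, add_mul]; exact Submodule.add_mem _ h1 h2
      | add z1 _ z2 _ h1 h2 => rw [add_mul]; exact Submodule.add_mem _ h1 h2
    | add z1 _ z2 _ h1 h2 => exact Submodule.add_mem _ h1 h2
  have hall : ∀ i, J ^ 4 ≤ J ^ (4 + i) := by
    intro i
    induction i with
    | zero => exact le_rfl
    | succ i ih =>
      have h1 : J ^ (4 + (i + 1)) = J ^ (4 + i) * J := by rw [← pow_succ]; rfl
      rw [h1]
      refine h45.trans ?_
      rw [show (J ^ 5 : Submodule k R) = J ^ 4 * J from pow_succ _ _]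
      exact mul_le_mul' ih le_rfl
  apply t.J4
  rw [eq_bot_iff, ← t.eq]
  have := hall (n - 2)
  rwa [show 4 + (n - 2) = n + 2 by omega] at this

/-- the case of a common line is impossible -/
theorem beta_false (t : T3 c A J f X n) [Module.Finite k R] (hCVf : Module.finrank k (CV X) = 3)
    (hCV : CV X ⊓ J ^ 3 = ⊥)
    (V' : Submodule k (Fin 3 → k)) (hV' : Module.finrank k V' = 2) (s : R) (hsJ : s ∈ J ^ 2)
    (φ : (Fin 3 → k) → (Fin 3 → k) →ₗ[k] k)
    (hφ : ∀ u, ∀ v ∈ V', X u * X v - φ v u • s ∈ J ^ 3) : False := by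
  classical
  have hn := t.hn
  have hJ2 : J ^ 2 ≤ J := t.sl.pow_le 1
  -- a basis of `V'`
  obtain ⟨a, ha, b, hb, hind, hgen⟩ : ∃ a ∈ V', ∃ b ∈ V', (∀ p q : k, p • a + q • b = 0 →
      p = 0 ∧ q = 0) ∧ (∀ v ∈ V', ∃ p q : k, v = p • a + q • b) := by
    let B := Module.finBasisOfFinrankEq k V' hV'
    refine ⟨B 0, (B 0).2, B 1, (B 1).2, ?_, ?_⟩
    · intro p q h
      have h1 := B.linearIndependent
      rw [Fintype.linearIndependent_iff] at h1
      have h2 := h1 ![p, q] (by
        rw [Fin.sum_univ_two]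
        apply Subtype.ext
        simpa using h)
      exact ⟨by simpa using h2 0, by simpa using h2 1⟩
    · intro v hv
      refine ⟨B.repr ⟨v, hv⟩ 0, B.repr ⟨v, hv⟩ 1, ?_⟩
      have h1 := B.sum_repr ⟨v, hv⟩
      rw [Fin.sum_univ_two] at h1
      have h2 := congrArg Subtype.val h1
      simpa using h2.symm
  have ha0 : a ≠ 0 := by
    rintro rfl
    have := (hind 1 0 (by simp)).1
    exact one_ne_zero this
  have hb0 : b ≠ 0 := by
    rintro rfl
    have := (hind 0 1 (by simp)).2
    exact one_ne_zero this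
  -- a third vector
  obtain ⟨d, hd⟩ : ∃ d, d ∉ V' := by
    by_contra h
    push Not at h
    have : V' = ⊤ := by rw [eq_top_iff]; exact fun v _ => h v
    rw [this, finrank_top, Module.finrank_fin_fun] at hV'
    omega
  have hsp : ∀ v, ∃ p q r : k, v = p • a + q • b + r • d := by
    have h1 : Module.finrank k V' < Module.finrank k (span k {d} ⊔ V' : Submodule k (Fin 3 → k)) := by
      refine Submodule.finrank_lt_finrank_of_lt (lt_of_le_of_ne le_sup_right fun h0 => hd ?_)
      rw [h0]
      exact Submodule.mem_sup_left (mem_span_singleton_self d)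
    have h2 : span k {d} ⊔ V' = ⊤ := by
      refine Submodule.eq_of_le_of_finrank_le le_top ?_
      rw [finrank_top, Module.finrank_fin_fun]
      omega
    intro v
    have hv : v ∈ span k {d} ⊔ V' := by rw [h2]; trivial
    obtain ⟨y, hy, w, hw, e⟩ := Submodule.mem_sup.mp hv
    obtain ⟨r, rfl⟩ := mem_span_singleton.mp hy
    obtain ⟨p, q, rfl⟩ := hgen w hw
    exact ⟨p, q, r, by rw [← e, add_comm]⟩
  -- the commutator of `a`, `b`
  have hcomm : X a * X b - X b * X a ∉ J ^ 3 := by
    intro h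
    have h1 : X a * X b - X b * X a ∈ CV X ⊓ J ^ 3 := ⟨subset_span ⟨a, b, rfl⟩, h⟩
    rw [hCV, Submodule.mem_bot] at h1
    have h2 := CV_le' (X := X) hsp
    rw [h1, span_insert_zero] at h2
    have h3 := Submodule.finrank_mono h2
    have h4 := finrank_span_le_card (R := k) ({X a * X d - X d * X a, X b * X d - X d * X b} : Set R)
    have h5 : (({X a * X d - X d * X a, X b * X d - X d * X b} : Set R)).toFinset.card ≤ 2 := by
      rw [Set.toFinset_insert, Set.toFinset_singleton]
      exact Finset.card_le_two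
    omega
  -- `φ` does not vanish on `V'`
  have hφ0 : φ b a ≠ 0 ∨ φ a b ≠ 0 := by
    by_contra h
    push Not at h
    apply hcomm
    have h1 := hφ a b hb
    have h2 := hφ b a ha
    rw [h.1, zero_smul, sub_zero] at h1
    rw [h.2, zero_smul, sub_zero] at h2
    exact Submodule.sub_mem _ h1 h2
  -- products on the left
  have hN : ∀ v, (∀ u, X u * X v ∈ J ^ 3) → v = 0 := by
    intro v hv
    refine t.ind v (t.nd (t.mem v) (i := 1) (by omega) fun g hg => ?_)
    rw [pow_one] at hg
    obtain ⟨u, s1, hs1, rfl⟩ := expand t.gen hg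
    rw [add_mul]
    exact Submodule.add_mem _ (hv u) (pmr hs1 (t.mem v))
  have hass : ∀ u, ∀ v' ∈ V', ∀ u' ∈ V', φ v' u = 0 → φ u' v' ≠ 0 → X u * s ∈ J ^ 4 := by
    intro u v' hv' u' hu' h1 h2
    have m1 := pml (t.mem u) (hφ v' u' hu')
    have m2 := pmr (hφ u v' hv') (t.mem u')
    rw [h1, zero_smul, sub_zero] at m2
    have e : φ u' v' • (X u * s) = X u * X v' * X u' - X u * (X v' * X u' - φ u' v' • s) := by
      rw [mul_sub, mul_smul_comm, mul_assoc]; abel
    exact cancel_mem h2 (by rw [e]; exact Submodule.sub_mem _ m2 m1)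
  have key : ∀ v1 ∈ V', ∀ v2 ∈ V', (∀ r : k, v1 - r • v2 ≠ 0) → (∃ u1 ∈ V', φ u1 v1 ≠ 0) →
      (∃ u2 ∈ V', φ u2 v2 ≠ 0) → ∀ u, X u * s ∈ J ^ 4 := by
    rintro v1 hv1 v2 hv2 hne ⟨w1, hw1, h1⟩ ⟨w2, hw2, h2⟩
    have hex : ∃ u1, φ v2 u1 = 0 ∧ φ v1 u1 ≠ 0 := by
      by_contra hno
      push Not at hno
      -- proportional functionals
      obtain ⟨r, hr⟩ : ∃ r : k, ∀ u, φ v1 u = r * φ v2 u := by
        by_cases hz : ∀ u, φ v2 u = 0
        · exact ⟨0, fun u => by rw [hno u (hz u), zero_mul]⟩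
        push Not at hz
        obtain ⟨u0, hu0⟩ := hz
        refine ⟨φ v1 u0 / φ v2 u0, fun u => ?_⟩
        have h3 := hno (u - (φ v2 u / φ v2 u0) • u0) (by
          rw [map_sub, map_smul, smul_eq_mul, div_mul_cancel₀ _ hu0, sub_self])
        rw [map_sub, map_smul, smul_eq_mul, sub_eq_zero] at h3
        rw [h3]
        field_simp
      refine hne r (hN _ fun u => ?_)
      have m1 := hφ u v1 hv1
      have m2 := hφ u v2 hv2
      have e : X u * X (v1 - r • v2) = (X u * X v1 - φ v1 u • s) -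
          r • (X u * X v2 - φ v2 u • s) := by
        rw [hr u, map_sub, map_smul, mul_sub, mul_smul_comm, smul_sub, smul_smul]
        abel
      rw [e]
      exact Submodule.sub_mem _ m1 (Submodule.smul_mem _ _ m2)
    obtain ⟨u1, hu1, hu1'⟩ := hex
    intro u
    have m1 := hass (u - (φ v1 u / φ v1 u1) • u1) v1 hv1 w1 hw1 (by
      rw [map_sub, map_smul, smul_eq_mul, div_mul_cancel₀ _ hu1', sub_self]) h1
    have m2 := hass u1 v2 hv2 w2 hw2 hu1 h2
    have e : X u * s = X (u - (φ v1 u / φ v1 u1) • u1) * s +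
        (φ v1 u / φ v1 u1) • (X u1 * s) := by
      rw [map_sub, map_smul, sub_mul, smul_mul_assoc]; abel
    rw [e]
    exact Submodule.add_mem _ m1 (Submodule.smul_mem _ _ m2)
  have hfin : (∀ u, X u * s ∈ J ^ 4) → False := by
    intro h
    refine ha0 (t.ind a (t.nd (t.mem a) (i := 2) (by omega) fun g hg => ?_))
    have hJs : ∀ j ∈ J, j * s ∈ J ^ 4 := by
      intro j hj
      obtain ⟨u, s1, hs1, rfl⟩ := expand t.gen hj
      rw [add_mul]
      exact Submodule.add_mem _ (h u) (pm (i := 2) (j := 2) hs1 hsJ)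
    rw [pow_two] at hg
    induction hg using Submodule.mul_induction_on' with
    | mem_mul_mem j1 hj1 j2 hj2 =>
      obtain ⟨u, s2, hs2, rfl⟩ := expand t.gen hj2
      have m1 := pml hj1 (hφ u a ha)
      have m2 := pml hj1 (pmr hs2 (t.mem a))
      have e : j1 * (X u + s2) * X a = j1 * (X u * X a - φ a u • s) + j1 * (s2 * X a) +
          φ a u • (j1 * s) := by
        rw [mul_sub, mul_smul_comm]; noncomm_ring
      rw [e]
      exact Submodule.add_mem _ (Submodule.add_mem _ m1 m2) (Submodule.smul_mem _ _ (hJs j1 hj1))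
    | add z1 _ z2 _ h1 h2 => rw [add_mul]; exact Submodule.add_mem _ h1 h2
  have hab : a + b ∈ V' := V'.add_mem ha hb
  apply hfin
  rcases hφ0 with h | h
  · by_cases h1 : φ b b = 0
    · refine key a ha (a + b) hab (fun r hr => ?_) ⟨b, hb, h⟩ ⟨b, hb, by
        rw [map_add, h1, add_zero]; exact h⟩
      have := hind (1 - r) (-r) (by rw [← hr]; module)
      have h3 : r = 0 := by simpa using this.2
      rw [h3] at this
      simp at this
    · refine key a ha b hb (fun r hr => ?_) ⟨b, hb, h⟩ ⟨b, hb, h1⟩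
      have := hind 1 (-r) (by rw [← hr]; module)
      exact one_ne_zero this.1
  · by_cases h1 : φ a a = 0
    · refine key b hb (a + b) hab (fun r hr => ?_) ⟨a, ha, h⟩ ⟨a, ha, by
        rw [map_add, h1, zero_add]; exact h⟩
      have := hind (-r) (1 - r) (by rw [← hr]; module)
      have h3 : r = 0 := by simpa using this.1
      rw [h3] at this
      simp at this
    · refine key b hb a ha (fun r hr => ?_) ⟨a, ha, h⟩ ⟨a, ha, h1⟩
      have := hind (-r) 1 (by rw [← hr]; module)
      exact one_ne_zero this.2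

/-- **three generators, Loewy length at least five: impossible** -/
theorem impossible (t : T3 c A J f X n) [Module.Finite k R] [Infinite k] (hT : Twist k) :
    False := by
  classical
  have hn := t.hn
  obtain ⟨W, hW⟩ : ∃ W : Submodule k (R ⧸ (J ^ 3)), W = (J ^ 2).map (mkQ (J ^ 3)) := ⟨_, rfl⟩
  have hmem : ∀ a b, (Submodule.Quotient.mk (X a * X b) : R ⧸ (J ^ 3)) ∈ W := fun a b => by
    rw [hW]; exact ⟨_, pm2 (t.mem a) (t.mem b), rfl⟩
  obtain ⟨m, hm⟩ : ∃ m : (Fin 3 → k) →ₗ[k] (Fin 3 → k) →ₗ[k] W,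
      ∀ u v, ((m u v : W) : R ⧸ (J ^ 3)) = Submodule.Quotient.mk (X u * X v) := by
    refine ⟨LinearMap.mk₂ k (fun u v => ⟨Submodule.Quotient.mk (X u * X v), hmem u v⟩)
      ?_ ?_ ?_ ?_, fun u v => rfl⟩
    · intro u v w; apply Subtype.ext; simp only [map_add, add_mul]; rfl
    · intro r u v; apply Subtype.ext; simp only [map_smul, smul_mul_assoc]; rfl
    · intro u v w; apply Subtype.ext; simp only [map_add, mul_add]; rfl
    · intro r u v; apply Subtype.ext; simp only [map_smul, mul_smul_comm]; rfl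
  have hmz : ∀ u v, m u v = 0 → X u * X v ∈ J ^ 3 := by
    intro u v h
    have := congrArg Subtype.val h
    rw [hm] at this
    exact (Submodule.Quotient.mk_eq_zero _).mp this
  have hs : Submodule.span k {z | ∃ u v, z = m u v} = ⊤ := by
    rw [eq_top_iff]
    rintro ⟨w, hw⟩ _
    obtain ⟨P, hP⟩ : ∃ P : Submodule k W, P = Submodule.span k {z | ∃ u v, z = m u v} := ⟨_, rfl⟩
    rw [← hP]
    have h1 : CV X ≤ (P.map W.subtype).comap (mkQ (J ^ 3)) := by
      refine span_le.mpr ?_
      rintro z ⟨a, b, rfl⟩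
      rw [SetLike.mem_coe, Submodule.mem_comap]
      refine ⟨m a b - m b a, ?_, ?_⟩
      · rw [hP]
        exact Submodule.sub_mem _ (subset_span ⟨a, b, rfl⟩) (subset_span ⟨b, a, rfl⟩)
      · rw [map_sub, map_sub]
        exact congrArg₂ (· - ·) (hm a b) (hm b a)
    have h2 : J ^ 2 ≤ (P.map W.subtype).comap (mkQ (J ^ 3)) := by
      refine t.two'.trans (sup_le h1 fun z hz => ?_)
      rw [Submodule.mem_comap]
      have : (mkQ (J ^ 3)) z = 0 := (Submodule.Quotient.mk_eq_zero _).mpr hz
      rw [this]; exact Submodule.zero_mem _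
    rw [hW] at hw
    obtain ⟨z, hz, rfl⟩ := hw
    obtain ⟨p, hp, e⟩ := h2 hz
    have e2 : p = ⟨_, by rw [hW]; exact ⟨z, hz, rfl⟩⟩ := Subtype.ext e
    rw [← e2]; exact hp
  have hN : ∀ v, (∀ u, m u v = 0) → v = 0 := by
    intro v hv
    refine t.ind v (t.nd (t.mem v) (i := 1) (by omega) fun g hg => ?_)
    rw [pow_one] at hg
    obtain ⟨u, s1, hs1, rfl⟩ := expand t.gen hg
    rw [add_mul]
    exact Submodule.add_mem _ (hmz _ _ (hv u)) (pmr hs1 (t.mem v))
  have hsing : ∀ x, ¬ Function.Surjective (m x) := by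
    intro x hx
    refine t.regular_false hT (a0 := x) fun z hz => ?_
    obtain ⟨y, hy⟩ := hx ⟨Submodule.Quotient.mk z, by rw [hW]; exact ⟨z, hz, rfl⟩⟩
    refine ⟨X y, t.mem y, ?_⟩
    have := congrArg Subtype.val hy
    rw [hm] at this
    exact (Submodule.Quotient.eq _).mp this.symm
  have hV : Module.finrank k (Fin 3 → k) = 3 := Module.finrank_fin_fun k
  -- dimensions
  have hWd : Module.finrank k W + Module.finrank k (J ^ 3 : Submodule k R) =
      Module.finrank k (J ^ 2 : Submodule k R) := by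
    have h1 := LinearMap.finrank_range_add_finrank_ker ((mkQ (J ^ 3)).domRestrict (J ^ 2))
    rw [LinearMap.range_domRestrict, LinearMap.ker_domRestrict, ← hW] at h1
    rw [← h1]
    congr 1
    have h2 : (J ^ 3 : Submodule k R) ≤ J ^ 2 := t.sl.pow_anti (by norm_num) (by norm_num)
    rw [ker_mkQ]
    exact (LinearEquiv.finrank_eq (Submodule.comapSubtypeEquivOfLe h2)).symm
  have hCVf : Module.finrank k (CV X) ≤ 3 := finrank_CV
  have h4 := Submodule.finrank_sup_add_finrank_inf_eq (CV X) (J ^ 3)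
  rw [t.sup_eq] at h4
  have hW3 : Module.finrank k W = 3 := by
    by_contra hne
    obtain ⟨x, hx⟩ := small_target (by rw [hV]; norm_num) (by omega) m hs hN
    exact hsing x hx
  have hCV3 : Module.finrank k (CV X) = 3 := by omega
  have hCV0 : CV X ⊓ J ^ 3 = ⊥ := Submodule.finrank_eq_zero.mp (by omega)
  rcases Cfsg.Agent.H10.Sing.sing hV hW3 m hs hN hsing with ⟨s, V', hV', hline⟩ | ⟨κ, hκ, h0⟩
  · have hWle : W ≤ (J ^ 2).map (mkQ (J ^ 3)) := hW.le
    obtain ⟨s', hs', es⟩ := hWle s.2
    have hs0 : s ≠ 0 := by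
      rintro rfl
      have hV0 : V' ≠ ⊥ := by
        rintro rfl
        rw [finrank_bot] at hV'
        omega
      obtain ⟨v, hv, hv0⟩ := (Submodule.ne_bot_iff _).mp hV0
      refine hv0 (hN v fun u => ?_)
      have := hline u v hv
      rw [mem_span_singleton] at this
      obtain ⟨r, hr⟩ := this
      rw [← hr, smul_zero]
    obtain ⟨g, hg⟩ := LinearMap.exists_leftInverse_of_injective
      (LinearMap.toSpanSingleton k W s) (LinearMap.ker_toSpanSingleton k hs0)
    have hgs : ∀ r : k, g (r • s) = r := fun r => by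
      have := LinearMap.congr_fun hg r
      simpa using this
    refine t.beta_false hCV3 hCV0 V' hV' s' hs' (fun v => g.comp (m.flip v)) ?_
    intro u v hv
    have h1 := hline u v hv
    rw [mem_span_singleton] at h1
    obtain ⟨r, hr⟩ := h1
    have h2 : (g.comp (m.flip v)) u = r := by
      show g (m u v) = r
      rw [← hr, hgs]
    rw [h2]
    have h3 := congrArg Subtype.val hr
    rw [hm] at h3
    rw [← Submodule.Quotient.eq, ← h3, Submodule.Quotient.mk_smul]
    show r • (s : R ⧸ (J ^ 3)) = _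
    rw [← es]; rfl
  · exact t.gamma_false κ hκ.2 fun a => hmz _ _ (h0 a)

end T3

end Cfsg.Agent.H4
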