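import Cfsg.Agent.H4.TwoRank
import Cfsg.Agent.H4.SecBasis
import Cfsg.Agent.H4.Major2

/-!
# Major subsections of rank at most two (owner: helper4)
-/

set_option autoImplicit false
set_option linter.style.haveILetI false
set_option linter.unusedSectionVars false

namespace Cfsg.Agent.H4

open scoped ComplexConjugate BigOperators
open Cfsg Cfsg.Agent.CharBase Cfsg.Agent.Blk Cfsg.Agent.BlkInd Cfsg.Agent.BlkC

universe u

variable {G : Type u} [Group G] [Fintype G] {p : ℕ} [hp : Fact p.Prime] {M : Ideal AlgInt}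
variable {C : Subgroup G} [Fintype C] {B : Set (IrrCharacter G)}

/-- the three facts about valuations of a major subsection -/
theorem major_val (hM : IsPModular p M) (hB : IsPBlock M B) {x : G}
    (hx : ∃ k : ℕ, orderOf x = p ^ k)
    (hC : C = Subgroup.centralizer ({x} : Set G)) {e : Set (IrrCharacter C)}
    (hind : IsInducedBlock M C e B) (hd : blockDefect p e = blockDefect p B) :
    (∀ χ ∈ B, ∀ ψ ∈ B, blockHeight p B (ψ : G → ℂ) = 0 →
      (p : ℂ) ^ blockDefect p e * sc p x e (χ : G → ℂ) (ψ : G → ℂ) ≠ 0) ∧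
    (∀ χ ∈ B, ∀ ψ ∈ B, blockHeight p B (χ : G → ℂ) ≠ 0 →
      MemLocalIdeal M ((p : ℂ) ^ blockDefect p e * sc p x e (χ : G → ℂ) (ψ : G → ℂ))) ∧
    (∀ χ ∈ B, ∀ ψ ∈ B, blockHeight p B (χ : G → ℂ) = 0 → blockHeight p B (ψ : G → ℂ) = 0 →
      ¬ MemLocalIdeal M ((p : ℂ) ^ blockDefect p e * sc p x e (χ : G → ℂ) (ψ : G → ℂ))) := by
  haveI := isPrime_of_isPModular hM
  obtain ⟨k, hk⟩ := hx
  have hp0 : (p : ℂ) ≠ 0 := by exact_mod_cast hp.out.ne_zero
  obtain ⟨w, hw1, hw2, hw3⟩ := exists_val hM hB (j := k) ⟨k, Nat.le_succ k, hk⟩ hC hind hd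
  rw [hd]
  refine ⟨fun χ hχ ψ hψ h0 h => ?_, fun χ hχ ψ hψ h0 => ?_, fun χ hχ ψ hψ h0 h1 h => ?_⟩
  · rw [hw1 χ hχ ψ] at h
    rcases mul_eq_zero.mp h with h | h
    · exact pow_ne_zero _ hp0 h
    · exact (hw3 χ hχ ψ hψ).mp (by rw [h]; exact mli_zero) h0
  · rw [hw1 χ hχ ψ]
    refine mli_mul_right ?_ (mlr_of_isIntegral (isIntegral_of_mem_cycRing
      (pow_ne_zero _ hp.out.ne_zero) (hw2 χ hχ ψ)))
    obtain ⟨i, hi⟩ := Nat.exists_eq_succ_of_ne_zero h0
    rw [hi, pow_succ]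
    exact mli_mul_left (mlr_pow (mlr_natCast _) _) ((mli_natCast_iff hM p).mpr dvd_rfl)
  · rw [hw1 χ hχ ψ, h0, pow_zero, one_mul] at h
    exact (hw3 χ hχ ψ hψ).mp h h1

/-- **Blocks with a major subsection of rank at most two** have at most `p^d` characters. -/
theorem card_le_of_rank_le_two (hM : IsPModular p M) (hB : IsPBlock M B) {x : G}
    (hx : ∃ k : ℕ, orderOf x = p ^ k)
    (hC : C = Subgroup.centralizer ({x} : Set G)) {e : Set (IrrCharacter C)}
    (hind : IsInducedBlock M C e B) (hd : blockDefect p e = blockDefect p B)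
    (hl : blockRank p e ≤ 2) : (Bfin B).card ≤ p ^ blockDefect p B := by
  classical
  haveI := isPrime_of_isPModular hM
  obtain ⟨V1, V2, V3⟩ := major_val hM hB hx hC hind hd
  obtain ⟨ψ₀, hψ₀, h₀⟩ := exists_height_zero (p := p) hM hB
  obtain ⟨k, hk⟩ := hx
  obtain ⟨n, d, c, g, r, u, v, hn, hdmem, hcsum, hsc, hgc, hcs, hgs, hu, hv, huv⟩ :=
    exists_secBasis hM (j := k) ⟨k, Nat.le_succ k, hk⟩ hC hind
  have hpp : Prime (p : ℤ) := Nat.prime_iff_prime_int.mp hp.out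
  rw [← hd]
  rw [← hn] at hl
  rcases (show n = 0 ∨ n = 1 ∨ n = 2 by omega) with h | h | h
  · subst h
    exfalso
    apply V1 ψ₀ hψ₀ ψ₀ hψ₀ h₀
    rw [hsc]; simp
  · subst h
    have h1 : ((Bfin B).card : ℤ) ≤ c 0 0 := by
      have h2 := wcount hM (j := k) (Bfin B) (fun χ => d χ 0) (fun _ => 1)
        (fun χ _ => hdmem χ 0) (fun χ hχ => Or.inr (Or.inl ⟨?_, le_refl _⟩)) (hcsum 0 0)
      · rwa [Finset.sum_const, nsmul_one] at h2
      · intro h0
        apply V1 χ (mem_Bfin.mp hχ) ψ₀ hψ₀ h₀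
        rw [hsc, Fin.sum_univ_one, Fin.sum_univ_one, h0, zero_mul, mul_zero]
    have h3 : c 0 0 ∣ (p : ℤ) ^ blockDefect p e := by
      have := hgc 0 0
      rw [Fin.sum_univ_one, if_pos rfl] at this
      exact Dvd.intro_left _ this
    have h4 := Int.le_of_dvd (pow_pos (by exact_mod_cast hp.out.pos) _) h3
    exact_mod_cast h1.trans h4
  · subst h
    have hgc00 := hgc 0 0
    have hgc01 := hgc 0 1
    have hgc10 := hgc 1 0
    have hgc11 := hgc 1 1
    simp only [Fin.sum_univ_two, if_true] at hgc00 hgc11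
    rw [Fin.sum_univ_two, if_neg (by decide)] at hgc01 hgc10
    have D : Dat2 p k (Bfin B) (fun χ ψ : IrrCharacter G => (p : ℂ) ^ blockDefect p e *
        sc p x e (χ : G → ℂ) (ψ : G → ℂ)) ((p : ℤ) ^ blockDefect p e) (fun χ => d χ 0)
        (fun χ => d χ 1) (c 0 0) (c 0 1) (c 1 1) (g 0 0) (g 0 1) (g 1 1) :=
      { ha := fun χ => hdmem χ 0
        hb := fun χ => hdmem χ 1
        haa := hcsum 0 0
        hab := hcsum 0 1
        hba := by rw [hcsum 1 0, hcs 1 0]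
        hbb := hcsum 1 1
        hm := by
          intro χ ψ
          rw [hsc]
          simp only [Fin.sum_univ_two]
          rw [hgs 1 0]; ring
        h00 := by rw [← hgc00, hcs 1 0]
        h01 := hgc01
        h10 := by rw [← hgc10, hcs 1 0, hgs 1 0]
        h11 := by rw [← hgc11, hgs 1 0]
        hdet := by
          have e1 := huv 0 0
          have e2 := huv 0 1
          have e3 := huv 1 1
          obtain ⟨a1, ha1⟩ := e1
          obtain ⟨a2, ha2⟩ := e2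
          obtain ⟨a3, ha3⟩ := e3
          have h1 : (p : ℤ) ∣ (u * u) * (g 0 0 * g 1 1 - g 0 1 * g 0 1) := by
            refine ⟨a1 * (u * g 1 1) + a3 * (v * (r 0 * r 0)) - a2 * (u * g 0 1) -
              a2 * (v * (r 0 * r 1)), ?_⟩
            linear_combination (u * g 1 1) * ha1 + (v * (r 0 * r 0)) * ha3 -
              (u * g 0 1) * ha2 - (v * (r 0 * r 1)) * ha2
          rcases hpp.dvd_or_dvd h1 with h2 | h2
          · rcases hpp.dvd_or_dvd h2 with h3 | h3 <;> exact absurd h3 hu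
          · exact h2 }
    have hfin := D.bound hM rfl (fun χ : IrrCharacter G => blockHeight p B (χ : G → ℂ) = 0)
      (mem_Bfin.mpr hψ₀) h₀ (fun χ hχ ψ hψ hh => V1 χ (mem_Bfin.mp hχ) ψ (mem_Bfin.mp hψ) hh)
      (fun χ hχ ψ hψ hh => V2 χ (mem_Bfin.mp hχ) ψ (mem_Bfin.mp hψ) hh)
      (fun χ hχ ψ hψ hh hh' => V3 χ (mem_Bfin.mp hχ) ψ (mem_Bfin.mp hψ) hh hh')
    exact_mod_cast hfin

end Cfsg.Agent.H4
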