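import Cfsg.Agent.H4.FSFix
import Cfsg.Agent.H52.FS
import Cfsg.Agent.Char.MackeyTop
import Cfsg.Agent.Char.DefectZero
import Cfsg.Agent.S0887

/-!
# Real characters with indicator one above a `2`-defect zero character (owner: helper4)
-/

set_option autoImplicit false

namespace Cfsg.Agent.H4.RealPlus

open Cfsg Cfsg.Agent.CharBase Cfsg.Agent.Char
open scoped ComplexConjugate

universe u

variable {G : Type u} [Group G] [Fintype G] (N : Subgroup G) [hN : N.Normal] [Fintype N]

theorem exists_plus (h2 : IsPGroup 2 (G ⧸ N)) (φ : IrrCharacter N)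
    (hdef : 2 ^ (Nat.card N).factorization 2 ∣ charDegree (φ : N → ℂ))
    (hconj : ∃ g : G, cj N g (φ : N → ℂ) = fun n => conj ((φ : N → ℂ) n)) :
    ∃ χ : IrrCharacter G, Cfsg.Agent.H52.fsi (χ : G → ℂ) = 1 ∧
      classInner (fun n : N => (χ : G → ℂ) n) (φ : N → ℂ) = 1 := by
  classical
  have : Fintype (IrrCharacter G) := Fintype.ofFinite _
  obtain ⟨P⟩ : Nonempty (Sylow 2 G) := inferInstance
  have : Fintype (P : Subgroup G) := Fintype.ofFinite _
  have : Fintype ((P : Subgroup G).subgroupOf N) := Fintype.ofFinite _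
  obtain ⟨k, hk⟩ := (IsPGroup.iff_card.mp h2)
  have hindex : N.index = 2 ^ k := by rw [← hk]; rfl
  have hsup : (P : Subgroup G) ⊔ N = ⊤ := by
    rw [← Subgroup.index_eq_one]
    have h3 : ((P : Subgroup G) ⊔ N).index ∣ 2 ^ k := by
      rw [← hindex]; exact Subgroup.index_dvd_of_le le_sup_right
    obtain ⟨j, -, hj⟩ := (Nat.dvd_prime_pow Nat.prime_two).mp h3
    have h4 : ((P : Subgroup G) ⊔ N).index ∣ (P : Subgroup G).index := Subgroup.index_dvd_of_le le_sup_left
    rw [hj] at h4 ⊢
    rcases Nat.eq_zero_or_pos j with h5 | h5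
    · rw [h5]; rfl
    · exact absurd ((dvd_pow_self 2 h5.ne').trans h4) P.not_dvd_index
  -- the permutation character
  have hone : IsCharacter (P : Subgroup G) (fun _ => (1 : ℂ)) := by
    exact isCharacter_one
  set π : G → ℂ := indFun (P : Subgroup G) (fun _ => (1 : ℂ)) with hπ
  have hπc : IsClassFunction G π := indFun_isClassFunction _ _
  have hπN : (fun n : N => π n) = indFun ((P : Subgroup G).subgroupOf N) (fun _ => (1 : ℂ)) :=
    MT.indFun_restrict_of_sup hsup (fun _ _ => rfl)
  -- multiplicities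
  have ha : ∀ χ : IrrCharacter G, ∃ a : ℕ, classInner π (χ : G → ℂ) = a := fun χ =>
    classInner_natCast (indFun_isCharacter _ _ hone) (irr_isCharacter χ)
  choose a ha using ha
  have he : ∀ χ : IrrCharacter G, ∃ e : ℕ, classInner (fun n : N => (χ : G → ℂ) n) (φ : N → ℂ) = e := fun χ =>
    classInner_natCast (isCharacter_restrict (irr_isCharacter χ) N) (irr_isCharacter φ)
  choose e he using he
  have hsum : classInner (fun n : N => π n) (φ : N → ℂ) = ((∑ χ : IrrCharacter G, a χ * e χ : ℕ) : ℂ) := by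
    have h3 : (fun n : N => π n) = ∑ χ : IrrCharacter G, (a χ : ℂ) • (fun n : N => (χ : G → ℂ) n) := by
      funext n
      have h4 := classFun_apply_eq_sum hπc (n : G)
      rw [h4, Finset.sum_apply]
      refine Finset.sum_congr rfl fun χ _ => ?_
      rw [ha χ]; rfl
    rw [h3, CharBase.classInner_sum_left]
    push_cast
    refine Finset.sum_congr rfl fun χ _ => ?_
    rw [CharBase.classInner_smul_left, he χ]
  -- the number is odd
  set d := charDegree (φ : N → ℂ) with hd
  have hφ1 : (φ : N → ℂ) 1 = d := BlkC.charDegree_spec φ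
  set v := (Nat.card N).factorization 2 with hv
  have hcardN : Nat.card N ≠ 0 := Nat.card_pos.ne'
  have hnot : ¬ 2 ^ (v + 1) ∣ Nat.card N := by
    rw [hv]; exact Nat.pow_succ_factorization_not_dvd hcardN Nat.prime_two
  have hQ2 : IsPGroup 2 ((P : Subgroup G).subgroupOf N) := by
    exact IsPGroup.comap_subtype P.isPGroup'
  have hval : ∀ s : (P : Subgroup G).subgroupOf N, (φ : N → ℂ) s = if s = 1 then (d : ℂ) else 0 := by
    intro s
    split_ifs with hs
    · rw [hs]; exact hφ1
    · refine DZ.eq_zero_of_defect_zero 2 v Nat.prime_two hnot φ.2 hφ1 hdef (s : N) ?_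
      obtain ⟨j, hj⟩ := hQ2 s
      have h3 : orderOf (s : N) ∣ 2 ^ j := by
        apply orderOf_dvd_of_pow_eq_one
        have := congrArg (Subtype.val) hj
        simpa using this
      obtain ⟨i, -, hi⟩ := (Nat.dvd_prime_pow Nat.prime_two).mp h3
      rw [hi]
      rcases Nat.eq_zero_or_pos i with h5 | h5
      · exfalso
        rw [h5, pow_zero, orderOf_eq_one_iff] at hi
        exact hs (Subtype.ext hi)
      · exact dvd_pow_self 2 h5.ne'
  have hcardQ : Nat.card ((P : Subgroup G).subgroupOf N) = 2 ^ v := by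
    have h3 : Nat.card ((P : Subgroup G).subgroupOf N) = Nat.card (N.subgroupOf (P : Subgroup G)) := by
      exact Nat.card_congr ⟨fun x => ⟨⟨(x : N), x.2⟩, (x : N).2⟩, fun x => ⟨⟨(x : (P : Subgroup G)), x.2⟩, (x : (P : Subgroup G)).2⟩,
        fun _ => rfl, fun _ => rfl⟩
    have h4 : (N.subgroupOf (P : Subgroup G)).index = 2 ^ k := by
      have h5 := Subgroup.relIndex_sup_right (P : Subgroup G) N
      rw [hsup, Subgroup.relIndex_top_right, hindex] at h5
      exact h5.symm
    have h5 := (N.subgroupOf (P : Subgroup G)).card_mul_index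
    rw [h4, ← h3, P.card_eq_multiplicity] at h5
    have h6 := N.card_mul_index
    rw [hindex] at h6
    rw [← h6, Nat.factorization_mul hcardN (by positivity), Finsupp.add_apply, ← hv,
      Nat.prime_two.factorization_pow, Finsupp.single_eq_same, pow_add] at h5
    exact Nat.eq_of_mul_eq_mul_right (by positivity) h5
  obtain ⟨m, hm⟩ := hdef
  have hmodd : Odd m := by
    rw [← Nat.not_even_iff_odd]
    rintro ⟨t, ht⟩
    apply hnot
    have h3 := BlkC.charDegree_dvd_card φ
    rw [← hd, hm, ht, ← two_mul, ← mul_assoc, ← pow_succ] at h3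
    exact (dvd_mul_right _ _).trans h3
  have hodd : ∑ χ : IrrCharacter G, a χ * e χ = m := by
    have h3 : classInner (fun n : N => π n) (φ : N → ℂ) = m := by
      rw [hπN, frobenius_reciprocity _ _ _ (irr_isClassFunction φ)]
      unfold classInner
      have h4 : ∀ s : (P : Subgroup G).subgroupOf N, (1 : ℂ) * conj ((φ : N → ℂ) s) = if s = 1 then (d : ℂ) else 0 := by
        intro s
        rw [hval s, one_mul]
        split_ifs
        · exact Complex.conj_natCast _
        · exact map_zero _
      rw [Finset.sum_congr rfl fun s _ => h4 s, Finset.sum_ite_eq' Finset.univ (1 : (P : Subgroup G).subgroupOf N),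
        if_pos (Finset.mem_univ _), hcardQ, hm]
      push_cast
      rw [← mul_assoc, inv_mul_cancel₀ (pow_ne_zero _ two_ne_zero), one_mul]
    rw [hsum] at h3
    exact_mod_cast h3
  -- complex conjugation
  obtain ⟨g, hg⟩ := hconj
  let σ : IrrCharacter G → IrrCharacter G := fun χ => ⟨fun x => conj ((χ : G → ℂ) x), isIrrCharacter_conj χ.2⟩
  have hσσ : ∀ χ, σ (σ χ) = χ := by
    intro χ
    apply Subtype.ext
    funext x
    exact Complex.conj_conj _
  have haσ : ∀ χ, a (σ χ) = a χ := by
    intro χ
    have h3 : classInner π (σ χ : G → ℂ) = classInner π (χ : G → ℂ) := by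
      rw [hπ, frobenius_reciprocity _ _ _ (irr_isClassFunction _), frobenius_reciprocity _ _ _ (irr_isClassFunction _)]
      have h4 : classInner (fun _ : (P : Subgroup G) => (1 : ℂ)) (fun h : (P : Subgroup G) => ((σ χ : IrrCharacter G) : G → ℂ) h)
          = conj (classInner (fun _ : (P : Subgroup G) => (1 : ℂ)) (fun h : (P : Subgroup G) => (χ : G → ℂ) h)) := by
        simp only [classInner, map_mul, map_inv₀, map_sum, Complex.conj_natCast, map_one]
        rfl
      rw [h4]
      obtain ⟨b, hb⟩ := classInner_natCast hone (isCharacter_restrict (irr_isCharacter χ) (P : Subgroup G))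
      rw [hb, Complex.conj_natCast]
    rw [ha, ha] at h3
    exact_mod_cast h3
  have heσ : ∀ χ, e (σ χ) = e χ := by
    intro χ
    have h3 : classInner (fun n : N => ((σ χ : IrrCharacter G) : G → ℂ) n) (φ : N → ℂ) =
        classInner (fun n : N => (χ : G → ℂ) n) (φ : N → ℂ) := by
      have h4 : classInner (fun n : N => ((σ χ : IrrCharacter G) : G → ℂ) n) (φ : N → ℂ) =
          conj (classInner (fun n : N => (χ : G → ℂ) n) (cj N g (φ : N → ℂ))) := by
        rw [hg]
        simp only [classInner, map_mul, map_inv₀, map_sum, Complex.conj_natCast, Complex.conj_conj]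
        rfl
      rw [h4, classInner_restrict_cj N (irr_isClassFunction χ), he, Complex.conj_natCast]
    rw [he, he] at h3
    exact_mod_cast h3
  obtain ⟨χ, hχσ, hχodd⟩ : ∃ χ : IrrCharacter G, σ χ = χ ∧ Odd (a χ * e χ) := by
    by_contra hcon
    push Not at hcon
    have h3 : ∑ χ : IrrCharacter G, ((a χ * e χ : ℕ) : ZMod 2) = 0 := by
      refine Finset.sum_involution (fun χ _ => σ χ) ?_ ?_ (fun _ _ => Finset.mem_univ _) (fun χ _ => hσσ χ)
      · intro χ _
        rw [haσ, heσ]
        exact CharTwo.add_self_eq_zero _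
      · intro χ _ hne heq
        have h4 := hcon χ heq
        apply hne
        rw [Nat.not_odd_iff_even] at h4
        exact (ZMod.natCast_eq_zero_iff_even).2 h4
    rw [← Nat.cast_sum, hodd, ZMod.natCast_eq_zero_iff_even] at h3
    exact (Nat.not_even_iff_odd.2 hmodd) h3
  rw [Nat.odd_mul] at hχodd
  have hreal : ∀ x, ((χ : G → ℂ) x).im = 0 := by
    intro x
    have h3 := congrFun (congrArg Subtype.val hχσ) x
    exact Complex.conj_eq_iff_im.1 h3
  refine ⟨χ, ?_, ?_⟩
  · refine FSFix.indicator_eq_one χ.2 hreal (P : Subgroup G) (a χ) hχodd.1 ?_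
    have h3 := ha χ
    rw [hπ, frobenius_reciprocity _ _ _ (irr_isClassFunction _)] at h3
    rw [← h3]
    unfold classInner
    congr 1
    refine Finset.sum_congr rfl fun x _ => ?_
    rw [one_mul]
    exact (Complex.conj_eq_iff_im.2 (hreal x)).symm
  · have h0 : classInner (fun n : N => (χ : G → ℂ) n) (φ : N → ℂ) ≠ 0 := by
      rw [he]; exact_mod_cast hχodd.2.pos.ne'
    have h3 := clifford_degree N χ.2 φ.2 h0
    have h4 := S0887.result N (χ : G → ℂ) χ.2 (φ : N → ℂ) φ.2 h0 _ _ (BlkC.charDegree_spec χ) hφ1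
    have h5 : charDegree (χ : G → ℂ) = e χ * ((inertia N (φ : N → ℂ)).index * d) := by
      rw [he, BlkC.charDegree_spec χ, hφ1] at h3
      exact_mod_cast h3
    have hdpos : 0 < d := BlkC.charDegree_pos φ
    have h6 : e χ ∣ 2 ^ k := by
      rw [← hindex]
      refine dvd_trans ?_ h4.2
      rw [h5, ← mul_assoc, Nat.mul_div_cancel _ hdpos]
      exact dvd_mul_right _ _
    obtain ⟨i, -, hi⟩ := (Nat.dvd_prime_pow Nat.prime_two).mp h6
    rcases Nat.eq_zero_or_pos i with h7 | h7
    · rw [he, hi, h7]; simp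
    · exfalso
      have h8 := hχodd.2
      rw [hi] at h8
      exact (Nat.not_even_iff_odd.2 h8) ((even_two.pow_of_ne_zero h7.ne'))

end Cfsg.Agent.H4.RealPlus
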