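import Cfsg.Agent.H4.LocalBlk
import Cfsg.Agent.H4.AbelLoc
import Cfsg.Agent.H4.MajorEx
import Cfsg.Agent.H4.TwoBlk

/-!
# Blocks with few characters (owner: helper4)
-/

set_option autoImplicit false
set_option linter.unusedSectionVars false
set_option linter.style.haveILetI false

namespace Cfsg.Agent.H4

open scoped ComplexConjugate
open Cfsg Cfsg.Agent.CharBase Cfsg.Agent.Blk Cfsg.Agent.BlkInd Cfsg.Agent.BlkC Cfsg.Agent.BlkF

universe u

variable {G : Type u} [Group G] [Fintype G] {p : ℕ} [hp : Fact p.Prime] {M : Ideal AlgInt}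
  {B : Set (IrrCharacter G)}

theorem blockRank_lt_card (hM : IsPModular p M) (hB : IsPBlock M B) {D : Subgroup G}
    (hD : IsDefectGroup p M B D) (hD1 : D ≠ ⊥) : blockRank p B < Nat.card B := by
  classical
  haveI := isPrime_of_isPModular hM
  have hDp := isPGroup_of_isDefectGroup hD
  haveI : Nontrivial D := (Subgroup.nontrivial_iff_ne_bot D).mpr hD1
  haveI : Nontrivial (Subgroup.center D) := hDp.center_nontrivial
  obtain ⟨z, hz⟩ := exists_ne (1 : Subgroup.center D)
  have hz1 : ((z : D) : G) ≠ 1 := fun h => hz (Subtype.ext (Subtype.ext h))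
  have hzc : ∀ d ∈ D, d * ((z : D) : G) = (z : D) * d := fun d hd =>
    congrArg Subtype.val (Subgroup.mem_center_iff.mp z.2 ⟨d, hd⟩)
  obtain ⟨b, hb, -⟩ := exists_major hM hB hD (z : D).2 hzc
  have hzp : ∃ k : ℕ, orderOf ((z : D) : G) = p ^ k := by
    obtain ⟨k, hk⟩ := (IsPGroup.iff_orderOf.mp hDp) (z : D)
    exact ⟨k, by rw [← hk, Subgroup.orderOf_coe]⟩
  obtain ⟨X, hX, hzX⟩ := exists_isNTRep_mem hzp hz1
  rw [card_eq_add_sum hM hB hX]
  have h1 : 0 < blockRank p b := by
    haveI := Fintype.ofFinite (Subgroup.centralizer ({((z : D) : G)} : Set G))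
    exact blockRank_pos hM hb.1
  have h2 : blockRank p b ≤ ∑ b ∈ indB M (Subgroup.centralizer ({((z : D) : G)} : Set G)) B,
      blockRank p b :=
    Finset.single_le_sum (f := fun b => blockRank p b) (fun _ _ => Nat.zero_le _)
      (mem_indB.mpr hb)
  have h3 := Finset.single_le_sum (f := fun x =>
    ∑ b ∈ indB M (Subgroup.centralizer ({x} : Set G)) B, blockRank p b)
    (fun _ _ => Nat.zero_le _) hzX
  omega

/-- **S4607** -/
theorem two_iff (hM : IsPModular p M) (hB : IsPBlock M B) {D : Subgroup G}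
    (hD : IsDefectGroup p M B D) : Nat.card B = 2 ↔ Nat.card D = 2 := by
  classical
  haveI := isPrime_of_isPModular hM
  have hcard := card_defectGroup hM hB hD
  constructor
  · intro hk
    have hD1 : D ≠ ⊥ := by
      rintro rfl
      rw [Subgroup.card_bot] at hcard
      have h0 : blockDefect p B = 0 := by
        by_contra h
        have := Nat.one_lt_pow h hp.out.one_lt
        omega
      have := card_eq_one_of_defect_eq_zero hM hB h0
      omega
    have hl : blockRank p B = 1 := by
      have h1 := blockRank_lt_card hM hB hD hD1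
      have h2 := blockRank_pos hM hB
      omega
    rw [hcard, card_eq_pow_of_rank_one hM hB hl (by omega), hk]
  · intro h2
    rw [hcard] at h2
    have hp2 : p = 2 := by
      have h0 : blockDefect p B ≠ 0 := by
        intro h0
        rw [h0, pow_zero] at h2
        omega
      have h1 : p ∣ 2 := by
        rw [← h2]; exact dvd_pow_self p h0
      exact (Nat.prime_dvd_prime_iff_eq hp.out Nat.prime_two).mp h1
    subst hp2
    have hd : blockDefect 2 B = 1 := by
      have : 2 ^ blockDefect 2 B = 2 ^ 1 := by rw [h2]; norm_num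
      exact Nat.pow_right_injective (le_refl 2) this
    exact (block_two hM hB hd).1

theorem klein_of_not_cyclic {D : Type*} [Group D] (h4 : Nat.card D = 4) (hc : ¬ IsCyclic D) :
    IsKleinFour D := by
  haveI : Finite D := Nat.finite_of_card_ne_zero (by omega)
  have h1 : ∀ x : D, x ^ 2 = 1 := by
    intro x
    have h2 : orderOf x ∣ 2 ^ 2 := by
      have := orderOf_dvd_natCard x
      rw [h4] at this
      exact this
    obtain ⟨k, hk, hx⟩ := (Nat.dvd_prime_pow Nat.prime_two).mp h2
    have h3 : k ≠ 2 := by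
      rintro rfl
      exact hc (isCyclic_of_orderOf_eq_card x (by rw [hx, h4]; norm_num))
    rw [← orderOf_dvd_iff_pow_eq_one, hx]
    have : k ≤ 1 := by omega
    exact (pow_dvd_pow 2 this).trans (by norm_num)
  refine ⟨h4, ?_⟩
  have h2 : Monoid.exponent D ∣ 2 := Monoid.exponent_dvd_of_forall_pow_eq_one h1
  rcases (Nat.dvd_prime Nat.prime_two).mp h2 with h3 | h3
  · exfalso
    have h5 : Subsingleton D := Monoid.exp_eq_one_iff.mp h3
    have h6 : Nat.card D ≤ 1 := Finite.card_le_one_iff_subsingleton.mpr h5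
    omega
  · exact h3

/-- **S4648** -/
theorem small_rank_one (hM : IsPModular p M) (hB : IsPBlock M B) {D : Subgroup G}
    (hD : IsDefectGroup p M B D) (hD1 : D ≠ ⊥) (hl : blockRank p B = 1) (hk : Nat.card B ≤ 4)
    (hcyc : IsCyclic D → IsNilpotentBlock p M B) :
    IsNilpotentBlock p M B ∧ Nat.card D = Nat.card B ∧ (p = 2 ∨ p = 3) := by
  classical
  haveI := isPrime_of_isPModular hM
  haveI := charP_kM hM
  have hcard := card_defectGroup hM hB hD
  have hpow := card_eq_pow_of_rank_one hM hB hl hk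
  have hd0 : blockDefect p B ≠ 0 := by
    intro h0
    rw [h0, pow_zero] at hcard
    exact hD1 (Subgroup.card_eq_one.mp hcard)
  have hp4 : p ≤ 4 := (Nat.le_self_pow hd0 p).trans (by omega)
  have hp23 : p = 2 ∨ p = 3 := by
    have h1 := hp.out.two_le
    have h2 : p ≠ 4 := by
      rintro rfl
      exact absurd hp.out (by norm_num)
    omega
  refine ⟨?_, by rw [hcard, hpow], hp23⟩
  by_cases hc : IsCyclic D
  · exact hcyc hc
  have h4 : Nat.card D = 4 := by
    have h1 : Nat.card D ≤ 4 := by rw [hcard, hpow]; exact hk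
    have h2 : Nat.card D ≠ 0 := Nat.card_pos.ne'
    have h3 : Nat.card D ≠ 1 := fun h => hD1 (Subgroup.card_eq_one.mp h)
    have h5 : Nat.card D ≠ 2 := fun h => hc (by
      haveI : Fact (Nat.Prime 2) := ⟨Nat.prime_two⟩
      exact isCyclic_of_prime_card h)
    have h6 : Nat.card D ≠ 3 := fun h => hc (by
      haveI : Fact (Nat.Prime 3) := ⟨Nat.prime_three⟩
      exact isCyclic_of_prime_card h)
    omega
  have hV := klein_of_not_cyclic h4 hc
  have hp2 : p = 2 := by
    rcases hp23 with h | h
    · exact h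
    · exfalso
      subst h
      rw [h4] at hcard
      have h1 : (3 : ℕ) ∣ 4 := by rw [hcard]; exact dvd_pow_self 3 hd0
      omega
  subst hp2
  haveI : ∀ x : G, Fintype (Subgroup.centralizer ({x} : Set G)) := fun x => Fintype.ofFinite _
  have hab : ∀ x ∈ D, ∀ y ∈ D, x * y = y * x := by
    have hexp : ∀ y ∈ D, y * y = 1 := fun y hy =>
      congrArg Subtype.val (IsKleinFour.mul_self (⟨y, hy⟩ : D))
    intro x hx y hy
    have h1 := hexp _ (D.mul_mem hx hy)
    have h2 := hexp x hx
    have h3 := hexp y hy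
    calc x * y = x * (x * y * (x * y)) * y := by rw [h1, mul_one]
      _ = (x * x) * (y * x) * (y * y) := by simp only [mul_assoc]
      _ = y * x := by rw [h2, h3, one_mul, mul_one]
  obtain ⟨c, hcB⟩ := exists_root hM hB hD
  obtain ⟨hpair, hmax, -⟩ := comm_setup hM hD hab hcB
  set T := stab (Subgroup.normalizer (D : Set G)) (EB M _ c) with hT
  have hTm : ∀ g : G, g ∈ T ↔ (g ∈ Subgroup.normalizer (D : Set G) ∧
      StabilizesBlock (Subgroup.centralizer (D : Set G)) c g) := by
    intro g
    rw [hT, mem_stab]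
    constructor
    · rintro ⟨h1, h2⟩
      exact ⟨h1, (stabilizesBlock_iff hcB.1 g).mpr
        ⟨normalizer_le_normalizer_centralizer D h1, h2⟩⟩
    · rintro ⟨h1, h2⟩
      exact ⟨h1, ((stabilizesBlock_iff hcB.1 g).mp h2).2⟩
  have h1 := (klein_defect hM hB hD hV hcB hTm).2.2
  rw [hl] at h1
  have h2 : T ≤ Subgroup.centralizer (D : Set G) := Subgroup.relIndex_eq_one.mp h1.symm
  rw [BlkF.isNilpotentBlock_iff hM, and_iff_right hB,
    BlkF.mnilp_iff_of_comm hmax hpair hab (fun K f hf => BlkF.splitBlk hf)]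
  exact fun x hx => h2 hx

end Cfsg.Agent.H4
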