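import Cfsg.Agent.H4.Cyc2

/-!
# Counting rows of rank two matrices with small Gram determinant (owner: helper4)
-/

set_option autoImplicit false
set_option linter.style.haveILetI false
set_option linter.unusedSectionVars false

namespace Cfsg.Agent.H4

open scoped ComplexConjugate BigOperators
open Cfsg Cfsg.Agent.CharBase Cfsg.Agent.Blk Cfsg.Agent.BlkInd Cfsg.Agent.BlkC

variable {p : ℕ} [hp : Fact p.Prime] {j : ℕ} {M : Ideal AlgInt}

theorem isIntegral_of_mem_cycRing {n : ℕ} (hn : n ≠ 0) {z : ℂ} (hz : z ∈ cycRing n) :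
    IsIntegral ℤ z := by
  have h : cycRing n ≤ (integralClosure ℤ ℂ).toSubring := by
    unfold cycRing
    rw [Subring.closure_le]
    intro ζ hζ
    exact IsIntegral.of_pow (Nat.pos_of_ne_zero hn) (by rw [hζ]; exact isIntegral_one)
  exact h hz

/-- **weighted counting**: units count once, nonzero elements of the prime ideal count twice -/
theorem wcount (hM : IsPModular p M) {κ : Type*} (S : Finset κ) (d : κ → ℂ) (w : κ → ℤ)
    (hd : ∀ x ∈ S, d x ∈ cycRing (p ^ (j + 1)))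
    (hw : ∀ x ∈ S, w x ≤ 0 ∨ (d x ≠ 0 ∧ w x ≤ 1) ∨ (d x ≠ 0 ∧ MemLocalIdeal M (d x) ∧ w x ≤ 2))
    {c : ℤ} (hc : ∑ x ∈ S, d x * conj (d x) = c) : ∑ x ∈ S, w x ≤ c := by
  classical
  have h5 : (0 : ℤ) < 2 * ((p : ℤ) - 1) := by
    have := hp.out.two_le
    omega
  have h1 : ∀ x, ∃ m : ℤ, x ∈ S → 2 * Tr (p ^ (j + 1)) (d x * conj (d x)) =
      (p : ℂ) ^ j * (m : ℂ) ∧ w x * (2 * ((p : ℤ) - 1)) ≤ m := by
    intro x
    by_cases hx : x ∈ S
    · obtain ⟨m, hm, hm0, hm1, hm2⟩ := exists_sq_ge hM (hd x hx)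
      refine ⟨m, fun _ => ⟨hm, ?_⟩⟩
      rcases hw x hx with h | ⟨h, h'⟩ | ⟨h, h', h''⟩
      · nlinarith
      · have := hm1 h
        nlinarith
      · have := hm2 h h'
        nlinarith
    · exact ⟨0, fun h => absurd h hx⟩
  choose m hm using h1
  have h2 : 2 * ((p : ℂ) ^ j * ((p : ℂ) - 1) * c) = (p : ℂ) ^ j * ((∑ x ∈ S, m x : ℤ) : ℂ) := by
    rw [← Tr_int (p := p) (j := j) c, ← hc, Tr_sum, Finset.mul_sum]
    push_cast
    rw [Finset.mul_sum]
    exact Finset.sum_congr rfl fun x hx => (hm x hx).1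
  have hp0 : (p : ℂ) ^ j ≠ 0 := pow_ne_zero _ (by exact_mod_cast hp.out.ne_zero)
  have h3 : 2 * (((p : ℤ) - 1) * c) = ∑ x ∈ S, m x := by
    have h4 : (p : ℂ) ^ j * (2 * (((p : ℂ) - 1) * c)) =
        (p : ℂ) ^ j * ((∑ x ∈ S, m x : ℤ) : ℂ) := by rw [← h2]; ring
    have h5 := mul_left_cancel₀ hp0 h4
    exact_mod_cast h5
  have h4 : (∑ x ∈ S, w x) * (2 * ((p : ℤ) - 1)) ≤ ∑ x ∈ S, m x := by
    rw [Finset.sum_mul]
    exact Finset.sum_le_sum fun x hx => (hm x hx).2
  rw [← h3] at h4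
  have h6 : (∑ x ∈ S, w x) * (2 * ((p : ℤ) - 1)) ≤ c * (2 * ((p : ℤ) - 1)) := by linarith
  exact le_of_mul_le_mul_right h6 h5

variable {κ : Type*}

/-- data of rank two -/
structure Dat2 (p j : ℕ) (B : Finset κ) (m : κ → κ → ℂ) (P : ℤ) (a b : κ → ℂ)
    (A E C g0 g1 g2 : ℤ) : Prop where
  ha : ∀ χ, a χ ∈ cycRing (p ^ (j + 1))
  hb : ∀ χ, b χ ∈ cycRing (p ^ (j + 1))
  haa : ∑ χ ∈ B, a χ * conj (a χ) = A
  hab : ∑ χ ∈ B, a χ * conj (b χ) = E
  hba : ∑ χ ∈ B, b χ * conj (a χ) = E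
  hbb : ∑ χ ∈ B, b χ * conj (b χ) = C
  hm : ∀ χ ψ, m χ ψ = g0 * (a χ * conj (a ψ)) + g1 * (a χ * conj (b ψ) + b χ * conj (a ψ)) +
    g2 * (b χ * conj (b ψ))
  h00 : g0 * A + g1 * E = P
  h01 : g0 * E + g1 * C = 0
  h10 : g1 * A + g2 * E = 0
  h11 : g1 * E + g2 * C = P
  hdet : (p : ℤ) ∣ g0 * g2 - g1 * g1

namespace Dat2

variable {B : Finset κ} {m : κ → κ → ℂ} {P : ℤ} {a b : κ → ℂ} {A E C g0 g1 g2 : ℤ}

theorem swap (D : Dat2 p j B m P a b A E C g0 g1 g2) : Dat2 p j B m P b a C E A g2 g1 g0 where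
  ha := D.hb
  hb := D.ha
  haa := D.hbb
  hab := D.hba
  hba := D.hab
  hbb := D.haa
  hm χ ψ := by rw [D.hm]; ring
  h00 := by rw [← D.h11]; ring
  h01 := by rw [← D.h10]; ring
  h10 := by rw [← D.h01]; ring
  h11 := by rw [← D.h00]; ring
  hdet := by have := D.hdet; rwa [mul_comm g2 g0]

theorem neg (D : Dat2 p j B m P a b A E C g0 g1 g2) :
    Dat2 p j B m P a (fun χ => -b χ) A (-E) C g0 (-g1) g2 where
  ha := D.ha
  hb χ := Subring.neg_mem _ (D.hb χ)
  haa := D.haa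
  hab := by
    push_cast
    rw [← D.hab, ← Finset.sum_neg_distrib]
    exact Finset.sum_congr rfl fun χ _ => by rw [map_neg]; ring
  hba := by
    push_cast
    rw [← D.hba, ← Finset.sum_neg_distrib]
    exact Finset.sum_congr rfl fun χ _ => by ring
  hbb := by
    rw [← D.hbb]
    exact Finset.sum_congr rfl fun χ _ => by rw [map_neg]; ring
  hm χ ψ := by rw [D.hm, map_neg]; push_cast; ring
  h00 := by rw [← D.h00]; ring
  h01 := by have := D.h01; linarith
  h10 := by have := D.h10; linarith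
  h11 := by rw [← D.h11]; ring
  hdet := by have := D.hdet; rwa [neg_mul_neg]

theorem shift (D : Dat2 p j B m P a b A E C g0 g1 g2) (ε : ℤ) :
    Dat2 p j B m P (fun χ => a χ + ε * b χ) b (A + 2 * ε * E + ε * ε * C) (E + ε * C) C g0
      (g1 - ε * g0) (g2 - 2 * ε * g1 + ε * ε * g0) where
  ha χ := Subring.add_mem _ (D.ha χ) (Subring.mul_mem _ (intCast_mem _ _) (D.hb χ))
  hb := D.hb
  haa := by
    push_cast
    have h1 : ∀ χ ∈ B, (a χ + ε * b χ) * conj (a χ + ε * b χ) = a χ * conj (a χ) +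
        ε * (a χ * conj (b χ)) + ε * (b χ * conj (a χ)) + ε * ε * (b χ * conj (b χ)) := by
      intro χ _
      rw [map_add, map_mul, map_intCast]; ring
    rw [Finset.sum_congr rfl h1, Finset.sum_add_distrib, Finset.sum_add_distrib,
      Finset.sum_add_distrib, ← Finset.mul_sum, ← Finset.mul_sum, ← Finset.mul_sum, D.haa, D.hab,
      D.hba, D.hbb]
    ring
  hab := by
    push_cast
    have h1 : ∀ χ ∈ B, (a χ + ε * b χ) * conj (b χ) = a χ * conj (b χ) +
        ε * (b χ * conj (b χ)) := by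
      intro χ _
      ring
    rw [Finset.sum_congr rfl h1, Finset.sum_add_distrib, ← Finset.mul_sum, D.hab, D.hbb]
  hba := by
    push_cast
    have h1 : ∀ χ ∈ B, b χ * conj (a χ + ε * b χ) = b χ * conj (a χ) +
        ε * (b χ * conj (b χ)) := by
      intro χ _
      rw [map_add, map_mul, map_intCast]; ring
    rw [Finset.sum_congr rfl h1, Finset.sum_add_distrib, ← Finset.mul_sum, D.hba, D.hbb]
  hbb := D.hbb
  hm χ ψ := by rw [D.hm, map_add, map_mul, map_intCast]; push_cast; ring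
  h00 := by rw [← D.h00]; linear_combination ε * D.h01
  h01 := by linear_combination D.h01
  h10 := by linear_combination D.h10 + ε * D.h11 - ε * D.h00 - ε * ε * D.h01
  h11 := by rw [← D.h11]; linear_combination (-ε) * D.h01
  hdet := by
    have := D.hdet
    have h : g0 * (g2 - 2 * ε * g1 + ε * ε * g0) - (g1 - ε * g0) * (g1 - ε * g0) =
        g0 * g2 - g1 * g1 := by ring
    rwa [h]

theorem sq_sum_nonneg {f : κ → ℂ} {c : ℤ} (h : ∑ χ ∈ B, f χ * conj (f χ) = c) : 0 ≤ c := by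
  have h1 : ((∑ χ ∈ B, Complex.normSq (f χ) : ℝ) : ℂ) = ((c : ℝ) : ℂ) := by
    push_cast
    rw [← h]
    exact Finset.sum_congr rfl fun χ _ => (Complex.mul_conj _).symm
  have h2 : (∑ χ ∈ B, Complex.normSq (f χ)) = (c : ℝ) := by exact_mod_cast h1
  have h3 : (0 : ℝ) ≤ (c : ℝ) := by
    rw [← h2]; exact Finset.sum_nonneg fun χ _ => Complex.normSq_nonneg _
  exact_mod_cast h3

theorem sq_sum_eq_zero {f : κ → ℂ} (h : ∑ χ ∈ B, f χ * conj (f χ) = ((0 : ℤ) : ℂ)) :
    ∀ χ ∈ B, f χ = 0 := by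
  have h1 : ((∑ χ ∈ B, Complex.normSq (f χ) : ℝ) : ℂ) = (((0 : ℤ) : ℝ) : ℂ) := by
    push_cast at h ⊢
    rw [← h]
    exact Finset.sum_congr rfl fun χ _ => (Complex.mul_conj _).symm
  have h2 : (∑ χ ∈ B, Complex.normSq (f χ)) = 0 := by exact_mod_cast h1
  rw [Finset.sum_eq_zero_iff_of_nonneg fun χ _ => Complex.normSq_nonneg _] at h2
  exact fun χ hχ => Complex.normSq_eq_zero.mp (h2 χ hχ)

theorem A_pos (D : Dat2 p j B m P a b A E C g0 g1 g2) (hP : 0 < P) : 0 < A := by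
  rcases (sq_sum_nonneg D.haa).lt_or_eq with h | h
  · exact h
  · exfalso
    have h1 := sq_sum_eq_zero (B := B) (f := a) (by rw [D.haa, ← h])
    have h2 : (E : ℂ) = 0 := by
      rw [← D.hab]; exact Finset.sum_eq_zero fun χ hχ => by rw [h1 χ hχ, zero_mul]
    have h3 : E = 0 := by exact_mod_cast h2
    have h4 := D.h00
    rw [← h, h3, mul_zero, mul_zero, add_zero] at h4
    omega

theorem C_pos (D : Dat2 p j B m P a b A E C g0 g1 g2) (hP : 0 < P) : 0 < C := D.swap.A_pos hP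

theorem det_eq0 (D : Dat2 p j B m P a b A E C g0 g1 g2) : g0 * (A * C - E * E) = P * C := by
  linear_combination C * D.h00 - E * D.h01

theorem det_eq2 (D : Dat2 p j B m P a b A E C g0 g1 g2) : g2 * (A * C - E * E) = P * A := by
  linear_combination A * D.h11 - E * D.h10

theorem det_eq1 (D : Dat2 p j B m P a b A E C g0 g1 g2) : g1 * (A * C - E * E) = -(P * E) := by
  linear_combination -E * D.h00 + A * D.h01

theorem det_pos (D : Dat2 p j B m P a b A E C g0 g1 g2) (hP : 0 < P) : 0 < A * C - E * E := by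
  have hC := D.C_pos hP
  have h1 : 0 ≤ C * (A * C - E * E) := by
    refine sq_sum_nonneg (B := B) (f := fun χ => C * a χ - E * b χ) ?_
    have h2 : ∀ χ ∈ B, (C * a χ - E * b χ) * conj (C * a χ - E * b χ) =
        C * C * (a χ * conj (a χ)) - C * E * (a χ * conj (b χ)) - C * E * (b χ * conj (a χ)) +
          E * E * (b χ * conj (b χ)) := by
      intro χ _
      rw [map_sub, map_mul, map_mul, map_intCast, map_intCast]; ring
    rw [Finset.sum_congr rfl h2, Finset.sum_add_distrib, Finset.sum_sub_distrib,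
      Finset.sum_sub_distrib, ← Finset.mul_sum, ← Finset.mul_sum, ← Finset.mul_sum,
      ← Finset.mul_sum, D.haa, D.hab, D.hba, D.hbb]
    push_cast; ring
  have h2 : 0 ≤ A * C - E * E := nonneg_of_mul_nonneg_right h1 hC
  rcases h2.lt_or_eq with h | h
  · exact h
  · exfalso
    have h3 := D.det_eq0
    rw [← h, mul_zero] at h3
    have h4 : 0 < P * C := mul_pos hP hC
    omega

/-- reduction -/
theorem exists_reduced (D : Dat2 p j B m P a b A E C g0 g1 g2) (hP : 0 < P) :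
    ∃ (a b : κ → ℂ) (A E C g0 g1 g2 : ℤ), Dat2 p j B m P a b A E C g0 g1 g2 ∧ 0 ≤ E ∧
      2 * E ≤ A ∧ A ≤ C := by
  classical
  have hex : ∃ n : ℕ, ∃ (a b : κ → ℂ) (A E C g0 g1 g2 : ℤ),
      Dat2 p j B m P a b A E C g0 g1 g2 ∧ A + C = n := by
    refine ⟨(A + C).toNat, a, b, A, E, C, g0, g1, g2, D, ?_⟩
    have := D.A_pos hP
    have := D.C_pos hP
    omega
  obtain ⟨a, b, A, E, C, g0, g1, g2, D, hn⟩ := Nat.find_spec hex
  have hmin : ∀ (a' b' : κ → ℂ) (A' E' C' g0' g1' g2' : ℤ),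
      Dat2 p j B m P a' b' A' E' C' g0' g1' g2' → A + C ≤ A' + C' := by
    intro a' b' A' E' C' g0' g1' g2' D'
    have h1 := D'.A_pos hP
    have h2 := D'.C_pos hP
    have h3 := Nat.find_min' hex (m := (A' + C').toNat)
      ⟨a', b', A', E', C', g0', g1', g2', D', by omega⟩
    omega
  have e1 := hmin _ _ _ _ _ _ _ _ (D.shift 1)
  have e2 := hmin _ _ _ _ _ _ _ _ (D.shift (-1))
  have e3 := hmin _ _ _ _ _ _ _ _ (D.swap.shift 1)
  have e4 := hmin _ _ _ _ _ _ _ _ (D.swap.shift (-1))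
  rcases le_total 0 E with hE | hE
  · rcases le_total A C with hAC | hAC
    · exact ⟨a, b, A, E, C, g0, g1, g2, D, hE, by linarith, hAC⟩
    · exact ⟨b, a, C, E, A, g2, g1, g0, D.swap, hE, by linarith, hAC⟩
  · rcases le_total A C with hAC | hAC
    · exact ⟨_, _, A, -E, C, _, _, _, D.neg, by linarith, by linarith, hAC⟩
    · exact ⟨_, _, C, -E, A, _, _, _, D.swap.neg, by linarith, by linarith, hAC⟩

set_option maxHeartbeats 1000000 in
/-- **the bound for rank two** -/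
theorem bound (hM : IsPModular p M) (D : Dat2 p j B m P a b A E C g0 g1 g2) {q : ℕ}
    (hP : P = (p : ℤ) ^ q) (ht : κ → Prop) {ψ₀ : κ} (hψ₀ : ψ₀ ∈ B) (ht₀ : ht ψ₀)
    (V1 : ∀ χ ∈ B, ∀ ψ ∈ B, ht ψ → m χ ψ ≠ 0)
    (V2 : ∀ χ ∈ B, ∀ ψ ∈ B, ¬ ht χ → MemLocalIdeal M (m χ ψ))
    (V3 : ∀ χ ∈ B, ∀ ψ ∈ B, ht χ → ht ψ → ¬ MemLocalIdeal M (m χ ψ)) : (B.card : ℤ) ≤ P := by
  classical
  haveI := isPrime_of_isPModular hM
  have hPpos : 0 < P := by
    rw [hP]; exact pow_pos (by exact_mod_cast hp.out.pos) _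
  obtain ⟨a, b, A, E, C, g0, g1, g2, D, hE0, hEA, hAC⟩ := D.exists_reduced hPpos
  have hA := D.A_pos hPpos
  have hC := D.C_pos hPpos
  have hΔ := D.det_pos hPpos
  have hcyc : ∀ {z : ℂ}, z ∈ cycRing (p ^ (j + 1)) → MemLocalRing M z := by
    intro z hz
    exact mlr_of_isIntegral (isIntegral_of_mem_cycRing (pow_ne_zero _ hp.out.ne_zero) hz)
  -- the gcd
  set γ : ℤ := (Int.gcd (Int.gcd A E) C : ℤ) with hγ
  have hγA : γ ∣ A := (Int.gcd_dvd_left ..).trans (Int.gcd_dvd_left ..)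
  have hγE : γ ∣ E := (Int.gcd_dvd_left ..).trans (Int.gcd_dvd_right ..)
  have hγC : γ ∣ C := Int.gcd_dvd_right ..
  have hγ0 : 0 < γ := by
    have h1 : γ ≠ 0 := by
      intro h
      rw [h, zero_dvd_iff] at hγA
      omega
    have h2 : 0 ≤ γ := by rw [hγ]; positivity
    omega
  obtain ⟨A', hA'⟩ := hγA
  obtain ⟨E', hE'⟩ := hγE
  obtain ⟨C', hC'⟩ := hγC
  obtain ⟨x, y, z, hxyz⟩ : ∃ x y z : ℤ, x * A' + y * E' + z * C' = 1 := by
    have h1 := Int.gcd_eq_gcd_ab A E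
    have h2 := Int.gcd_eq_gcd_ab (Int.gcd A E) C
    rw [h1] at h2
    refine ⟨A.gcdA E * (A * A.gcdA E + E * A.gcdB E).gcdA C,
      A.gcdB E * (A * A.gcdA E + E * A.gcdB E).gcdA C, (A * A.gcdA E + E * A.gcdB E).gcdB C, ?_⟩
    apply mul_left_cancel₀ hγ0.ne'
    rw [← h1] at h2 ⊢
    rw [← hγ] at h2
    have h3 : (Int.gcd A E : ℤ) = A * A.gcdA E + E * A.gcdB E := h1
    set s := (Int.gcdA (↑(Int.gcd A E)) C)
    set t := (Int.gcdB (↑(Int.gcd A E)) C)
    rw [mul_one]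
    conv_rhs => rw [h2, h3]
    rw [hA', hE', hC']
    ring
  set n : ℤ := A' * C' - E' * E' with hn
  have hΔn : A * C - E * E = γ * γ * n := by rw [hA', hE', hC', hn]; ring
  have hn0 : 0 < n := by
    rw [hΔn] at hΔ
    exact (mul_pos_iff_of_pos_left (mul_pos hγ0 hγ0)).mp hΔ
  have hγn : γ * n ≠ 0 := (mul_pos hγ0 hn0).ne'
  have e0 : g0 * (γ * n) = P * C' := by
    have h1 := D.det_eq0
    rw [hΔn, hC'] at h1
    apply mul_left_cancel₀ hγ0.ne'
    linear_combination h1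
  have e1 : g1 * (γ * n) = -(P * E') := by
    have h1 := D.det_eq1
    rw [hΔn, hE'] at h1
    apply mul_left_cancel₀ hγ0.ne'
    linear_combination h1
  have e2 : g2 * (γ * n) = P * A' := by
    have h1 := D.det_eq2
    rw [hΔn, hA'] at h1
    apply mul_left_cancel₀ hγ0.ne'
    linear_combination h1
  set t : ℤ := x * g2 - y * g1 + z * g0 with htdef
  have hPt : P = γ * n * t := by
    rw [htdef]
    linear_combination (-P) * hxyz - x * e2 + y * e1 - z * e0
  have f0 : g0 = t * C' := by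
    apply mul_right_cancel₀ hγn
    rw [e0, hPt]; ring
  have f1 : g1 = -(t * E') := by
    apply mul_right_cancel₀ hγn
    rw [e1, hPt]; ring
  have f2 : g2 = t * A' := by
    apply mul_right_cancel₀ hγn
    rw [e2, hPt]; ring
  have htpos : 0 < t := by
    have h1 : 0 < γ * n * t := by rw [← hPt]; exact hPpos
    exact (mul_pos_iff_of_pos_left (mul_pos hγ0 hn0)).mp h1
  have htp : ¬ (p : ℤ) ∣ t := by
    intro h
    apply V3 ψ₀ hψ₀ ψ₀ hψ₀ ht₀ ht₀
    rw [D.hm, f0, f1, f2]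
    have h1 : ((t * C' : ℤ) : ℂ) * (a ψ₀ * conj (a ψ₀)) + ((-(t * E') : ℤ) : ℂ) *
        (a ψ₀ * conj (b ψ₀) + b ψ₀ * conj (a ψ₀)) + ((t * A' : ℤ) : ℂ) * (b ψ₀ * conj (b ψ₀)) =
        (t : ℂ) * ((C' : ℂ) * (a ψ₀ * conj (a ψ₀)) - (E' : ℂ) *
        (a ψ₀ * conj (b ψ₀) + b ψ₀ * conj (a ψ₀)) + (A' : ℂ) * (b ψ₀ * conj (b ψ₀))) := by
      push_cast; ring
    rw [h1]
    refine mli_mul_right ((mli_intCast_iff hM t).mpr h) (hcyc ?_)
    have hca := cycRing_conj_mem (D.ha ψ₀)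
    have hcb := cycRing_conj_mem (D.hb ψ₀)
    have hha := D.ha ψ₀
    have hhb := D.hb ψ₀
    refine Subring.add_mem _ (Subring.sub_mem _ (Subring.mul_mem _ (intCast_mem _ _) (Subring.mul_mem _ hha hca))
      (Subring.mul_mem _ (intCast_mem _ _) (Subring.add_mem _ (Subring.mul_mem _ hha hcb)
        (Subring.mul_mem _ hhb hca)))) (Subring.mul_mem _ (intCast_mem _ _) (Subring.mul_mem _ hhb hcb))
  have ht1 : t = 1 := by
    have h1 : t ∣ (p : ℤ) ^ q := by rw [← hP, hPt]; exact Dvd.intro_left _ rfl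
    have h2 : t.natAbs ∣ p ^ q := by
      have := Int.natAbs_dvd_natAbs.mpr h1
      rwa [Int.natAbs_pow, Int.natAbs_natCast] at this
    obtain ⟨k, -, hk⟩ := (Nat.dvd_prime_pow hp.out).mp h2
    rcases Nat.eq_zero_or_pos k with h0 | h0
    · rw [h0, pow_zero] at hk
      omega
    · exfalso
      apply htp
      have h3 : p ∣ t.natAbs := by rw [hk]; exact dvd_pow_self p h0.ne'
      exact Int.natCast_dvd.mpr h3
  rw [ht1, one_mul] at f0 f1 f2
  rw [ht1, mul_one] at hPt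
  have hpn : (p : ℤ) ∣ n := by
    have := D.hdet
    rw [f0, f1, f2] at this
    have h1 : C' * A' - -E' * -E' = n := by rw [hn]; ring
    rwa [h1] at this
  have hn2 : 2 ≤ n := by
    have h1 := Int.le_of_dvd hn0 hpn
    have h2 : (2 : ℤ) ≤ p := by exact_mod_cast hp.out.two_le
    linarith
  have hA'0 : 0 < A' := by
    rw [hA'] at hA
    exact (mul_pos_iff_of_pos_left hγ0).mp hA
  have hE'0 : 0 ≤ E' := by
    rw [hE'] at hE0
    exact nonneg_of_mul_nonneg_right hE0 hγ0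
  have hEA' : 2 * E' ≤ A' := by
    have h1 : γ * (2 * E') ≤ γ * A' := by rw [← hA']; linarith
    exact le_of_mul_le_mul_left h1 hγ0
  have hAC' : A' ≤ C' := by
    have h1 : γ * A' ≤ γ * C' := by rw [← hA', ← hC']; exact hAC
    exact le_of_mul_le_mul_left h1 hγ0
  rcases (show A' = 1 ∨ 2 ≤ A' by omega) with hA1 | hA2
  · -- diagonal case
    have hE'z : E' = 0 := by omega
    have hnC : n = C' := by rw [hn, hA1, hE'z]; ring
    have hm : ∀ χ ψ, m χ ψ = (n : ℂ) * (a χ * conj (a ψ)) + b χ * conj (b ψ) := by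
      intro χ ψ
      rw [D.hm, f0, f1, f2, hA1, hE'z, hnC]
      push_cast; ring
    have hnM : ∀ z : ℂ, z ∈ cycRing (p ^ (j + 1)) → MemLocalIdeal M ((n : ℂ) * z) := fun z hz =>
      mli_mul_right ((mli_intCast_iff hM n).mpr hpn) (hcyc hz)
    have hbM : ∀ χ ∈ B, ht χ → ¬ MemLocalIdeal M (b χ) ∧ ¬ MemLocalIdeal M (conj (b χ)) := by
      intro χ hχ hh
      have h1 := V3 χ hχ χ hχ hh hh
      rw [hm] at h1
      have h2 := hnM _ (Subring.mul_mem _ (D.ha χ) (cycRing_conj_mem (D.ha χ)))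
      constructor
      · intro h3
        exact h1 (mli_add h2 (mli_mul_right h3 (hcyc (cycRing_conj_mem (D.hb χ)))))
      · intro h3
        exact h1 (mli_add h2 (mli_mul_left (hcyc (D.hb χ)) h3))
    have hb0 : ∀ χ ∈ B, ht χ → b χ ≠ 0 := by
      intro χ hχ hh h0
      apply (hbM χ hχ hh).1
      rw [h0]; exact mli_zero
    have hbM' : ∀ χ ∈ B, ¬ ht χ → MemLocalIdeal M (b χ) := by
      intro χ hχ hh
      have h1 := V2 χ hχ ψ₀ hψ₀ hh
      rw [hm] at h1
      have h2 := hnM _ (Subring.mul_mem _ (D.ha χ) (cycRing_conj_mem (D.ha ψ₀)))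
      have h3 : MemLocalIdeal M (b χ * conj (b ψ₀)) := by
        have h4 : b χ * conj (b ψ₀) = ((n : ℂ) * (a χ * conj (a ψ₀)) + b χ * conj (b ψ₀)) -
            (n : ℂ) * (a χ * conj (a ψ₀)) := by ring
        rw [h4]; exact mli_sub h1 h2
      rcases mli_or_of_mul (hcyc (D.hb χ)) (hcyc (cycRing_conj_mem (D.hb ψ₀))) h3 with h | h
      · exact h
      · exact absurd h (hbM ψ₀ hψ₀ ht₀).2
    set w : κ → ℤ := fun χ => if ht χ then 1 else if b χ = 0 then 0 else 2 with hw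
    have hwsum : ∑ χ ∈ B, w χ ≤ C := by
      refine wcount hM B b w (fun χ _ => D.hb χ) (fun χ hχ => ?_) D.hbb
      by_cases h1 : ht χ
      · refine Or.inr (Or.inl ⟨hb0 χ hχ h1, ?_⟩)
        simp only [hw, if_pos h1, le_refl]
      · by_cases h2 : b χ = 0
        · left; simp only [hw, if_neg h1, if_pos h2, le_refl]
        · refine Or.inr (Or.inr ⟨h2, hbM' χ hχ h1, ?_⟩)
          simp only [hw, if_neg h1, if_neg h2, le_refl]
    have hCP : C = P := by rw [hC', hPt, hnC]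
    rw [hCP] at hwsum
    by_cases hall : ∀ χ ∈ B, b χ ≠ 0
    · have h1 : (B.card : ℤ) ≤ ∑ χ ∈ B, w χ := by
        rw [← nsmul_one, ← Finset.sum_const]
        refine Finset.sum_le_sum fun χ hχ => ?_
        simp only [hw]
        rw [if_neg (hall χ hχ)]
        split_ifs <;> norm_num
      exact h1.trans hwsum
    · push Not at hall
      obtain ⟨χ₂, hχ₂, hb2⟩ := hall
      have ha1 : ∀ ψ ∈ B, ht ψ → a ψ ≠ 0 := by
        intro ψ hψ hh h0
        have h1 := V1 χ₂ hχ₂ ψ hψ hh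
        rw [hm, hb2, h0] at h1
        simp at h1
      have ha2 : ∀ χ ∈ B, b χ = 0 → a χ ≠ 0 := by
        intro χ hχ hb h0
        have h1 := V1 χ hχ ψ₀ hψ₀ ht₀
        rw [hm, hb, h0] at h1
        simp at h1
      set w' : κ → ℤ := fun χ => if ht χ then 1 else if b χ = 0 then 1 else 0 with hw'
      have hwsum' : ∑ χ ∈ B, w' χ ≤ A := by
        refine wcount hM B a w' (fun χ _ => D.ha χ) (fun χ hχ => ?_) D.haa
        by_cases h1 : ht χ
        · refine Or.inr (Or.inl ⟨ha1 χ hχ h1, ?_⟩)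
          simp only [hw', if_pos h1, le_refl]
        · by_cases h2 : b χ = 0
          · refine Or.inr (Or.inl ⟨ha2 χ hχ h2, ?_⟩)
            simp only [hw', if_neg h1, if_pos h2, le_refl]
          · left; simp only [hw', if_neg h1, if_neg h2, le_refl]
      have h1 : 2 * (B.card : ℤ) ≤ ∑ χ ∈ B, w χ + 2 * ∑ χ ∈ B, w' χ := by
        rw [Finset.mul_sum, ← Finset.sum_add_distrib]
        have h2 : 2 * (B.card : ℤ) = ∑ _χ ∈ B, (2 : ℤ) := by
          rw [Finset.sum_const, nsmul_eq_mul, mul_comm]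
        rw [h2]
        refine Finset.sum_le_sum fun χ _ => ?_
        simp only [hw, hw']
        split_ifs <;> norm_num
      have hAγ : A = γ := by rw [hA', hA1, mul_one]
      have h3 : 2 * γ ≤ P := by rw [hPt]; nlinarith
      rw [hAγ] at hwsum'
      linarith
  · -- the generic case
    have hineq : A' - E' + C' ≤ n := by
      have h1 : (A' - 1) * (A' - 1) ≤ (A' - 1) * (C' - 1) :=
        mul_le_mul_of_nonneg_left (by omega) (by omega)
      have h2 : E' * (E' - 1) ≤ (A' - 1) * (A' - 2) := by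
        rcases hE'0.lt_or_eq with h | h
        · exact mul_le_mul (by omega) (by omega) (by omega) (by omega)
        · rw [← h, zero_mul]
          exact mul_nonneg (by omega) (by omega)
      rw [hn]
      linarith
    set Q : Fin 2 → Fin 2 → ℤ := ![![1, -1], ![0, 1]] with hQ
    set d : κ → Fin 2 → ℂ := fun χ => ![a χ, b χ] with hd
    have hle := card_le_form (p := p) (j := j) (q := Q) (fun v hv => ?_) B d (fun χ _ i => ?_)
      (fun χ hχ => ?_) (c := A - E + C) ?_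
    · calc (B.card : ℤ) ≤ A - E + C := hle
        _ = γ * (A' - E' + C') := by rw [hA', hE', hC']; ring
        _ ≤ γ * n := mul_le_mul_of_nonneg_left hineq hγ0.le
        _ = P := hPt.symm
    · have h1 : qf Q v = v 0 * v 0 - v 0 * v 1 + v 1 * v 1 := by
        simp [qf, hQ, Fin.sum_univ_two]; ring
      rw [h1]
      by_contra hcon
      push Not at hcon
      have h2 : v 0 * v 0 - v 0 * v 1 + v 1 * v 1 ≤ 0 := by omega
      have h3 : v 0 = 0 := by
        have h5 : (v 0 - 2 * v 1) ^ 2 = 4 * (v 0 * v 0 - v 0 * v 1 + v 1 * v 1) - 3 * (v 0 * v 0) := by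
          ring
        have h6 := sq_nonneg (v 0 - 2 * v 1)
        have h7 := mul_self_nonneg (v 0)
        exact mul_self_eq_zero.mp (by linarith)
      have h4 : v 1 = 0 := by
        rw [h3] at h2
        have h7 := mul_self_nonneg (v 1)
        exact mul_self_eq_zero.mp (by linarith)
      apply hv
      funext i
      fin_cases i
      · exact h3
      · exact h4
    · fin_cases i
      · exact D.ha χ
      · exact D.hb χ
    · intro h
      have h1 := V1 χ hχ ψ₀ hψ₀ ht₀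
      have h2 : a χ = 0 := congrFun h 0
      have h3 : b χ = 0 := congrFun h 1
      rw [D.hm, h2, h3] at h1
      simp at h1
    · have h1 : ∀ χ ∈ B, ∑ i, ∑ k, (Q i k : ℂ) * (d χ i * conj (d χ k)) =
          a χ * conj (a χ) - a χ * conj (b χ) + b χ * conj (b χ) := by
        intro χ _
        simp [hQ, hd, Fin.sum_univ_two]
        ring
      rw [Finset.sum_congr rfl h1, Finset.sum_add_distrib, Finset.sum_sub_distrib, D.haa, D.hab,
        D.hbb]
      push_cast; ring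

end Dat2

end Cfsg.Agent.H4
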