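import Cfsg.Agent.Frob.Action
import Cfsg.Agent.H11.Act
import Cfsg.Agent.H69.Basic
import Cfsg.Agent.Transfer.Residual

/-!
# Groups acting semiregularly outside a fixed subgroup of an abelian group (owner: helper4)
-/

set_option autoImplicit false
set_option linter.style.haveILetI false
set_option linter.unusedSectionVars false

namespace Cfsg.Agent.H4.TwoSize

open Subgroup Cfsg.Agent

section act

variable {X : Type*} [CommGroup X] [Finite X]

instance instFiniteMulAut' : Finite (MulAut X) :=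
  Finite.of_injective (fun e : MulAut X => (e : X → X)) DFunLike.coe_injective

/-- the norm -/
noncomputable def nu (K : Subgroup (MulAut X)) : X →* X :=
  haveI := Fintype.ofFinite K
  { toFun := fun x => ∏ k : K, (k : MulAut X) x
    map_one' := by simp
    map_mul' := by intro a b; simp [Finset.prod_mul_distrib] }

theorem nu_apply (K : Subgroup (MulAut X)) [inst : Fintype K] (x : X) :
    nu K x = ∏ k : K, (k : MulAut X) x := by
  have : Fintype.ofFinite K = inst := Subsingleton.elim _ _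
  rw [nu, ← this]
  rfl

theorem nu_smul {K : Subgroup (MulAut X)} {k : MulAut X} (hk : k ∈ K) (x : X) :
    nu K (k x) = nu K x := by
  haveI := Fintype.ofFinite K
  rw [nu_apply, nu_apply]
  refine Fintype.prod_equiv (Equiv.mulRight (⟨k, hk⟩ : K)) _ _ fun k' => ?_
  rfl

theorem nu_comm {K : Subgroup (MulAut X)} {α : MulAut X} (hα : ∀ k ∈ K, α * k * α⁻¹ ∈ K) (x : X) :
    nu K (α x) = α (nu K x) := by
  haveI := Fintype.ofFinite K
  rw [nu_apply, nu_apply, map_prod]
  symm
  have hinj : Function.Injective (fun k : K => (⟨α * k * α⁻¹, hα k k.2⟩ : K)) := by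
    intro a b h
    have h1 : α * (a : MulAut X) * α⁻¹ = α * b * α⁻¹ := congrArg Subtype.val h
    exact Subtype.ext (mul_left_cancel (mul_right_cancel h1))
  refine Fintype.prod_bijective _ ((Finite.injective_iff_bijective).1 hinj) _ _ fun k => ?_
  show α ((k : MulAut X) x) = (α * k * α⁻¹) (α x)
  rw [MulAut.mul_apply, MulAut.mul_apply, MulAut.inv_apply_self]

theorem nu_fixed {K : Subgroup (MulAut X)} {x : X} (hx : ∀ k ∈ K, k x = x) :
    nu K x = x ^ Nat.card K := by
  haveI := Fintype.ofFinite K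
  have h1 : ∀ k : K, (k : MulAut X) x = x := fun k => hx k k.2
  rw [nu_apply, Fintype.prod_congr _ _ h1, Finset.prod_const,
    Finset.card_univ, Nat.card_eq_fintype_card]

/-- a `p`-group of automorphisms has fixed points modulo an invariant subgroup -/
theorem exists_fixed_mod {r : ℕ} [Fact r.Prime] {P : Subgroup (MulAut X)} (hP : IsPGroup r P)
    {S U : Subgroup X} (hS : IsPGroup r S) {s0 : X} (hs0 : s0 ∈ S) (hs0U : s0 ∉ U)
    (hPS : ∀ p ∈ P, ∀ s ∈ S, p s ∈ S) (hPU : ∀ p ∈ P, ∀ u ∈ U, p u ∈ U) :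
    ∃ w ∈ S, w ∉ U ∧ ∀ p ∈ P, p w * w⁻¹ ∈ U := by
  set U' : Subgroup S := U.subgroupOf S with hU'
  have hmap : ∀ (p : P) (a b : S), (QuotientGroup.leftRel U') a b →
      (QuotientGroup.leftRel U') (⟨(p : MulAut X) a, hPS p p.2 a a.2⟩ : S) ⟨(p : MulAut X) b, hPS p p.2 b b.2⟩ := by
    intro p a b h
    rw [QuotientGroup.leftRel_apply] at h ⊢
    have h1 : (a : X)⁻¹ * b ∈ U := h
    show ((p : MulAut X) a)⁻¹ * (p : MulAut X) b ∈ U
    rw [← map_inv, ← map_mul]
    exact hPU p p.2 _ h1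
  letI act : MulAction P (S ⧸ U') :=
    { smul := fun p y => Quotient.map' (fun a : S => (⟨(p : MulAut X) a, hPS p p.2 a a.2⟩ : S)) (hmap p) y
      one_smul := by
        intro y
        induction y using Quotient.inductionOn' with
        | h a => rfl
      mul_smul := by
        intro p q y
        induction y using Quotient.inductionOn' with
        | h a => rfl }
  have hQ : IsPGroup r (S ⧸ U') := hS.to_quotient U'
  have hd : r ∣ Nat.card (S ⧸ U') := by
    refine hQ.card_eq_or_dvd.resolve_left fun h => hs0U ?_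
    have h1 : U'.index = 1 := h
    rw [index_eq_one] at h1
    have h2 : (⟨s0, hs0⟩ : S) ∈ U' := by rw [h1]; trivial
    exact h2
  have h1fix : (QuotientGroup.mk (1 : S) : S ⧸ U') ∈ MulAction.fixedPoints P (S ⧸ U') := by
    intro p
    show (QuotientGroup.mk (⟨(p : MulAut X) ((1 : S) : X), _⟩ : S) : S ⧸ U') = _
    congr 1
    apply Subtype.ext
    simp
  obtain ⟨b, hb, hb1⟩ := hP.exists_fixed_point_of_prime_dvd_card_of_fixed_point _ hd h1fix
  obtain ⟨w, rfl⟩ := QuotientGroup.mk_surjective b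
  refine ⟨w, w.2, ?_, ?_⟩
  · intro h
    apply hb1
    rw [QuotientGroup.eq, inv_one, one_mul]
    exact h
  · intro p hp
    have h2 := hb ⟨p, hp⟩
    have h3 : (QuotientGroup.mk (⟨p w, hPS p hp w w.2⟩ : S) : S ⧸ U') = QuotientGroup.mk w := h2
    rw [QuotientGroup.eq] at h3
    have h4 : (p w)⁻¹ * (w : X) ∈ U := h3
    have h5 := U.inv_mem h4
    rwa [mul_inv_rev, inv_inv, mul_comm] at h5

/-- restriction of automorphisms to an invariant subgroup -/
def resAut (T : Subgroup X) (K : Subgroup (MulAut X)) (hK : ∀ k ∈ K, ∀ t ∈ T, k t ∈ T) :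
    K →* MulAut T where
  toFun k :=
    { toFun := fun t => ⟨(k : MulAut X) t, hK k k.2 t t.2⟩
      invFun := fun t => ⟨(k : MulAut X)⁻¹ t, hK _ (inv_mem k.2) t t.2⟩
      left_inv := fun _ => Subtype.ext (MulAut.inv_apply_self _ _ _)
      right_inv := fun _ => Subtype.ext (MulAut.apply_inv_self _ _ _)
      map_mul' := fun a b => Subtype.ext (map_mul (k : MulAut X) (a : X) b) }
  map_one' := rfl
  map_mul' := fun _ _ => rfl

theorem pow_part_inv {n : ℕ} {x : X} (hx : x ^ n = 1) (α : MulAut X) : (α x) ^ n = 1 := by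
  rw [← map_pow, hx, map_one]

theorem eq_one_of_pow {x : X} {a b : ℕ} (h1 : x ^ a = 1) (h2 : x ^ b = 1) (hc : a.Coprime b) :
    x = 1 := by
  have := Nat.Coprime.eq_one_of_dvd (Nat.Coprime.coprime_dvd_left (orderOf_dvd_of_pow_eq_one h1) hc)
    (orderOf_dvd_of_pow_eq_one h2)
  rwa [orderOf_eq_one_iff] at this

/-- the elements `x` with `x ^ n = 1` -/
def pt (X : Type*) [CommGroup X] (n : ℕ) : Subgroup X := (powMonoidHom n : X →* X).ker

theorem mem_pt {n : ℕ} {x : X} : x ∈ pt X n ↔ x ^ n = 1 := by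
  rw [pt, MonoidHom.mem_ker, powMonoidHom_apply]

set_option maxHeartbeats 1000000 in
theorem isPGroup_of_semi {r : ℕ} [hr0 : Fact r.Prime] (H : Subgroup (MulAut X)) (Z0 : Subgroup X)
    (hfix : ∀ h ∈ H, ∀ z ∈ Z0, h z = z) (hsemi : ∀ h ∈ H, h ≠ 1 → ∀ x, h x = x → x ∈ Z0)
    {k : ℕ} {w : X} (hw : w ∉ Z0) (hwk : w ^ (r ^ k) = 1) {n : ℕ} (hn : n.Coprime r) {a : X}
    (ha : a ∉ Z0) (han : a ^ n = 1) (hr : r ∣ Nat.card H) : IsPGroup r H := by
  have hrp : r.Prime := hr0.out
  have hnk : ∀ j, n.Coprime (r ^ j) := fun j => Nat.Coprime.pow_right j hn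
  obtain ⟨P⟩ : Nonempty (Sylow r H) := inferInstance
  set P0 : Subgroup (MulAut X) := (P : Subgroup H).map H.subtype with hP0
  have hP0H : P0 ≤ H := map_subtype_le _
  have hP0p : IsPGroup r P0 := P.2.map _
  obtain ⟨j, hj⟩ := IsPGroup.iff_card.mp hP0p
  have hmemP : ∀ h : H, h ∈ (P : Subgroup H) ↔ (h : MulAut X) ∈ P0 := by
    intro h
    rw [hP0]
    constructor
    · intro hh; exact ⟨h, hh, rfl⟩
    · rintro ⟨h', hh', he⟩
      have : h' = h := Subtype.ext he
      rwa [← this]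
  -- an element of order `r` in `P0`
  have hPne : (P : Subgroup H) ≠ ⊥ := P.ne_bot_of_dvd_card hr
  obtain ⟨d, hdP, hd1, -⟩ := H69.exists_central_of_isPGroup P.2 hPne
  -- fixed point modulo `Z0`
  obtain ⟨w1, hw1S, hw1, hw1P⟩ := exists_fixed_mod hP0p (S := pt X (r ^ k)) (U := Z0) (by
      intro x
      refine ⟨k, Subtype.ext ?_⟩
      exact mem_pt.1 x.2) (mem_pt.2 hwk) hw (fun p _ s hs => mem_pt.2 (pow_part_inv (mem_pt.1 hs) p))
      (fun p hp u hu => by rw [hfix p (hP0H hp) u hu]; exact hu)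
  -- `P0` is commutative
  have hcomm : ∀ p ∈ P0, ∀ q ∈ P0, p * q = q * p := by
    intro p hp q hq
    have key : ∀ p ∈ P0, ∀ q ∈ P0, (p * q) w1 = (p w1 * w1⁻¹) * (q w1 * w1⁻¹) * w1 := by
      intro p hp q hq
      have h1 := hfix p (hP0H hp) _ (hw1P q hq)
      have h2 : q w1 = (q w1 * w1⁻¹) * w1 := by group
      rw [MulAut.mul_apply, h2, map_mul, h1]
      have h3 : q w1 * w1⁻¹ * w1 * w1⁻¹ = q w1 * w1⁻¹ := by group
      rw [h3]
      have h4 : p w1 = (p w1 * w1⁻¹) * w1 := by group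
      conv_lhs => rw [h4]
      rw [← mul_assoc, mul_comm (q w1 * w1⁻¹)]
    have h1 : (p * q) w1 = (q * p) w1 := by
      rw [key p hp q hq, key q hq p hp, mul_comm (p w1 * w1⁻¹)]
    by_contra hne
    have h2 : ((q * p)⁻¹ * (p * q)) w1 = w1 := by
      rw [MulAut.mul_apply, h1, MulAut.inv_apply_self]
    refine hw1 (hsemi _ ?_ ?_ w1 h2)
    · exact mul_mem (inv_mem (mul_mem (hP0H hq) (hP0H hp))) (mul_mem (hP0H hp) (hP0H hq))
    · intro h3
      exact hne (inv_mul_eq_one.1 h3).symm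
  -- the group `T`
  set T : Subgroup X := pt X n ⊓ (nu P0).ker with hT
  have hTfpf : ∀ h ∈ H, h ≠ 1 → ∀ t ∈ T, h t = t → t = 1 := by
    intro h hh hh1 t ht hht
    have h1 := hsemi h hh hh1 t hht
    have h2 : nu P0 t = t ^ Nat.card P0 := nu_fixed fun p hp => hfix p (hP0H hp) t h1
    rw [(MonoidHom.mem_ker.1 (mem_inf.1 ht).2), hj] at h2
    exact eq_one_of_pow (mem_pt.1 (mem_inf.1 ht).1) h2.symm (hnk j)
  have hTinv : ∀ α : MulAut X, (∀ p ∈ P0, α * p * α⁻¹ ∈ P0) → ∀ t ∈ T, α t ∈ T := by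
    intro α hα t ht
    refine mem_inf.2 ⟨mem_pt.2 (pow_part_inv (mem_pt.1 (mem_inf.1 ht).1) α), ?_⟩
    rw [MonoidHom.mem_ker, nu_comm hα, MonoidHom.mem_ker.1 (mem_inf.1 ht).2, map_one]
  have hd1' : (d : MulAut X) ≠ 1 := fun h => hd1 (Subtype.ext h)
  have hTnt : Nontrivial T := by
    have h1 : (d : MulAut X) a * a⁻¹ ∈ T := by
      refine mem_inf.2 ⟨mem_pt.2 ?_, ?_⟩
      · rw [mul_pow, pow_part_inv han, inv_pow, han, inv_one, one_mul]
      · rw [MonoidHom.mem_ker, map_mul, nu_smul ((hmemP d).1 hdP), map_inv, mul_inv_cancel]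
    refine ⟨⟨⟨_, h1⟩, 1, fun h2 => ?_⟩⟩
    have h3 : (d : MulAut X) a * a⁻¹ = 1 := congrArg Subtype.val h2
    exact ha (hsemi d d.2 hd1' a (mul_inv_eq_one.1 h3))
  have hfpf : ∀ (K : Subgroup (MulAut X)) (hKH : K ≤ H) (hK : ∀ k ∈ K, ∀ t ∈ T, k t ∈ T),
      Frob.IsFPF (resAut T K hK) := by
    intro K hKH hK κ hκ t ht
    have h1 : (κ : MulAut X) t = t := congrArg Subtype.val ht
    exact Subtype.ext (hTfpf κ (hKH κ.2) (fun h => hκ (Subtype.ext h)) t t.2 h1)
  have hP0conj : ∀ q ∈ P0, ∀ p ∈ P0, q * p * q⁻¹ ∈ P0 := fun q hq p hp =>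
    mul_mem (mul_mem hq hp) (inv_mem hq)
  have hP0T : ∀ p ∈ P0, ∀ t ∈ T, p t ∈ T := fun p hp t ht => hTinv p (hP0conj p hp) t ht
  letI instP : CommGroup P0 :=
    { (inferInstance : Group P0) with
      mul_comm := fun a b => Subtype.ext (hcomm a a.2 b b.2) }
  have hcyc : IsCyclic P0 := Frob.IsFPF.isCyclic_of_comm (A := P0) (W := T) (hfpf P0 hP0H hP0T)
  -- the normalizer of `P` is an `r`-group
  have hN : ∀ v : H, (∀ p ∈ P0, (v : MulAut X) * p * (v : MulAut X)⁻¹ ∈ P0) →
      ∀ l : ℕ, l.Prime → orderOf v = l → l = r := by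
    intro v hv l hl hvl
    by_contra hlr
    have hrP : r ∣ Nat.card P0 := by
      refine hP0p.card_eq_or_dvd.resolve_left fun h => ?_
      rw [Subgroup.card_eq_one] at h
      have := (hmemP d).1 hdP
      rw [h, mem_bot] at this
      exact hd1' this
    obtain ⟨e, he⟩ := exists_prime_orderOf_dvd_card' (G := P0) r hrP
    have heo : orderOf (e : MulAut X) = r := by rw [orderOf_coe, he]
    -- `v` normalizes `⟨e⟩`
    have huniq : ∀ x : P0, x ^ r = 1 → x ∈ zpowers e := by
      intro x hx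
      classical
      haveI := Fintype.ofFinite P0
      have h1 := IsCyclic.card_pow_eq_one_le (α := P0) hrp.pos
      have h2 : (Finset.univ.filter (fun y : P0 => y ∈ zpowers e)) ⊆
          Finset.univ.filter (fun y : P0 => y ^ r = 1) := by
        intro y hy
        rw [Finset.mem_filter] at hy ⊢
        refine ⟨Finset.mem_univ _, ?_⟩
        obtain ⟨i, hi⟩ := mem_zpowers_iff.1 hy.2
        rw [← hi, ← zpow_natCast, ← zpow_mul, mul_comm, zpow_mul, zpow_natCast, ← he,
          pow_orderOf_eq_one, one_zpow]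
      have h3 : (Finset.univ.filter (fun y : P0 => y ∈ zpowers e)).card = r := by
        rw [← he, ← Nat.card_zpowers e]
        rw [Nat.card_eq_fintype_card, Fintype.card_subtype]
      have h4 := Finset.eq_of_subset_of_card_le h2 (by rw [h3]; exact h1)
      have h5 : x ∈ Finset.univ.filter (fun y : P0 => y ^ r = 1) :=
        Finset.mem_filter.2 ⟨Finset.mem_univ _, hx⟩
      rw [← h4] at h5
      exact (Finset.mem_filter.1 h5).2
    have hve : (v : MulAut X) * e * (v : MulAut X)⁻¹ ∈ zpowers (e : MulAut X) := by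
      have h1 := huniq ⟨_, hv e e.2⟩ (Subtype.ext (by
        show ((v : MulAut X) * e * (v : MulAut X)⁻¹) ^ r = 1
        rw [conj_pow, ← heo, pow_orderOf_eq_one, mul_one, mul_inv_cancel]))
      obtain ⟨i, hi⟩ := mem_zpowers_iff.1 h1
      exact mem_zpowers_iff.2 ⟨i, congrArg Subtype.val hi⟩
    have hvo : orderOf (v : MulAut X) = l := by rw [orderOf_coe, hvl]
    have hnorm : zpowers (v : MulAut X) ≤ normalizer (zpowers (e : MulAut X) : Set (MulAut X)) := by
      rw [zpowers_le]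
      have hmap : (zpowers (e : MulAut X)).map (MulAut.conj (v : MulAut X)).toMonoidHom =
          zpowers (e : MulAut X) := by
        apply Subgroup.eq_of_le_of_card_ge
        · rw [MonoidHom.map_zpowers, zpowers_le]
          exact hve
        · rw [Subgroup.card_map_of_injective (MulAut.conj (v : MulAut X)).injective]
      rw [mem_normalizer_iff]
      intro x
      constructor
      · intro hx
        rw [← hmap]
        exact ⟨x, hx, rfl⟩
      · intro hx
        rw [← hmap] at hx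
        obtain ⟨y, hy, hyx⟩ := hx
        have : y = x := (MulAut.conj (v : MulAut X)).injective hyx
        rwa [← this]
    have hlr' : r.Coprime l := (Nat.coprime_primes hrp hl).2 (Ne.symm hlr)
    have hdisj : zpowers (v : MulAut X) ⊓ zpowers (e : MulAut X) = ⊥ := by
      apply inf_eq_bot_of_coprime
      rw [Nat.card_zpowers, Nat.card_zpowers, hvo, heo]
      exact hlr'.symm
    set E : Subgroup (MulAut X) := zpowers (v : MulAut X) ⊔ zpowers (e : MulAut X) with hE
    have hEcard : Nat.card E = l * r := by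
      rw [hE, H11.card_sup_of_disjoint hnorm hdisj, Nat.card_zpowers, Nat.card_zpowers, hvo, heo]
    have hEH : E ≤ H := by
      rw [hE, sup_le_iff, zpowers_le, zpowers_le]
      exact ⟨v.2, hP0H e.2⟩
    have hET : ∀ x ∈ E, ∀ t ∈ T, x t ∈ T := by
      have h1 : E ≤ { carrier := {x | ∀ t, t ∈ T ↔ x t ∈ T}
                      mul_mem' := by
                        intro a b ha hb t
                        rw [hb t, ha]; rfl
                      one_mem' := fun t => Iff.rfl
                      inv_mem' := by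
                        intro a ha t
                        rw [ha (a⁻¹ t), MulAut.apply_inv_self] : Subgroup (MulAut X) } := by
        rw [hE, sup_le_iff, zpowers_le, zpowers_le]
        have key : ∀ x : MulAut X, (∀ t ∈ T, x t ∈ T) → ∀ t, t ∈ T ↔ x t ∈ T := by
          intro x hx t
          refine ⟨hx t, fun ht => ?_⟩
          have hinj : Function.Injective (fun s : T => (⟨x s, hx s s.2⟩ : T)) := by
            intro s s' hs
            exact Subtype.ext (x.injective (congrArg Subtype.val hs))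
          obtain ⟨s, hs⟩ := ((Finite.injective_iff_bijective).1 hinj).2 ⟨x t, ht⟩
          have : (s : X) = t := x.injective (congrArg Subtype.val hs)
          rw [← this]; exact s.2
        exact ⟨key _ (hTinv v hv), key _ (hP0T e e.2)⟩
      intro x hx t ht
      exact (h1 hx t).1 ht
    have hEcyc : IsCyclic E := Frob.IsFPF.isCyclic_of_card_eq_mul (A := E) (W := T)
      (hfpf E hEH hET) hl hrp hEcard
    have hve2 : (v : MulAut X) * e = e * v := by
      have h1 : (⟨(v : MulAut X), mem_sup_left (mem_zpowers _)⟩ : E) * ⟨e, mem_sup_right (mem_zpowers _)⟩ =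
          ⟨e, mem_sup_right (mem_zpowers _)⟩ * ⟨(v : MulAut X), mem_sup_left (mem_zpowers _)⟩ := by
        letI := hEcyc.commGroup
        exact mul_comm _ _
      exact congrArg Subtype.val h1
    -- the trick
    obtain ⟨κ, hκ⟩ : ∃ κ, κ = (e : MulAut X) w1 * w1⁻¹ := ⟨_, rfl⟩
    have hκZ : κ ∈ Z0 := by rw [hκ]; exact hw1P e e.2
    have he1 : (e : MulAut X) ≠ 1 := by
      intro h; rw [h, orderOf_one] at heo; exact hrp.one_lt.ne heo
    have f1 : (e : MulAut X) w1 = κ * w1 := by rw [hκ]; group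
    have f2 : (e : MulAut X) ((v : MulAut X) w1) = κ * (v : MulAut X) w1 := by
      rw [← MulAut.mul_apply, ← hve2, MulAut.mul_apply, f1, map_mul, hfix v v.2 κ hκZ]
    obtain ⟨c, hc⟩ : ∃ c, c = (v : MulAut X) w1 * w1⁻¹ := ⟨_, rfl⟩
    have hcZ : c ∈ Z0 := by
      refine hsemi e (hP0H e.2) he1 c ?_
      rw [hc, map_mul, map_inv, f1, f2, mul_inv_rev]
      calc κ * (v : MulAut X) w1 * (w1⁻¹ * κ⁻¹) = (κ * κ⁻¹) * ((v : MulAut X) w1 * w1⁻¹) := by
            rw [mul_comm w1⁻¹ κ⁻¹, mul_mul_mul_comm]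
        _ = _ := by rw [mul_inv_cancel, one_mul]
    have f3 : ∀ i : ℕ, ((v : MulAut X) ^ i) w1 = c ^ i * w1 := by
      intro i
      induction i with
      | zero => simp
      | succ i ih =>
        have h1 : (v : MulAut X) w1 = c * w1 := by rw [hc]; group
        rw [pow_succ', MulAut.mul_apply, ih, map_mul, map_pow, hfix v v.2 c hcZ, h1, pow_succ,
          mul_assoc]
    have f4 : c ^ l = 1 := by
      have h1 := f3 l
      rw [← hvo, pow_orderOf_eq_one] at h1
      rw [hvo] at h1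
      exact (mul_eq_right.1 (show c ^ l * w1 = w1 from h1.symm))
    have f5 : c ^ (r ^ k) = 1 := by
      rw [hc, mul_pow, pow_part_inv (mem_pt.1 hw1S), inv_pow, mem_pt.1 hw1S, inv_one, one_mul]
    have f6 : c = 1 := eq_one_of_pow f5 f4 (Nat.Coprime.pow_left k hlr')
    have f7 : (v : MulAut X) w1 = w1 := by rw [hc] at f6; exact mul_inv_eq_one.1 f6
    refine hw1 (hsemi v v.2 ?_ w1 f7)
    intro h
    rw [h, orderOf_one] at hvo
    exact hl.one_lt.ne hvo
  have hNP : normalizer ((P : Subgroup H) : Set H) ≤ (P : Subgroup H) := by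
    set N := normalizer ((P : Subgroup H) : Set H) with hNdef
    have hvN : ∀ v ∈ N, ∀ p ∈ P0, (v : MulAut X) * p * (v : MulAut X)⁻¹ ∈ P0 := by
      intro v hv p hp
      have h1 := (mem_normalizer_iff.1 hv ⟨p, hP0H hp⟩).1 ((hmemP _).2 hp)
      exact (hmemP _).1 h1
    have hNr : IsPGroup r N := by
      rw [IsPGroup.iff_card]
      refine ⟨_, Nat.eq_prime_pow_of_unique_prime_dvd Nat.card_pos.ne' ?_⟩
      intro l hl hlN
      haveI : Fact l.Prime := ⟨hl⟩
      obtain ⟨v, hv⟩ := exists_prime_orderOf_dvd_card' (G := N) l hlN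
      exact hN v (hvN v v.2) l hl (by rw [orderOf_coe, hv])
    rw [P.3 hNr le_normalizer]
  have hPC : normalizer ((P : Subgroup H) : Set H) ≤ centralizer ((P : Subgroup H) : Set H) := by
    refine hNP.trans ?_
    intro x hx
    rw [mem_centralizer_iff]
    intro y hy
    exact Subtype.ext (hcomm y ((hmemP y).1 hy) x ((hmemP x).1 hx))
  -- the normal complement
  obtain ⟨V, hVc, hVr, hVn⟩ : ∃ V : Subgroup H, V.IsComplement' (P : Subgroup H) ∧
      ¬ r ∣ Nat.card V ∧ V.Normal :=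
    ⟨_, MonoidHom.ker_transferSylow_isComplement' P hPC,
      MonoidHom.not_dvd_card_ker_transferSylow P hPC, MonoidHom.normal_ker _⟩
  have hVbot : V = ⊥ := by
    by_contra hVne
    set V0 : Subgroup (MulAut X) := V.map H.subtype with hV0
    have hV0H : V0 ≤ H := map_subtype_le _
    have hV0card : Nat.card V0 = Nat.card V := Subgroup.card_map_of_injective H.subtype_injective
    obtain ⟨v, hvV, hv1⟩ := (Subgroup.ne_bot_iff_exists_ne_one.1 hVne : ∃ a : V, a ≠ 1).elim
      (fun a ha => (⟨(a : H), a.2, fun h => ha (Subtype.ext h)⟩ : ∃ v : H, v ∈ V ∧ v ≠ 1))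
    have hv1' : (v : MulAut X) ≠ 1 := fun h => hv1 (Subtype.ext h)
    have hvV0 : (v : MulAut X) ∈ V0 := ⟨v, hvV, rfl⟩
    have hconj : ∀ p ∈ P0, ∀ x ∈ V0, p * x * p⁻¹ ∈ V0 := by
      rintro p hp _ ⟨x, hx, rfl⟩
      exact ⟨⟨p, hP0H hp⟩ * x * ⟨p, hP0H hp⟩⁻¹, hVn.conj_mem x hx _, rfl⟩
    set T' : Subgroup X := pt X (r ^ k) ⊓ (nu V0).ker with hT'
    have hT'0 : ∀ t ∈ T', t ∈ Z0 → t = 1 := by
      intro t ht htZ
      have h2 : nu V0 t = t ^ Nat.card V0 := nu_fixed fun p hp => hfix p (hV0H hp) t htZ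
      rw [(MonoidHom.mem_ker.1 (mem_inf.1 ht).2), hV0card] at h2
      refine eq_one_of_pow (mem_pt.1 (mem_inf.1 ht).1) h2.symm (Nat.Coprime.pow_left k ?_)
      exact (Nat.Prime.coprime_iff_not_dvd hrp).2 hVr
    have hs0 : (v : MulAut X) w1 * w1⁻¹ ∈ T' := by
      refine mem_inf.2 ⟨mem_pt.2 ?_, ?_⟩
      · rw [mul_pow, pow_part_inv (mem_pt.1 hw1S), inv_pow, mem_pt.1 hw1S, inv_one, one_mul]
      · rw [MonoidHom.mem_ker, map_mul, nu_smul hvV0, map_inv, mul_inv_cancel]
    obtain ⟨t, htT, ht1, htP⟩ := exists_fixed_mod hP0p (S := T') (U := ⊥) (by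
      intro x
      refine ⟨k, Subtype.ext ?_⟩
      exact mem_pt.1 (mem_inf.1 x.2).1) hs0 (by
        rw [mem_bot]
        intro h
        exact hw1 (hsemi v v.2 hv1' w1 (mul_inv_eq_one.1 h)))
      (by
        intro p hp t ht
        refine mem_inf.2 ⟨mem_pt.2 (pow_part_inv (mem_pt.1 (mem_inf.1 ht).1) p), ?_⟩
        rw [MonoidHom.mem_ker, nu_comm (hconj p hp), MonoidHom.mem_ker.1 (mem_inf.1 ht).2, map_one])
      (by
        intro p _ u hu
        rw [mem_bot] at hu ⊢
        rw [hu, map_one])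
    rw [mem_bot] at ht1
    have h3 := htP d ((hmemP d).1 hdP)
    rw [mem_bot, mul_inv_eq_one] at h3
    exact ht1 (hT'0 t htT (hsemi d d.2 hd1' t h3))
  rw [hVbot] at hVc
  have hPtop : (P : Subgroup H) = ⊤ := isComplement'_bot_left.1 hVc
  have h1 := P.2
  rw [hPtop] at h1
  exact h1.of_equiv Subgroup.topEquiv

end act

end Cfsg.Agent.H4.TwoSize
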